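import Cfsg.Agent.PERM.TC3.BlkB

set_option autoImplicit false
set_option linter.unusedSectionVars false

namespace CL.TC3
open Subgroup

variable {V : Type} [AddCommGroup V] [Finite V]

namespace AddB

variable {G : Subgroup (Aut V)} {W : Submodule ℤ V} {f : V → V}

theorem self_mem : W ∈ tr G W := ⟨1, one_mem _, (Submodule.map_id W).symm⟩

/-- the parallelogram law for two different blocks -/
theorem sq (hi : Irr G) (h : Blk G W) (hf : A3 G f) {X Y : Submodule ℤ V} (hX : X ∈ tr G W) (hY : Y ∈ tr G W)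
    (ne : X ≠ Y) {a b : V} (ha : a ∈ X) (hb : b ∈ Y) (c : V) :
    f (c + b + a) - f (c + b) = f (c + a) - f c := by
  obtain ⟨-, hT, p, hp⟩ := h.proj hi
  by_cases a0 : a = 0
  · simp [a0]
  by_cases b0 : b = 0
  · simp [b0]
  have hD : ∀ u v, (∃ Z ∈ tr G W, f (u + v) - f u ∈ Z) ↔ ∃ Z ∈ tr G W, v ∈ Z := by
    intro u v
    obtain ⟨g, hg, e, -⟩ := hf u (u + v) u
    rw [add_sub_cancel_left] at e
    rw [e]
    exact ⟨fun ⟨Z, hZ, m⟩ => ⟨_, (hT Z hZ).2.2 g⁻¹ (inv_mem hg), ⟨g v, m, inv_ap g v⟩⟩,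
      fun ⟨Z, hZ, m⟩ => ⟨_, (hT Z hZ).2.2 g hg, ⟨v, m, rfl⟩⟩⟩
  have nD : ¬ ∃ Z ∈ tr G W, f (c + (a + b)) - f c ∈ Z := by
    rw [hD]
    rintro ⟨Z, hZ, m⟩
    by_cases e : Z = X
    · have := (hp Y hY).2 Z hZ (e ▸ ne) _ m
      rw [map_add, (hp Y hY).1 b hb, (hp Y hY).2 X hX ne a ha, zero_add] at this
      exact b0 this
    · have := (hp X hX).2 Z hZ e _ m
      rw [map_add, (hp X hX).1 a ha, (hp X hX).2 Y hY ne.symm b hb, add_zero] at this
      exact a0 this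
  obtain ⟨g, hg, ea, eb⟩ := hf c (c + a) (c + b)
  rw [add_sub_cancel_left] at ea eb
  obtain ⟨Z, hZ, mZ⟩ := (hD (c + a) b).2 ⟨Y, hY, hb⟩
  obtain ⟨Z', hZ', mZ'⟩ := (hD (c + b) a).2 ⟨X, hX, ha⟩
  have hX' := (hT X hX).2.2 g hg
  have hY' := (hT Y hY).2.2 g hg
  have ne' : Y.map (g : V →ₗ[ℤ] V) ≠ X.map (g : V →ₗ[ℤ] V) := fun e =>
    ne (Submodule.map_injective_of_injective g.injective e).symm
  have ga : g a ∈ X.map (g : V →ₗ[ℤ] V) := ⟨a, ha, rfl⟩
  have gb : g b ∈ Y.map (g : V →ₗ[ℤ] V) := ⟨b, hb, rfl⟩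
  have e1 : c + a + b = c + (a + b) := by abel
  have e2 : c + b + a = c + (a + b) := by abel
  rw [e1] at mZ
  rw [e2] at mZ' ⊢
  have n1 : Z ≠ X.map (g : V →ₗ[ℤ] V) := by
    rintro rfl
    refine nD ⟨_, hX', ?_⟩
    have := add_mem mZ ga
    rwa [← ea, sub_add_sub_cancel] at this
  have k : g a + (f (c + (a + b)) - f (c + a)) = g b + (f (c + (a + b)) - f (c + b)) := by
    rw [← ea, ← eb]; abel
  have k2 := congrArg (p (X.map (g : V →ₗ[ℤ] V))) k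
  rw [map_add, map_add, (hp _ hX').1 _ ga, (hp _ hX').2 _ hZ n1 _ mZ, (hp _ hX').2 _ hY' ne' _ gb, add_zero,
    zero_add] at k2
  by_cases e : Z' = X.map (g : V →ₗ[ℤ] V)
  · rw [(hp _ hX').1 _ (e ▸ mZ')] at k2
    rw [ea, k2]
  · rw [(hp _ hX').2 _ hZ' e _ mZ'] at k2
    exact absurd (g.map_eq_zero_iff.1 k2) a0

/-- restriction of an element that stabilises the block -/
theorem res (hi : Irr G) (h : Blk G W) {g : Aut V} (hg : g ∈ G) {w : V} (hw : w ∈ W) (w0 : w ≠ 0) (e : g w ∈ W) :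
    ∃ k : Aut W, ∀ u : W, g u = k u := by
  have m := h.ti hi self_mem self_mem hg hw w0 e
  exact ⟨(g.ofSubmodules W W m).toAddEquiv.toIntLinearEquiv, fun u => rfl⟩

/-- additivity on a block -/
theorem blk (aih : AIH (Nat.card V)) (hG : Group.IsSolvable G) (hi : Irr G) (h : Blk G W) (hf : A3 G f)
    (f0 : f 0 = 0) {X : Submodule ℤ V} (hX : X ∈ tr G W) {a b : V} (ha : a ∈ X) (hb : b ∈ X) :
    f (a + b) = f a + f b := by
  obtain ⟨w, hw, w0⟩ := (Submodule.ne_bot_iff W).1 h.1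
  obtain ⟨G', sol, hG'⟩ := exists_res hG W
  have lt : Nat.card W < Nat.card V := by
    obtain ⟨v, hv⟩ : ∃ v, v ∉ W := by
      by_contra c
      push Not at c
      exact h.2.1 (Submodule.eq_top_iff'.2 c)
    exact Finite.card_subtype_lt hv
  have irr : Irr G' := by
    intro U hU
    let U' : Submodule ℤ V := (U.toAddSubgroup.map W.toAddSubgroup.subtype).toIntSubmodule
    have mU : ∀ u : W, (u : V) ∈ U' ↔ u ∈ U := fun u =>
      ⟨fun ⟨u', h1, h2⟩ => (Subtype.ext h2 : u' = u) ▸ h1, fun h1 => ⟨u, h1, rfl⟩⟩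
    rcases h.irr hi U' (by rintro _ ⟨u, -, rfl⟩; exact u.2) (by
      rintro g hg gW _ ⟨u, hu, rfl⟩
      obtain ⟨k, hk⟩ := res hi h hg hw w0 (gW w hw)
      exact ⟨k u, hU k ((hG' k).2 ⟨g, hg, hk⟩) u hu, (hk u).symm⟩) with e | e
    · exact Or.inl ((Submodule.eq_bot_iff U).2 fun u hu => Subtype.ext
        ((Submodule.eq_bot_iff U').1 e u ((mU u).2 hu)))
    · exact Or.inr (Submodule.eq_top_iff'.2 fun u => (mU u).1 (by rw [e]; exact u.2))
  obtain ⟨g₁, h₁, rfl⟩ := hX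
  obtain ⟨g₀, h₀, e₀, -⟩ := hf 0 (g₁ w) 0
  rw [f0, sub_zero, sub_zero] at e₀
  have mem : ∀ u : W, (g₀ * g₁)⁻¹ (f (g₁ u)) ∈ W := by
    intro u
    obtain ⟨g, hg, e1, e2⟩ := hf 0 (g₁ w) (g₁ u)
    rw [f0, sub_zero, sub_zero] at e1 e2
    obtain ⟨k, hk⟩ := res hi h (mul_mem (mul_mem (inv_mem (mul_mem h₀ h₁)) hg) h₁) hw w0 (by
      rw [mul_ap, mul_ap, ← e1, e₀, ← mul_ap g₀, inv_ap]; exact hw)
    have := hk u
    rw [mul_ap, mul_ap, ← e2] at this
    rw [this]; exact (k u).2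
  let f' : W → W := fun u => ⟨_, mem u⟩
  have A : A3 G' f' := by
    intro x y z
    obtain ⟨g, hg, e1, e2⟩ := hf (g₁ x) (g₁ y) (g₁ z)
    have hγ := mul_mem (mul_mem (inv_mem (mul_mem h₀ h₁)) hg) h₁
    have d1 : ((f' y - f' x : W) : V) = ((g₀ * g₁)⁻¹ * g * g₁) (y - x : W) := by
      rw [mul_ap, mul_ap, Submodule.coe_sub, Submodule.coe_sub, map_sub g₁, ← e1, map_sub]
    have d2 : ((f' z - f' x : W) : V) = ((g₀ * g₁)⁻¹ * g * g₁) (z - x : W) := by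
      rw [mul_ap, mul_ap, Submodule.coe_sub, Submodule.coe_sub, map_sub g₁, ← e2, map_sub]
    have fin : (∃ k : Aut W, ∀ u : W, ((g₀ * g₁)⁻¹ * g * g₁) u = k u) →
        ∃ k ∈ G', f' y - f' x = k (y - x) ∧ f' z - f' x = k (z - x) := fun ⟨k, hk⟩ =>
      ⟨k, (hG' k).2 ⟨_, hγ, hk⟩, Subtype.ext (d1.trans (hk _)), Subtype.ext (d2.trans (hk _))⟩
    by_cases c1 : y = x
    · by_cases c2 : z = x
      · exact ⟨1, one_mem _, by simp [c1], by simp [c2]⟩
      · exact fin (res hi h hγ (z - x).2 (fun e => c2 (sub_eq_zero.1 (Subtype.ext e))) (d2 ▸ (f' z - f' x).2))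
    · exact fin (res hi h hγ (y - x).2 (fun e => c1 (sub_eq_zero.1 (Subtype.ext e))) (d1 ▸ (f' y - f' x).2))
  obtain ⟨x, hx, rfl⟩ := ha
  obtain ⟨y, hy, rfl⟩ := hb
  have key := congrArg Subtype.val (aih W lt G' sol irr f' A (Subtype.ext (by
    change (g₀ * g₁)⁻¹ (f (g₁ (0 : V))) = 0
    rw [map_zero, f0, map_zero])) ⟨x, hx⟩ ⟨y, hy⟩)
  change (g₀ * g₁)⁻¹ (f (g₁ (x + y))) = (g₀ * g₁)⁻¹ (f (g₁ x)) + (g₀ * g₁)⁻¹ (f (g₁ y)) at key
  rw [← map_add, map_add g₁] at key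
  exact ((g₀ * g₁)⁻¹ : Aut V).injective key

end AddB

/-- Additivity, imprimitive case.
PROOF. Blocks `S = tr G W`, projections `p`. `D` = union of blocks. `A3` gives: `f` injective; `b - a ∈ D ↔ f b - f a ∈ D`.
(1) `a ∈ X`, `b ∈ Y` nonzero, `X ≠ Y`, any `c`: `Δa = f (c+a) - f c ∈ X'`, `Δb = f (c+b) - f c ∈ Y'` nonzero with
`X' ≠ Y'` (one `g` for the triple `c, c+a, c+b`). `d = f (c+a+b) - f c ∉ D` (as `a + b ∉ D`, by `p`), `d = Δa + e = Δb + e'`
with `e ∈ Z`, `e' ∈ Z'` blocks, `Z ≠ X'`, `Z' ≠ Y'` (else `d ∈ D`). Apply `p X'`: `Δa = p X' e'` so `Z' = X'`, `e' = Δa`.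
So `f (c+a+b) + f c = f (c+a) + f (c+b)`. (2) for `a ∈ X` and `c` in the span of the other blocks
`f (c + a) = f c + f a` (the set of `b` with `∀ c, f (c+b+a) - f (c+b) = f (c+a) - f c` is closed under `+` and contains
the other blocks; `c = 0`). (3) `f` is additive on each block `X = g₁ W`: `f X ≤ Y = g₂ W`; `f' = g₂⁻¹ f g₁ : W → W`
satisfies `A3 G'` (`exists_res`, `Blk.ti`), `Irr G'` by `Blk.irr`, so `aih` applies. (4) any `c = x + c'` (`x ∈ X`, `c'` in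
the span of the others), so `f (c + a) = f c' + f (x + a) = f c + f a` for `a ∈ X`; the set of `a` with
`∀ c, f (c + a) = f c + f a` is closed under `+`, contains all blocks, so is everything. -/
theorem addB (aih : AIH (Nat.card V)) {G : Subgroup (Aut V)} (hG : Group.IsSolvable G) (hi : Irr G)
    {W : Submodule ℤ V} (h : Blk G W) {f : V → V} (hf : A3 G f) (f0 : f 0 = 0) (a b : V) : f (a + b) = f a + f b := by
  have hs := (h.proj hi).1
  have ind : ∀ P : V → Prop, (∀ X ∈ tr G W, ∀ x ∈ X, P x) → P 0 → (∀ x y, P x → P y → P (x + y)) → ∀ v, P v := by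
    intro P h1 h2 h3 v
    have hv : v ∈ ⨆ X : tr G W, X.1 := by rw [← sSup_eq_iSup', hs]; trivial
    exact Submodule.iSup_induction _ (motive := P) hv (fun X => h1 X.1 X.2) h2 h3
  have one : ∀ X ∈ tr G W, ∀ x ∈ X, ∀ c, f (c + x) = f c + f x := by
    intro X hX x hx c
    obtain ⟨y, hy, c', hc', rfl⟩ := ind (fun c => ∃ y ∈ X, ∃ c', (∀ a ∈ X, ∀ u, f (u + c' + a) - f (u + c') =
        f (u + a) - f u) ∧ c = c' + y) (fun Y hY v hv => by
      by_cases e : X = Y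
      · exact ⟨v, e ▸ hv, 0, fun a _ u => by rw [add_zero], (zero_add v).symm⟩
      · exact ⟨0, zero_mem _, v, fun a ha u => AddB.sq hi h hf hX hY e ha hv u, (add_zero v).symm⟩)
      ⟨0, zero_mem _, 0, fun a _ u => by rw [add_zero], (add_zero 0).symm⟩ (by
      rintro _ _ ⟨y, hy, c, hc, rfl⟩ ⟨y', hy', c', hc', rfl⟩
      exact ⟨y + y', add_mem hy hy', c + c', fun a ha u => by rw [← add_assoc, hc' a ha, hc a ha], by abel⟩) c
    have e1 := hc' (y + x) (add_mem hy hx) 0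
    have e2 := hc' y hy 0
    simp only [zero_add, f0, sub_zero] at e1 e2
    rw [AddB.blk aih hG hi h hf f0 hX hy hx] at e1
    rw [add_assoc, eq_add_of_sub_eq e1, eq_add_of_sub_eq e2]
    abel
  exact ind (fun b => ∀ a, f (a + b) = f a + f b) one (fun a => by rw [add_zero, f0, add_zero])
    (fun x y hx hy a => by rw [← add_assoc, hy, hx, hy, add_assoc]) b a

end CL.TC3
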