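import Cfsg.Agent.PERM.TC3.Defs

set_option autoImplicit false
set_option linter.unusedSectionVars false

namespace CL.TC3.AddF2
open Subgroup

variable {K V : Type} [Field K] [Finite K] [AddCommGroup V] [Finite V] [Module K V]
  {G : Subgroup (Aut V)} {f : V → V}

theorem fwd (hs : ∀ g ∈ G, Semi K g) (hf : A3 G f) {a b c : V} {t : K} (e : c - a = t • (b - a)) :
    ∃ s : K, f c - f a = s • (f b - f a) := by
  obtain ⟨g, hg, e1, e2⟩ := hf a b c
  obtain ⟨σ, h⟩ := hs g hg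
  exact ⟨σ t, by rw [e1, e2, e, h]⟩

theorem bwd (hs : ∀ g ∈ G, Semi K g) (hf : A3 G f) {a b c : V} {s : K} (e : f c - f a = s • (f b - f a)) :
    ∃ t : K, c - a = t • (b - a) := by
  obtain ⟨g, hg, e1, e2⟩ := hf a b c
  obtain ⟨σ, h⟩ := hs g hg
  exact ⟨σ.symm s, g.injective (by rw [h, σ.apply_symm_apply, ← e1, ← e2, e])⟩

theorem surj (hf : A3 G f) : Function.Surjective f := Finite.injective_iff_surjective.1 fun a b e => by
  obtain ⟨g, -, e1, -⟩ := hf a b b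
  rw [e, sub_self, eq_comm, map_eq_zero_iff _ g.injective, sub_eq_zero] at e1
  exact e1.symm

theorem one (hs : ∀ g ∈ G, Semi K g) (hf : A3 G f) (f0 : f 0 = 0) {a b : V} (h : ∀ t : K, a ≠ t • b) {S T : K}
    (e : f (a + b) = S • f a + T • f b) : S = 1 := by
  by_contra n
  have n' : 1 - S ≠ 0 := sub_ne_zero.2 (Ne.symm n)
  obtain ⟨v, hv⟩ := surj hf (((1 - S)⁻¹ * T) • f b)
  obtain ⟨t, h1⟩ := bwd hs hf (a := a) (b := a + b) (c := v) (s := (1 - S)⁻¹) (by
    rw [hv, e, eq_inv_smul_iff₀ n', smul_sub, smul_smul, mul_inv_cancel_left₀ n']; module)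
  obtain ⟨t', h2⟩ := bwd hs hf (a := 0) (b := b) (c := v) (by rw [hv, f0, sub_zero, sub_zero])
  refine h (t' - t) ?_
  rw [add_sub_cancel_left] at h1
  rw [sub_zero, sub_zero] at h2
  rw [sub_smul, ← h1, ← h2, sub_sub_cancel]

theorem ind (hs : ∀ g ∈ G, Semi K g) (l : K) (l0 : l ≠ 0) (l1 : l ≠ 1) (hf : A3 G f) (f0 : f 0 = 0) {a b : V}
    (h : ∀ t : K, a ≠ t • b) (h' : ∀ t : K, b ≠ t • a) : f (a + b) = f a + f b := by
  have n : 1 - l ≠ 0 := sub_ne_zero.2 l1.symm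
  obtain ⟨s, e⟩ := fwd hs hf (a := (1 - l)⁻¹ • a) (b := l⁻¹ • b) (c := a + b) (t := l) (by
    rw [smul_sub, smul_inv_smul₀ l0, sub_eq_sub_iff_add_eq_add, add_comm a, add_assoc, add_right_inj,
      ← sub_eq_zero, show a + l • (1 - l)⁻¹ • a - (1 - l)⁻¹ • a = a - (1 - l) • (1 - l)⁻¹ • a by module,
      smul_inv_smul₀ n, sub_self])
  obtain ⟨s1, e1⟩ := fwd hs hf (a := 0) (b := a) (c := (1 - l)⁻¹ • a) (by rw [sub_zero, sub_zero])
  obtain ⟨s2, e2⟩ := fwd hs hf (a := 0) (b := b) (c := l⁻¹ • b) (by rw [sub_zero, sub_zero])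
  rw [f0, sub_zero, sub_zero] at e1 e2
  have k : f (a + b) = ((1 - s) * s1) • f a + (s * s2) • f b := by
    rw [sub_eq_iff_eq_add.1 e, e1, e2]; module
  rw [k, one hs hf f0 h k, one hs hf f0 h' ((congrArg f (add_comm b a)).trans (k.trans (add_comm _ _))), one_smul, one_smul]

theorem sym {u v : V} (h0 : u ≠ 0) (h : ∀ t : K, v ≠ t • u) (t : K) : u ≠ t • v := fun e => by
  have t0 : t ≠ 0 := fun k => h0 (by rw [e, k, zero_smul])
  exact h t⁻¹ (by rw [e, inv_smul_smul₀ t0])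

theorem addF2 {G : Subgroup (Aut V)} (hs : ∀ g ∈ G, Semi K g) (d : 2 ≤ Module.finrank K V) (l : K) (l0 : l ≠ 0)
    (l1 : l ≠ 1) (two : ∀ v : V, v + v = 0) {f : V → V} (hf : A3 G f) (f0 : f 0 = 0) (a b : V) :
    f (a + b) = f a + f b := by
  rcases eq_or_ne a 0 with rfl | a0
  · rw [zero_add, f0, zero_add]
  rcases eq_or_ne b 0 with rfl | b0
  · rw [add_zero, f0, add_zero]
  rcases eq_or_ne a b with rfl | ab
  · rw [two, two, f0]
  by_cases h : ∀ t : K, b ≠ t • a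
  · exact ind hs l l0 l1 hf f0 (sym a0 h) h
  obtain ⟨t, ht⟩ : ∃ t : K, b = t • a := by simpa using h
  obtain ⟨c, hc⟩ : ∃ c : V, ∀ s : K, c ≠ s • a := by
    by_contra k
    push Not at k
    have := (finrank_le_one_iff (K := K) (V := V)).2 ⟨a, fun w => (k w).imp fun _ e => e.symm⟩
    omega
  have hc' : ∀ s : K, c ≠ s • b := fun s e => hc (s * t) (by rw [e, ht, mul_smul])
  have key : ∀ x y : K, x • a ≠ y • a → ∀ s : K, x • a + c ≠ s • (y • a + c) := fun x y n s e => by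
    rcases eq_or_ne s 1 with rfl | s1
    · exact n (by simpa using e)
    · have n' : 1 - s ≠ 0 := sub_ne_zero.2 s1.symm
      refine hc ((1 - s)⁻¹ * (s * y - x)) ?_
      rw [mul_smul, eq_inv_smul_iff₀ n', ← sub_eq_zero, ← sub_eq_zero.2 e]; module
  have k1 := key 1 t (by rw [one_smul, ← ht]; exact ab)
  have k2 := key t 1 (by rw [one_smul, ← ht]; exact ab.symm)
  rw [one_smul, ← ht] at k1 k2
  have e := ind hs l l0 l1 hf f0 k1 k2
  rw [ind hs l l0 l1 hf f0 (sym a0 hc) hc, ind hs l l0 l1 hf f0 (sym b0 hc') hc', add_add_add_comm, two, add_zero,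
    add_add_add_comm, two, add_zero] at e
  exact e

end CL.TC3.AddF2
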