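import Cfsg.Agent.PERM.TC3.Defs
import Cfsg.Agent.PERM.TC3.AddF2

set_option autoImplicit false
set_option linter.unusedSectionVars false

namespace CL.TC3
open Subgroup

variable {K V : Type} [Field K] [Finite K] [AddCommGroup V] [Finite V] [Module K V]

namespace AddF

theorem inj {G : Subgroup (Aut V)} {f : V → V} (hf : A3 G f) : Function.Injective f := fun a b e => by
  obtain ⟨g, -, e1, -⟩ := hf a b b
  rw [e, sub_self] at e1
  exact (sub_eq_zero.1 (g.injective (e1.symm.trans (map_zero g).symm))).symm

/-- A nondegenerate additive functional fixed by all automorphisms. -/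
theorem exists_tr (K : Type) [Field K] [Finite K] : ∃ (p : ℕ) (T : K →+ ZMod p),
    (∀ (σ : K ≃+* K) (x : K), T (σ x) = T x) ∧ ∀ x : K, (∀ y, T (x * y) = 0) → x = 0 := by
  obtain ⟨p, hp⟩ := CharP.exists K
  haveI : Fact p.Prime := ⟨CharP.char_is_prime K p⟩
  letI := ZMod.algebra K p
  refine ⟨p, (Algebra.trace (ZMod p) K).toAddMonoidHom, fun σ x => ?_, fun x hx => ?_⟩
  · let τ : K ≃ₐ[ZMod p] K := AlgEquiv.ofRingEquiv (f := σ) fun c => by
      have := RingHom.ext_zmod (σ.toRingHom.comp (algebraMap (ZMod p) K)) (algebraMap (ZMod p) K)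
      exact DFunLike.congr_fun this c
    exact Algebra.trace_eq_of_algEquiv τ x
  · exact (traceForm_nondegenerate (ZMod p) K).1 x fun y => hx y

end AddF

/-- Additivity in dimension one. PROOF. Coordinates `V = K u`. For `b ≠ 0`: `f c / f b = σ (c / b)` (triple `0, b, c`),
so `Tr (f c / f b) = Tr (c / b)`, `Tr` the trace to the prime field (`σ` is `ZMod p`-linear, `Algebra.trace_eq_of_algEquiv`;
or any primitive additive character fixed by all `σ`). Hence `Tr ((f (c+c') - f c - f c') / f b) = 0` for all `b ≠ 0`;
`f` is injective hence bijective, so nondegeneracy of the trace form (`traceForm_nondegenerate`) finishes. -/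
theorem addF1 {G : Subgroup (Aut V)} (hs : ∀ g ∈ G, Semi K g) (d : Module.finrank K V = 1) {f : V → V} (hf : A3 G f)
    (f0 : f 0 = 0) (a b : V) : f (a + b) = f a + f b := by
  obtain ⟨p, T, hσ, nd⟩ := AddF.exists_tr K
  haveI : Module.Finite K V := Module.Finite.of_finite
  obtain ⟨e⟩ : Nonempty (V ≃ₗ[K] K) := FiniteDimensional.nonempty_linearEquiv_of_finrank_eq (by simp [d])
  have fi := AddF.inj hf
  have fs : Function.Surjective f := Finite.surjective_of_injective fi
  have key : ∀ x c : V, x ≠ 0 → T (e (f c) * (e (f x))⁻¹) = T (e c * (e x)⁻¹) := by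
    intro x c hx
    obtain ⟨g, hg, e1, e2⟩ := hf 0 x c
    obtain ⟨σ, hσg⟩ := hs g hg
    rw [f0, sub_zero, sub_zero] at e1 e2
    have ex : e x ≠ 0 := fun h => hx (e.injective (h.trans (map_zero e).symm))
    have fx : e (f x) ≠ 0 := fun h => hx (fi ((e.injective (h.trans (map_zero e).symm)).trans f0.symm))
    have hc : c = (e c * (e x)⁻¹) • x := e.injective (by rw [map_smul, smul_eq_mul]; field_simp)
    have : f c = σ (e c * (e x)⁻¹) • f x := by rw [e1, ← hσg, ← hc, e2]
    rw [this, map_smul, smul_eq_mul, mul_assoc, mul_inv_cancel₀ fx, mul_one, hσ]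
  have : e (f (a + b)) - e (f a) - e (f b) = 0 := by
    refine nd _ fun y => ?_
    by_cases hy : y = 0
    · rw [hy, mul_zero, map_zero]
    obtain ⟨x, hx⟩ := fs (e.symm y⁻¹)
    have x0 : x ≠ 0 := by
      rintro rfl
      rw [f0] at hx
      have := congrArg e hx
      rw [map_zero, e.apply_symm_apply] at this
      exact inv_ne_zero hy this.symm
    have ey : y = (e (f x))⁻¹ := by rw [hx, e.apply_symm_apply, inv_inv]
    rw [ey, sub_mul, sub_mul, map_sub, map_sub, key x _ x0, key x _ x0, key x _ x0, map_add, add_mul, map_add]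
    abel
  apply e.injective
  rw [map_add]
  linear_combination this

/-- Additivity in dimension at least two (fundamental theorem of affine geometry), characteristic two.
PROOF. `A3`: `f` is injective, maps the line `{a + t (b - a)}` into (so onto, counting) the line through `f a, f b`, and
keeps `b - a, c - a` independent. For independent `a, b`: pick `l ≠ 0, 1`; `x a + y b = (1-l) (x' a) + l (y' b)`, so `f`
maps the plane `K a + K b` into `K f a + K f b`; write `f (a+b) = s f a + t f b`. The lines `a + K b` and `K b` are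
disjoint, so their images, the line through `f a, f (a+b)` and `K f b`, are disjoint: if `s ≠ 1` the point
`f a + m (f (a+b) - f a)` with `m = 1/(1-s)` lies in `K f b`; so `s = 1`; likewise `t = 1`. For dependent `a ≠ b` (both
nonzero) take `c` outside the line: `a + b = (a + c) + (b + c)` with `a + c, b + c` independent, `f c + f c = 0`. -/
theorem addF2 {G : Subgroup (Aut V)} (hs : ∀ g ∈ G, Semi K g) (d : 2 ≤ Module.finrank K V) (l : K) (l0 : l ≠ 0) (l1 : l ≠ 1)
    (two : ∀ v : V, v + v = 0) {f : V → V} (hf : A3 G f) (f0 : f 0 = 0) (a b : V) : f (a + b) = f a + f b :=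
  AddF2.addF2 hs d l l0 l1 two hf f0 a b

end CL.TC3
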