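import Cfsg.Agent.PERM.TC3.Dich
import Cfsg.Agent.PERM.TC3.AddB
import Cfsg.Agent.PERM.TC3.AddF

set_option autoImplicit false
set_option linter.unusedSectionVars false

namespace CL.TC3
open Subgroup

variable {V : Type} [AddCommGroup V] [Finite V]

/-- a non-trivial solvable group has a non-trivial abelian normal subgroup -/
theorem Add.exists_ab {G : Type*} [Group G] [Nontrivial G] (hs : Group.IsSolvable G) :
    ∃ A : Subgroup G, A.Normal ∧ A ≠ ⊥ ∧ ∀ a ∈ A, ∀ b ∈ A, a * b = b * a := by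
  classical
  obtain ⟨k, hk⟩ := Nat.exists_eq_succ_of_ne_zero (n := Nat.find hs.solvable) fun h =>
    top_ne_bot (h ▸ Nat.find_spec hs.solvable : derivedSeries G 0 = ⊥)
  have h1 := Nat.find_spec hs.solvable
  rw [hk, derivedSeries_succ, Subgroup.commutator_eq_bot_iff_le_centralizer] at h1
  exact ⟨_, inferInstance, Nat.find_min hs.solvable (m := k) (by omega), fun x hx y hy => (h1 hx y hy).symm⟩

/-- PROOF. triple `a, b, 2b - a` gives `f (2b - a) = 2 f b - f a`; `a = 0`: `f (2b) = 2 f b`; given `x, y` pick `b` with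
`2 b = x + y`: `f y = 2 f b - f x = f (x + y) - f x`. -/
theorem addO {G : Subgroup (Aut V)} (two : ∀ v : V, ∃ b, b + b = v) {f : V → V} (hf : A3 G f) (f0 : f 0 = 0) (a b : V) :
    f (a + b) = f a + f b := by
  have h1 : ∀ x y, f (y + y - x) = f y + f y - f x := fun x y => by
    obtain ⟨g, -, e1, e2⟩ := hf x y (y + y - x)
    have e3 : y + y - x - x = (y - x) + (y - x) := by abel
    rw [e3, map_add, ← e1, sub_eq_iff_eq_add] at e2
    rw [e2]; abel
  obtain ⟨c, hc⟩ := two (a + b)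
  have h2 := h1 0 c
  rw [sub_zero, f0, sub_zero, hc] at h2
  have h3 := h1 a c
  rw [hc, add_sub_cancel_left, ← h2] at h3
  rw [h3]; abel

/-- Additivity. PROOF. Strong induction on `n`. `V` trivial: clear. `2V` is invariant: `⊤` gives `addO`; else `v + v = 0`.
`G = ⊥`: `f b - f a = b - a`, so `f = id`. Else `A ≠ ⊥` abelian normal in `G` (last nontrivial derived term); `dich` gives
`addB`, or a field `K` with a scalar `l ≠ 0, 1` (from `1 ≠ a ∈ A`): `addF1` or `addF2` (`finrank > 0`). -/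
theorem aih (n : ℕ) : AIH n := by
  induction n with
  | zero => exact fun V _ _ h => absurd h (Nat.not_lt_zero _)
  | succ n ih =>
  intro V _ _ hn G hG hi f hf f0 a b
  rcases subsingleton_or_nontrivial V with hV | hV
  · exact Subsingleton.elim _ _
  have ih' : AIH (Nat.card V) := fun W _ _ hW => ih W (by omega)
  rcases hi (LinearMap.range (LinearMap.id + LinearMap.id : V →ₗ[ℤ] V)) (by
    rintro g - _ ⟨w, rfl⟩
    exact ⟨g w, (map_add g w w).symm⟩) with h2 | h2
  swap
  · refine addO (fun v => ?_) hf f0 a b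
    have : v ∈ LinearMap.range (LinearMap.id + LinearMap.id : V →ₗ[ℤ] V) := h2 ▸ Submodule.mem_top
    obtain ⟨c, hc⟩ := this
    exact ⟨c, hc⟩
  have two : ∀ v : V, v + v = 0 := fun v => (Submodule.mem_bot ℤ).1 (h2 ▸ ⟨v, rfl⟩)
  rcases G.bot_or_nontrivial with rfl | hG1
  · have : ∀ v, f v = v := fun v => by
      obtain ⟨g, hg, e, -⟩ := hf 0 v v
      rwa [mem_bot.1 hg, f0, sub_zero, sub_zero] at e
    rw [this, this, this]
  obtain ⟨A, nA, A1, ab⟩ := Add.exists_ab hG
  rcases dich (A := A.map G.subtype) hi (fun g hg => mem_normalizer_fintype (by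
    rintro _ ⟨y, hy, rfl⟩
    exact ⟨_, nA.conj_mem y hy ⟨g, hg⟩, rfl⟩)) (by
    rintro _ ⟨x, hx, rfl⟩ _ ⟨y, hy, rfl⟩
    exact congrArg Subtype.val (ab x hx y hy)) with ⟨W, hW⟩ | ⟨K, _, _, _, hs, sc⟩
  · exact addB ih' hG hi hW hf f0 a b
  obtain ⟨⟨x, hx⟩, x1⟩ := ne_bot_iff_exists_ne_one.1 A1
  obtain ⟨l, hl⟩ := sc x.1 ⟨x, hx, rfl⟩
  have l0 : l ≠ 0 := fun e => by
    obtain ⟨v, hv⟩ := exists_ne (0 : V)
    exact hv (x.1.injective (by rw [hl, e, zero_smul, map_zero]))
  have l1 : l ≠ 1 := fun e => x1 (Subtype.ext (Subtype.ext (LinearEquiv.ext fun v => by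
    rw [hl, e, one_smul]; rfl)))
  have : Module.Finite K V := Module.Finite.of_finite
  have d0 : 0 < Module.finrank K V := Module.finrank_pos
  rcases Nat.lt_or_ge (Module.finrank K V) 2 with d | d
  · exact addF1 hs (by omega) hf f0 a b
  · exact addF2 hs d l l0 l1 two hf f0 a b

end CL.TC3
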