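import Cfsg.Agent.PERM.TC3.Defs

set_option autoImplicit false
set_option linter.unusedSectionVars false

namespace CL.TC3
open Subgroup

namespace Aff

theorem exN {X : Type*} [Group X] {G : Subgroup X} (hG : Group.IsSolvable G) (ne : G ≠ ⊥) :
    ∃ N : Subgroup X, N ≠ ⊥ ∧ (∀ a ∈ N, ∀ b ∈ N, a * b = b * a) ∧ ∀ g ∈ G, ∀ n ∈ N, g * n * g⁻¹ ∈ N := by
  classical
  have h := hG.1
  obtain ⟨k, hk⟩ : ∃ k, Nat.find h = k + 1 := Nat.exists_eq_succ_of_ne_zero fun e => by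
    have := Nat.find_spec h
    rw [e, derivedSeries_zero] at this
    exact ne (by simpa [← MonoidHom.range_eq_map] using congrArg (map G.subtype) this)
  refine ⟨(derivedSeries G k).map G.subtype, fun e => Nat.find_min h (by omega : k < Nat.find h)
    ((map_eq_bot_iff_of_injective _ G.subtype_injective).1 e), ?_, ?_⟩
  · rintro _ ⟨a, ha, rfl⟩ _ ⟨b, hb, rfl⟩
    have := Nat.find_spec h
    rw [hk, derivedSeries_succ, commutator_eq_bot_iff_le_centralizer] at this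
    rw [← map_mul, ← map_mul, (mem_centralizer_iff.1 (this ha) b hb)]
  · rintro g hg _ ⟨a, ha, rfl⟩
    exact ⟨_, (derivedSeries_normal G k).conj_mem a ha ⟨g, hg⟩, rfl⟩

theorem tr {Ω : Type} {G : Subgroup (Equiv.Perm Ω)}
    (pr : ∀ r : Setoid Ω, (∀ g ∈ G, ∀ a b, r a b → r (g a) (g b)) → (∀ a b, r a b → a = b) ∨ ∀ a b, r a b)
    (W : Subgroup (Equiv.Perm Ω)) (hW : ∀ g ∈ G, ∀ n ∈ W, g * n * g⁻¹ ∈ W) :
    W = ⊥ ∨ ∀ a b, ∃ w ∈ W, w a = b := by
  refine (pr ⟨fun a b => ∃ w ∈ W, w a = b, fun a => ⟨1, W.one_mem, rfl⟩, ?_, ?_⟩ ?_).imp_left fun h => ?_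
  · rintro a _ ⟨w, hw, rfl⟩
    exact ⟨w⁻¹, W.inv_mem hw, by simp⟩
  · rintro a _ _ ⟨w, hw, rfl⟩ ⟨v, hv, rfl⟩
    exact ⟨v * w, W.mul_mem hv hw, rfl⟩
  · rintro g hg a _ ⟨w, hw, rfl⟩
    exact ⟨_, hW g hg w hw, by simp⟩
  · exact eq_bot_iff.2 fun w hw => Equiv.ext fun a => (h a _ ⟨w, hw, rfl⟩).symm

variable {V : Type} [AddCommGroup V]

/-- the affine group with linear part `G` -/
def aG (G : Subgroup (Aut V)) : Subgroup (Equiv.Perm V) where
  carrier := {p | ∃ g ∈ G, ∀ v, p v = g v + p 0}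
  one_mem' := ⟨1, G.one_mem, fun v => by simp⟩
  mul_mem' := fun {p q} ⟨g, hg, e⟩ ⟨h, hh, e'⟩ => ⟨g * h, G.mul_mem hg hh, fun v => by
    rw [Equiv.Perm.mul_apply, Equiv.Perm.mul_apply, e, e', e (q 0), map_add, mul_ap, add_assoc]⟩
  inv_mem' := fun {p} ⟨g, hg, e⟩ => ⟨g⁻¹, G.inv_mem hg, fun v => p.injective (by
    have := e (p⁻¹ 0)
    rw [Equiv.Perm.inv_def, Equiv.apply_symm_apply] at this
    rw [Equiv.Perm.inv_def, Equiv.apply_symm_apply, e, map_add, ap_inv, add_assoc, ← this, add_zero])⟩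

theorem sol {G : Subgroup (Aut V)} (hG : Group.IsSolvable G) : Group.IsSolvable (aG G) := by
  choose L hL e using fun p : aG G => p.2
  let φ : aG G →* G := MonoidHom.mk' (fun p => ⟨L p, hL p⟩) fun p q => Subtype.ext (LinearEquiv.ext fun v => by
    have h1 := e (p * q) v
    rw [coe_mul, Equiv.Perm.mul_apply, Equiv.Perm.mul_apply, e p, e q, e p (q.1 0), map_add, add_assoc,
      add_left_inj] at h1
    exact h1.symm)
  have : Group.IsSolvable φ.ker := Group.isSolvable_of_comm fun a b => Subtype.ext (Subtype.ext (Equiv.ext fun v => by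
    have ha : L a = 1 := congrArg Subtype.val a.2
    have hb : L b = 1 := congrArg Subtype.val b.2
    change a.1.1 (b.1.1 v) = b.1.1 (a.1.1 v)
    rw [e a, e b v, e b (a.1.1 v), e a v, ha, hb]
    simp only [one_ap]
    abel))
  exact Group.isSolvable_of_ker_le_range φ.ker.subtype φ (by simp)

end Aff

open Aff

/-- A primitive solvable group is affine. -/
theorem aff {Ω : Type} [Finite Ω] {G : Subgroup (Equiv.Perm Ω)} (hG : Group.IsSolvable G) (ne : G ≠ ⊥)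
    (pr : ∀ r : Setoid Ω, (∀ g ∈ G, ∀ a b, r a b → r (g a) (g b)) → (∀ a b, r a b → a = b) ∨ ∀ a b, r a b) :
    ∃ (V : Type) (_ : AddCommGroup V) (e : Ω ≃ V) (G₀ : Subgroup (Aut V)), Nontrivial V ∧ Group.IsSolvable G₀ ∧ Irr G₀ ∧
      ∀ g ∈ G, ∃ g₀ ∈ G₀, ∀ a b, e (g b) - e (g a) = g₀ (e b - e a) := by
  obtain ⟨N, n0, cm, nr⟩ := exN hG ne
  have t := (tr pr N nr).resolve_left n0
  obtain ⟨ω⟩ : Nonempty Ω := by
    by_contra h
    exact n0 (eq_bot_iff.2 fun w _ => Equiv.ext fun a => (h ⟨a⟩).elim)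
  let _ : CommGroup N := { (inferInstance : Group N) with mul_comm := fun a b => Subtype.ext (cm a a.2 b b.2) }
  have reg : ∀ n ∈ N, ∀ n' ∈ N, n ω = n' ω → n = n' := fun n hn n' hn' h => Equiv.ext fun a => by
    obtain ⟨w, hw, rfl⟩ := t ω a
    rw [← Equiv.Perm.mul_apply, cm n hn w hw, ← Equiv.Perm.mul_apply n', cm n' hn' w hw, Equiv.Perm.mul_apply, h,
      Equiv.Perm.mul_apply]
  let f : Additive N → Ω := fun v => (v.toMul : Equiv.Perm Ω) ω
  have hf : Function.Bijective f := ⟨fun u v h => Additive.toMul.injective (Subtype.ext (reg _ u.toMul.2 _ v.toMul.2 h)),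
    fun a => let ⟨w, hw, e⟩ := t ω a; ⟨Additive.ofMul ⟨w, hw⟩, e⟩⟩
  have le : G ≤ normalizer (N : Set (Equiv.Perm Ω)) := fun g hg => mem_normalizer_iff.2 fun n =>
    ⟨nr g hg n, fun h => by simpa [mul_assoc] using nr _ (G.inv_mem hg) _ h⟩
  let ψ := N.normalizerMonoidHom.comp (inclusion le)
  let φ : G →* Aut (Additive N) := MonoidHom.mk' (fun g => (MulEquiv.toAdditive (ψ g)).toIntLinearEquiv)
    fun a b => LinearEquiv.ext fun v => by rw [map_mul]; rfl
  have hφ : ∀ (g : G) v, ((φ g v).toMul : Equiv.Perm Ω) = g * v.toMul * (g : Equiv.Perm Ω)⁻¹ := fun g v => rfl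
  refine ⟨Additive N, inferInstance, (Equiv.ofBijective f hf).symm, φ.range, ?_,
    Group.isSolvable_of_surjective φ.rangeRestrict_surjective, fun W hW => ?_, fun g hg => ⟨φ ⟨g, hg⟩, ⟨_, rfl⟩, fun a b => ?_⟩⟩
  · exact (N.nontrivial_iff_ne_bot.2 n0 :)
  · refine (tr pr ((AddSubgroup.toSubgroup' W.toAddSubgroup).map N.subtype) ?_).imp (fun h => ?_) fun h => ?_
    · rintro g hg _ ⟨n, hn, rfl⟩
      exact ⟨(φ ⟨g, hg⟩ (Additive.ofMul n)).toMul, hW _ ⟨_, rfl⟩ _ hn, rfl⟩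
    · rw [map_eq_bot_iff_of_injective _ N.subtype_injective] at h
      exact eq_bot_iff.2 fun v hv => h.le (x := v.toMul) hv
    · refine eq_top_iff.2 fun v _ => ?_
      obtain ⟨_, ⟨n, hn, rfl⟩, e⟩ := h ω (f v)
      exact hf.1 (a₁ := Additive.ofMul n) e ▸ hn
  · obtain ⟨m, hm⟩ := hf.2 (g ω)
    have k : ∀ u, (Equiv.ofBijective f hf).symm (g (f u)) = φ ⟨g, hg⟩ u + m := fun u => by
      rw [Equiv.symm_apply_eq]
      change g (f u) = ((φ ⟨g, hg⟩ u).toMul : Equiv.Perm Ω) (f m)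
      rw [hm, hφ]
      simp [f]
    obtain ⟨u, rfl⟩ := hf.2 a
    obtain ⟨v, rfl⟩ := hf.2 b
    rw [k, k, Equiv.ofBijective_symm_apply_apply, Equiv.ofBijective_symm_apply_apply, map_sub, add_sub_add_right_eq_sub]

theorem lih_of_ih {n : ℕ} (ih : IH n) : LIH n := by
  intro V _ _ hn G hG
  have inj : Function.Injective (MulAction.toPermHom (Aut V) V) := MulAction.toPerm_injective
  have := ih V hn (aG G) ((cl G).map (MulAction.toPermHom (Aut V) V)) (sol hG) (by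
    rintro _ ⟨h, hh, rfl⟩ a b c
    obtain ⟨g, hg, e1, e2⟩ := hh (b - a) (c - a)
    refine ⟨Equiv.addRight (h a - g a) * g.toEquiv, ⟨g, hg, fun v => by simp⟩, ?_, ?_, ?_⟩
    · change g a + (h a - g a) = h a
      abel
    · change g b + (h a - g a) = h b
      rw [map_sub, map_sub] at e1
      rw [sub_eq_iff_eq_add.1 e1]; abel
    · change g c + (h a - g a) = h c
      rw [map_sub, map_sub] at e2
      rw [sub_eq_iff_eq_add.1 e2]; abel)
  exact Group.isSolvable_of_isSolvable_injective (f := ((cl G).equivMapOfInjective _ inj).toMonoidHom)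
    ((cl G).equivMapOfInjective _ inj).injective

end CL.TC3
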