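import Cfsg.Agent.PERM.TC3.Defs

set_option autoImplicit false
set_option linter.unusedSectionVars false

namespace CL.TC3
open Subgroup

variable {K V M : Type} {r : ℕ} [Fact r.Prime] [Field K] [Finite K] [AddCommGroup V] [Finite V] [Nontrivial V]
  [Module K V] [AddCommGroup M] [Finite M] [Module (ZMod r) M] (P : PR K V M r)

theorem aut_smul (φ : Aut M) (a : ZMod r) (x : M) : φ (a • x) = a • φ x := ZMod.map_smul φ a x

theorem Bas.aut_ne {W : Type} [AddCommGroup W] (g : Aut W) {v : W} (h : v ≠ 0) : g v ≠ 0 :=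
  fun e => h ((LinearEquiv.map_eq_zero_iff g).1 e)

theorem Bas.sm_inj {a b : K} {v : V} (h : v ≠ 0) (e : a • v = b • v) : a = b := smul_left_injective K h e

theorem Bas.co_ne {c : K} {v w : V} (h : v ≠ 0) (e : v = c • w) : c ≠ 0 := by
  rintro rfl
  exact h (by rw [e, zero_smul])

theorem Bas.two_eq : ∀ a b : ZMod 2, (a = 0 ↔ b = 0) → a = b := by decide

namespace PR
open Bas

theorem skew (x y : M) : P.β x y = -P.β y x := by
  have := P.alt (x + y)
  simp only [map_add, LinearMap.add_apply, P.alt, zero_add, add_zero] at this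
  linear_combination this
theorem ψ_ne (a : ZMod r) : P.ψ a ≠ 0 := fun e => by
  have := P.ψ.map_add_eq_mul a (-a)
  rw [add_neg_cancel, AddChar.map_zero_eq_one, e, zero_mul] at this
  exact one_ne_zero this
theorem ψ_inj : Function.Injective P.ψ := fun a b e => by
  refine sub_eq_zero.1 (P.inj _ ?_)
  have := P.ψ.map_add_eq_mul (a - b) b
  rw [sub_add_cancel, e] at this
  exact mul_right_cancel₀ (P.ψ_ne b) (by rw [one_mul]; exact this.symm)
include P in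
/-- if `r = char K` then `(ψ 1 - 1) ^ r = 0`. -/
theorem r_ne : (r : K) ≠ 0 := fun e => by
  have : CharP K r := (CharP.charP_iff_prime_eq_zero Fact.out).2 e
  have h1 : P.ψ 1 ^ r = 1 := by
    rw [← AddChar.map_nsmul_eq_pow, nsmul_eq_mul, ZMod.natCast_self, zero_mul, AddChar.map_zero_eq_one]
  have h2 : (P.ψ 1 - 1) ^ r = 0 := by rw [sub_pow_char, h1, one_pow, sub_self]
  exact one_ne_zero (P.inj 1 (sub_eq_zero.1 (pow_eq_zero_iff (Fact.out : r.Prime).ne_zero |>.1 h2)))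
theorem iso {u : V} (u0 : u ≠ 0) {x y : M} (hx : x ∈ P.St u) (hy : y ∈ P.St u) : P.β x y = 0 := by
  obtain ⟨a, ha⟩ := hx
  obtain ⟨b, hb⟩ := hy
  have a0 := co_ne (aut_ne _ u0) ha
  have b0 := co_ne (aut_ne _ u0) hb
  have := P.comm x y u
  rw [hb, ha, P.lin, P.lin, ha, hb, smul_smul, smul_smul, smul_smul] at this
  have := sm_inj u0 this
  refine P.inj _ (mul_right_cancel₀ (mul_ne_zero a0 b0) ?_)
  linear_combination -this
theorem St_ρ (z : M) (u : V) : P.St (P.ρ z u) = P.St u := by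
  ext x
  constructor
  · rintro ⟨c, hc⟩
    rw [P.comm, ← P.lin z, ← P.lin z] at hc
    refine ⟨(P.ψ (P.β x z))⁻¹ * c, ?_⟩
    rw [mul_smul, eq_inv_smul_iff₀ (P.ψ_ne _)]
    exact (P.ρ z).injective hc
  · rintro ⟨c, hc⟩
    exact ⟨P.ψ (P.β x z) * c, by rw [P.comm, hc, P.lin, mul_smul]⟩
theorem St_smul {c : K} (c0 : c ≠ 0) (u : V) : P.St (c • u) = P.St u := by
  ext x
  constructor
  · rintro ⟨a, ha⟩
    rw [P.lin, smul_comm] at ha
    exact ⟨a, smul_right_injective V c0 ha⟩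
  · rintro ⟨a, ha⟩
    exact ⟨a, by rw [P.lin, ha, smul_comm]⟩
/-- commute both sides with `ρ z`, use `ψ_inj`, `nd`. -/
theorem ρ_inj {x y : M} {c : K} (h : ∀ v, P.ρ x v = c • P.ρ y v) : x = y := by
  obtain ⟨v, v0⟩ := exists_ne (0 : V)
  have c0 := co_ne (aut_ne _ v0) (h v)
  refine sub_eq_zero.1 (P.nd _ fun z => ?_)
  have e1 := P.comm z x v
  rw [h, h, P.lin, P.comm z y v, smul_smul, smul_smul] at e1
  have e2 := sm_inj (aut_ne _ (aut_ne _ v0)) e1
  have e3 : P.ψ (P.β z y) = P.ψ (P.β z x) := mul_left_cancel₀ c0 (by rw [e2, mul_comm])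
  rw [P.skew, map_sub, P.ψ_inj e3, sub_self, neg_zero]
/-- `ρ z u ∈ K ρ z' u` forces `z - z' ∈ St u`. -/
theorem sub_mem_St {u : V} {z z' : M} {c : K} (h : P.ρ z u = c • P.ρ z' u) : z - z' ∈ P.St u := by
  obtain ⟨d, d0, hd⟩ := P.mul (-z') z
  obtain ⟨d', -, hd'⟩ := P.mul (-z') z'
  refine ⟨d⁻¹ * (c * d'), ?_⟩
  rw [mul_smul, eq_inv_smul_iff₀ d0, sub_eq_neg_add, ← hd, h, P.lin, hd', neg_add_cancel, P.zero, mul_smul]
  rfl
theorem pow_ρ (x : M) (n : ℕ) : ∃ c : K, c ≠ 0 ∧ ∀ v, (P.ρ x ^ n) v = c • P.ρ (n • x) v := by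
  induction n with
  | zero => exact ⟨1, one_ne_zero, fun v => by rw [pow_zero, zero_smul, P.zero, one_smul]⟩
  | succ n ih =>
    obtain ⟨c, c0, hc⟩ := ih
    obtain ⟨d, d0, hd⟩ := P.mul x (n • x)
    exact ⟨c * d, mul_ne_zero c0 d0, fun v => by rw [pow_succ', mul_ap, hc, P.lin, hd, succ_nsmul', mul_smul]⟩
theorem pow_scal (x : M) : ∃ c : K, c ≠ 0 ∧ ∀ v, (P.ρ x ^ r) v = c • v := by
  obtain ⟨c, c0, hc⟩ := P.pow_ρ x r
  refine ⟨c, c0, fun v => ?_⟩
  rw [hc, ← Nat.cast_smul_eq_nsmul (ZMod r), ZMod.natCast_self, zero_smul, P.zero]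
  rfl
theorem self_mem_E (A : Submodule (ZMod r) M) (u : V) : u ∈ P.E A u 0 := fun b _ c hc => by
  rw [map_zero, AddChar.map_zero_eq_one, mul_one, hc]
theorem ρ_mem_E {A : Submodule (ZMod r) M} {u y : V} {t : M} (z : M) (h : y ∈ P.E A u t) : P.ρ z y ∈ P.E A u (t + z) :=
  fun b hb c hc => by
  rw [P.comm, h b hb c hc, P.lin, smul_smul, map_add, AddChar.map_add_eq_mul]
  congr 1
  ring
theorem E_congr {A : Submodule (ZMod r) M} (u : V) {t t' : M} (h : ∀ b ∈ A, P.β b t = P.β b t') :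
    P.E A u t = P.E A u t' := by
  ext y
  exact ⟨fun hy b hb c hc => h b hb ▸ hy b hb c hc, fun hy b hb c hc => (h b hb).symm ▸ hy b hb c hc⟩
theorem le_St {A : Submodule (ZMod r) M} {u y : V} {t : M} (hA : A ≤ P.St u) (h : y ∈ P.E A u t) : A ≤ P.St y :=
  fun b hb => let ⟨c, hc⟩ := hA hb; ⟨_, h b hb c hc⟩
/-- a nonzero vector determines its type -/
theorem type_eq {A : Submodule (ZMod r) M} {u y : V} {t t' : M} (u0 : u ≠ 0) (hA : A ≤ P.St u) (y0 : y ≠ 0)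
    (h : y ∈ P.E A u t) (h' : y ∈ P.E A u t') : ∀ b ∈ A, P.β b t = P.β b t' := fun b hb => by
  obtain ⟨c, hc⟩ := hA hb
  exact P.ψ_inj (mul_left_cancel₀ (co_ne (aut_ne _ u0) hc) (sm_inj y0 ((h b hb c hc).symm.trans (h' b hb c hc))))
/-- nondegeneracy: `β.flip : M → Dual M` is injective so surjective; extend `f` to `M`. -/
theorem exists_dual (A : Submodule (ZMod r) M) (f : A →ₗ[ZMod r] ZMod r) : ∃ z, ∀ a : A, P.β a z = f a := by
  have : Module.Finite (ZMod r) M := Module.Finite.of_finite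
  obtain ⟨g, hg⟩ := LinearMap.exists_extend f
  have hi : Function.Injective (P.β.flip : M →ₗ[ZMod r] Module.Dual (ZMod r) M) := by
    refine (injective_iff_map_eq_zero _).2 fun z hz => P.nd z fun a => ?_
    have : P.β a z = 0 := LinearMap.congr_fun hz a
    rw [P.skew, this, neg_zero]
  obtain ⟨z, hz⟩ := (LinearMap.injective_iff_surjective_of_finrank_eq_finrank Subspace.dual_finrank_eq.symm).1 hi g
  exact ⟨z, fun a => (LinearMap.congr_fun hz a).trans (LinearMap.congr_fun hg a)⟩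

variable {P} {s : Aut V} {φ : Aut M}

theorem Act.ψβ {σ : K ≃+* K} (hs : SemiS K σ s) (h : P.Act s φ) (x y : M) :
    P.ψ (P.β (φ x) (φ y)) = σ (P.ψ (P.β x y)) := by
  obtain ⟨v, v0⟩ := exists_ne (0 : V)
  obtain ⟨a, a0, ha⟩ := h x
  obtain ⟨b, b0, hb⟩ := h y
  have e := congrArg s (P.comm x y v)
  rw [hs, ha, hb, hb, ha, P.lin, P.lin, P.comm (φ x) (φ y), smul_smul, smul_smul, smul_smul, smul_smul] at e
  have := sm_inj (aut_ne _ (aut_ne _ (aut_ne _ v0))) e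
  refine mul_left_cancel₀ (mul_ne_zero a0 b0) ?_
  linear_combination this
theorem Act.β_zero (hs : Semi K s) (h : P.Act s φ) (x y : M) : P.β (φ x) (φ y) = 0 ↔ P.β x y = 0 := by
  obtain ⟨σ, hσ⟩ := hs
  have := h.ψβ hσ x y
  constructor
  · intro e
    rw [e, AddChar.map_zero_eq_one] at this
    exact P.inj _ (σ.injective (by rw [← this, map_one]))
  · intro e
    rw [e, AddChar.map_zero_eq_one, map_one] at this
    exact P.inj _ this
theorem Act.β_lin (hs : Lin K s) (h : P.Act s φ) (x y : M) : P.β (φ x) (φ y) = P.β x y :=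
  P.ψ_inj (h.ψβ (σ := RingEquiv.refl K) hs x y)
theorem Act.β_two (h2 : r = 2) (hs : Semi K s) (h : P.Act s φ) (x y : M) : P.β (φ x) (φ y) = P.β x y := by
  subst h2
  exact two_eq _ _ (h.β_zero hs x y)
theorem Act.mem_St (hs : Semi K s) (h : P.Act s φ) (u : V) (x : M) : φ x ∈ P.St (s u) ↔ x ∈ P.St u := by
  obtain ⟨σ, hσ⟩ := hs
  obtain ⟨c, c0, hc⟩ := h x
  constructor
  · rintro ⟨a, ha⟩
    refine ⟨σ.symm (c * a), s.injective ?_⟩
    rw [hc, ha, hσ, σ.apply_symm_apply, mul_smul]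
  · rintro ⟨a, ha⟩
    refine ⟨c⁻¹ * σ a, ?_⟩
    rw [mul_smul, eq_inv_smul_iff₀ c0, ← hc, ha, hσ]
/-- PROOF. `b' = φ b` (`φ` maps the finite `A` onto `A`); with `s (ρ b v) = d ρ b' (s v)`, `ρ b u = c₀ u`, `ρ b' u = c' u`
we get `σ c₀ = d c'`; then `ρ b' (s y) = d⁻¹ σ (c₀ ψ (β b t)) s y`, use `Act.ψβ`. -/
theorem Act.mem_E (hs : Semi K s) (h : P.Act s φ) {A : Submodule (ZMod r) M} {u : V} (u0 : u ≠ 0) (hA : A ≤ P.St u)
    {c : K} (hu : s u = c • u) (hφ : ∀ a ∈ A, φ a ∈ A) {t : M} {y : V} (hy : y ∈ P.E A u t) : s y ∈ P.E A u (φ t) := by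
  obtain ⟨σ, hσ⟩ := hs
  intro b' hb' c' hc'
  have hs : Function.Surjective (fun a : A => (⟨φ a, hφ a a.2⟩ : A)) :=
    Finite.injective_iff_surjective.1 fun a a' e => Subtype.ext (φ.injective (congrArg Subtype.val e))
  obtain ⟨⟨b, hb⟩, e⟩ := hs ⟨b', hb'⟩
  obtain rfl : φ b = b' := congrArg Subtype.val e
  obtain ⟨c₀, h₀⟩ := hA hb
  obtain ⟨d, d0, hd⟩ := h b
  have c0 := co_ne (aut_ne _ u0) hu
  have e1 := hd u
  rw [h₀, hσ, hu, P.lin, hc', smul_smul, smul_smul, smul_smul] at e1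
  have e2 : σ c₀ = d * c' := mul_right_cancel₀ c0 (by linear_combination sm_inj u0 e1)
  have e3 := hd y
  rw [hy b hb c₀ h₀, hσ, map_mul, ← h.ψβ hσ, e2, mul_assoc, mul_smul] at e3
  exact (smul_right_injective V d0 e3).symm

end PR

end CL.TC3
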