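import Cfsg.Agent.PERM.TC3.Defs

set_option autoImplicit false
set_option linter.unusedSectionVars false

namespace CL.TC3
open Subgroup

variable {V : Type} [AddCommGroup V] [Finite V]

/-- The translates of `W`. -/
def tr (G : Subgroup (Aut V)) (W : Submodule ℤ V) : Set (Submodule ℤ V) :=
  {X | ∃ g ∈ G, X = W.map (g : V →ₗ[ℤ] V)}

namespace BlkB

theorem inv_mem' {U : Submodule ℤ V} {g : Aut V} (h : ∀ u ∈ U, g u ∈ U) : ∀ u ∈ U, g⁻¹ u ∈ U := by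
  intro u hu
  obtain ⟨x, e⟩ := (Finite.injective_iff_surjective (f := fun x : U => (⟨g x, h x x.2⟩ : U))).1
    (fun a b e => Subtype.ext (g.injective (congrArg Subtype.val e))) ⟨u, hu⟩
  rw [← show g x = u from congrArg Subtype.val e, inv_ap]
  exact x.2

/-- the stabiliser of a submodule -/
def st (U : Submodule ℤ V) : Subgroup (Aut V) where
  carrier := {g | ∀ u ∈ U, g u ∈ U}
  one_mem' := fun _ hu => hu
  mul_mem' := fun ha hb u hu => ha _ (hb u hu)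
  inv_mem' := inv_mem'

/-- restriction to an invariant submodule -/
def res (U : Submodule ℤ V) : st U →* Aut U := MonoidHom.mk' (fun g =>
  { toFun := fun u => ⟨g.1 u, g.2 u u.2⟩
    invFun := fun u => ⟨g.1⁻¹ u, (g⁻¹).2 u u.2⟩
    map_add' := fun _ _ => Subtype.ext (map_add g.1 _ _)
    map_smul' := fun _ _ => Subtype.ext (map_smul g.1 _ _)
    left_inv := fun _ => Subtype.ext (inv_ap _ _)
    right_inv := fun _ => Subtype.ext (ap_inv _ _) }) fun _ _ => rfl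

theorem res_ap (U : Submodule ℤ V) (g : st U) (u : U) : (res U g u : V) = g.1 u := rfl

theorem map_mul' (W : Submodule ℤ V) (g k : Aut V) :
    (W.map (k : V →ₗ[ℤ] V)).map (g : V →ₗ[ℤ] V) = W.map ((g * k : Aut V) : V →ₗ[ℤ] V) :=
  (Submodule.map_comp _ _ _).symm

end BlkB

/-- Projections. PROOF. For `X = g W` take `p X = g π g⁻¹`; for `Y = g' W ≠ X`, `g⁻¹ g'` does not map `W` into `W`
(finiteness: `g⁻¹ g' W ≤ W` forces equality). `sSup` is `G`-invariant and nonzero, so `⊤`. -/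
theorem Blk.proj {G : Subgroup (Aut V)} {W : Submodule ℤ V} (hG : Irr G) (h : Blk G W) :
    sSup (tr G W) = ⊤ ∧ (∀ X ∈ tr G W, X ≠ ⊥ ∧ X ≠ ⊤ ∧ ∀ g ∈ G, X.map (g : V →ₗ[ℤ] V) ∈ tr G W) ∧
    ∃ p : Submodule ℤ V → V →ₗ[ℤ] V, ∀ X ∈ tr G W, (∀ x ∈ X, p X x = x) ∧
      ∀ Y ∈ tr G W, Y ≠ X → ∀ y ∈ Y, p X y = 0 := by
  obtain ⟨h0, h1, π, p1, p2⟩ := h
  have cl : ∀ X ∈ tr G W, ∀ g ∈ G, X.map (g : V →ₗ[ℤ] V) ∈ tr G W := by
    rintro _ ⟨k, hk, rfl⟩ g hg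
    exact ⟨g * k, mul_mem hg hk, BlkB.map_mul' W g k⟩
  have hW : W ∈ tr G W := ⟨1, one_mem G, (Submodule.map_id W).symm⟩
  refine ⟨(hG _ fun g hg w hw => ?_).resolve_left fun e => h0 (le_bot_iff.1 (e ▸ le_sSup hW)),
    fun X hX => ⟨?_, ?_, cl X hX⟩, ?_⟩
  · have : sSup (tr G W) ≤ (sSup (tr G W)).comap (g : V →ₗ[ℤ] V) := sSup_le fun X hX =>
      Submodule.map_le_iff_le_comap.1 (le_sSup (cl X hX g hg))
    exact this hw
  · obtain ⟨k, -, rfl⟩ := hX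
    exact fun e => h0 ((Submodule.map_eq_bot_iff (e := k)).1 e)
  · obtain ⟨k, -, rfl⟩ := hX
    exact fun e => h1 ((Submodule.map_eq_top_iff (e := k)).1 e)
  · choose! k hk e using fun X (hX : X ∈ tr G W) => hX
    refine ⟨fun X => (k X : V →ₗ[ℤ] V) ∘ₗ π ∘ₗ (((k X)⁻¹ : Aut V) : V →ₗ[ℤ] V), fun X hX => ⟨fun x hx => ?_, ?_⟩⟩
    · rw [e X hX] at hx
      obtain ⟨w, hw, rfl⟩ := hx
      change k X (π ((k X)⁻¹ (k X w))) = k X w
      rw [inv_ap, p1 w hw]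
    · rintro _ ⟨g, hg, rfl⟩ ne _ ⟨w, hw, rfl⟩
      change k X (π (((k X)⁻¹ * g) w)) = 0
      rw [p2 _ (mul_mem (inv_mem (hk X hX)) hg) ?_ w hw, map_zero]
      by_contra! hc
      refine ne ((le_antisymm ?_ ?_).trans (e X hX).symm)
      · rintro _ ⟨u, hu, rfl⟩
        exact ⟨_, hc u hu, ap_inv _ _⟩
      · rintro _ ⟨u, hu, rfl⟩
        refine ⟨_, BlkB.inv_mem' hc u hu, ?_⟩
        change (g * ((k X)⁻¹ * g)⁻¹) u = k X u
        rw [mul_inv_rev, inv_inv, mul_inv_cancel_left]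

/-- TI property. PROOF. `g X ∈ tr`; if `g X ≠ Y` then `p Y (g x) = 0` and `= g x ≠ 0`. -/
theorem Blk.ti {G : Subgroup (Aut V)} {W : Submodule ℤ V} (hG : Irr G) (h : Blk G W) {X Y : Submodule ℤ V}
    (hX : X ∈ tr G W) (hY : Y ∈ tr G W) {g : Aut V} (hg : g ∈ G) {x : V} (hx : x ∈ X) (x0 : x ≠ 0) (e : g x ∈ Y) :
    X.map (g : V →ₗ[ℤ] V) = Y := by
  obtain ⟨-, h1, p, hp⟩ := h.proj hG
  by_contra ne
  have h2 := (hp Y hY).2 _ ((h1 X hX).2.2 g hg) ne (g x) ⟨x, hx, rfl⟩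
  rw [(hp Y hY).1 _ e] at h2
  exact x0 (g.map_eq_zero_iff.1 h2)

/-- The block stabiliser is irreducible on the block. PROOF. Let `X ≤ W` be invariant under all `g ∈ G` with
`g W ≤ W`, `X ≠ ⊥`. `Y = ⨆ g ∈ G, g X` is `G`-invariant, nonzero, so `⊤`. `π` maps each `g X` into `X` (identity if
`g W ≤ W`, else `0`), so `π v ∈ X` for all `v`; for `w ∈ W`, `w = π w ∈ X`. -/
theorem Blk.irr {G : Subgroup (Aut V)} {W : Submodule ℤ V} (hG : Irr G) (h : Blk G W) (X : Submodule ℤ V) (hX : X ≤ W)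
    (hi : ∀ g ∈ G, (∀ w ∈ W, g w ∈ W) → ∀ x ∈ X, g x ∈ X) : X = ⊥ ∨ X = W := by
  obtain ⟨-, -, π, p1, p2⟩ := h
  refine or_iff_not_imp_left.2 fun h0 => le_antisymm hX fun w hw => ?_
  have hs : ∀ g ∈ G, X.map (g : V →ₗ[ℤ] V) ≤ ⨆ g ∈ G, X.map (g : V →ₗ[ℤ] V) := fun g hg =>
    le_iSup₂_of_le g hg le_rfl
  have h1 : (⨆ g ∈ G, X.map (g : V →ₗ[ℤ] V)) = ⊤ := (hG _ fun g hg v hv => by
    have : (⨆ k ∈ G, X.map (k : V →ₗ[ℤ] V)) ≤ (⨆ k ∈ G, X.map (k : V →ₗ[ℤ] V)).comap (g : V →ₗ[ℤ] V) :=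
      iSup₂_le fun k hk => Submodule.map_le_iff_le_comap.1
        ((BlkB.map_mul' X g k).le.trans (hs _ (mul_mem hg hk)))
    exact this hv).resolve_left fun e => h0 (le_bot_iff.1 fun x hx => e ▸ hs 1 (one_mem G) ⟨x, hx, rfl⟩)
  have h2 : (⨆ g ∈ G, X.map (g : V →ₗ[ℤ] V)) ≤ X.comap π := iSup₂_le fun g hg => by
    rintro _ ⟨x, hx, rfl⟩
    change π (g x) ∈ X
    by_cases hc : ∀ w ∈ W, g w ∈ W
    · rw [p1 _ (hc x (hX hx))]
      exact hi g hg hc x hx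
    · rw [p2 g hg (by simpa using hc) x (hX hx)]
      exact zero_mem X
  rw [← p1 w hw]
  exact h2 (h1 ▸ Submodule.mem_top)

/-- Restriction of the stabiliser of a submodule: a solvable group `G'` on `U`. PROOF. range of the restriction hom
from `{g ∈ G | g U ≤ U}` (a subgroup by finiteness) to `Aut U`. -/
theorem exists_res {G : Subgroup (Aut V)} (hG : Group.IsSolvable G) (U : Submodule ℤ V) :
    ∃ G' : Subgroup (Aut U), Group.IsSolvable G' ∧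
      ∀ k : Aut U, k ∈ G' ↔ ∃ g ∈ G, ∀ u : U, g u = k u := by
  have : Group.IsSolvable (G.subgroupOf (BlkB.st U)) := Group.isSolvable_of_isSolvable_injective
    (f := ((BlkB.st U).subtype.comp (G.subgroupOf (BlkB.st U)).subtype).codRestrict G fun x => x.2)
    fun a b e => Subtype.ext (Subtype.ext (congrArg (fun z : G => (z : Aut V)) e))
  refine ⟨(G.subgroupOf (BlkB.st U)).map (BlkB.res U),
    Group.isSolvable_of_surjective ((BlkB.res U).subgroupMap_surjective _), fun k => ⟨?_, ?_⟩⟩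
  · rintro ⟨g, hg, rfl⟩
    exact ⟨g, hg, fun _ => rfl⟩
  · rintro ⟨g, hg, e⟩
    exact ⟨⟨g, fun u hu => (e ⟨u, hu⟩).symm ▸ (k ⟨u, hu⟩).2⟩, hg, LinearEquiv.ext fun u => Subtype.ext (e u)⟩

/-- The TI lemma. PROOF. `solv_sep`: `x ∈ C`, `x ≠ 1` moves some `u ∈ U ∈ S` (`hs`). Restriction hom `C →* Aut U`; its
range lies in `cl G'` (`exists_res`): for `u, u' ∈ U` not both zero, `g ∈ G` agreeing with `h ∈ C` at `u, u'` preserves
`U` by `ht`. `lih` applies as `card U < card V`. -/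
theorem ti (lih : LIH (Nat.card V)) {G C : Subgroup (Aut V)} (hG : Group.IsSolvable G) (S : Set (Submodule ℤ V))
    (hp : ∀ U ∈ S, U ≠ ⊤) (hs : sSup S = ⊤) (ht : ∀ U ∈ S, ∀ g ∈ G, ∀ u ∈ U, u ≠ 0 → g u ∈ U → ∀ u' ∈ U, g u' ∈ U)
    (hC : C ≤ cl G) (hU : ∀ h ∈ C, ∀ U ∈ S, ∀ u ∈ U, h u ∈ U) : Group.IsSolvable C := by
  refine solv_sep fun x x1 => ?_
  obtain ⟨U, hS, u, hu, mv⟩ : ∃ U ∈ S, ∃ u ∈ U, x.1 u ≠ u := by
    by_contra! hc
    have : sSup S ≤ LinearMap.eqLocus (x.1 : V →ₗ[ℤ] V) LinearMap.id := sSup_le fun U hU u hu => hc U hU u hu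
    exact x1 (Subtype.ext (LinearEquiv.ext fun v => this (hs ▸ Submodule.mem_top)))
  obtain ⟨G', s, hG'⟩ := exists_res hG U
  have le : C ≤ BlkB.st U := fun h hh => hU h hh U hS
  have := lih U (Finite.card_subtype_lt (x := (SetLike.exists_of_lt (hp U hS).lt_top).choose)
    (SetLike.exists_of_lt (hp U hS).lt_top).choose_spec.2) G' s
  have hr : ((BlkB.res U).comp (inclusion le)).range ≤ cl G' := by
    rintro _ ⟨h, rfl⟩ a b
    obtain ⟨g, hg, e1, e2⟩ := hC h.2 a b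
    by_cases h0 : a = 0 ∧ b = 0
    · exact ⟨1, one_mem _, by rw [h0.1, map_zero, map_zero], by rw [h0.2, map_zero, map_zero]⟩
    have hg' : g ∈ BlkB.st U := by
      rcases not_and_or.1 h0 with h1 | h1
      · exact ht U hS g hg a a.2 (fun e => h1 (Subtype.ext e)) (e1 ▸ le h.2 a a.2)
      · exact ht U hS g hg b b.2 (fun e => h1 (Subtype.ext e)) (e2 ▸ le h.2 b b.2)
    exact ⟨BlkB.res U ⟨g, hg'⟩, (hG' _).2 ⟨g, hg, fun _ => rfl⟩, Subtype.ext e1, Subtype.ext e2⟩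
  exact ⟨Aut U, inferInstance, (BlkB.res U).comp (inclusion le),
    Group.isSolvable_of_isSolvable_injective (inclusion_injective hr),
    fun e => mv (congrArg (fun k : Aut U => (k ⟨u, hu⟩ : V)) e)⟩

end CL.TC3
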