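import Mathlib

/-! Definitions for the solvability of 3-closures of solvable permutation groups. -/

set_option autoImplicit false
set_option linter.unusedSectionVars false

namespace CL.TC3
open Subgroup

/-- `H` lies in the 3-closure of `G`. -/
def Cl3 {Ω : Type} (G H : Subgroup (Equiv.Perm Ω)) : Prop :=
  ∀ h ∈ H, ∀ a b c : Ω, ∃ g ∈ G, g a = h a ∧ g b = h b ∧ g c = h c

/-- The theorem in degree `< n`. -/
def IH (n : ℕ) : Prop := ∀ (Ω : Type) [Finite Ω], Nat.card Ω < n →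
  ∀ G H : Subgroup (Equiv.Perm Ω), Group.IsSolvable G → Cl3 G H → Group.IsSolvable H

/-- Additive automorphisms, as a multiplicative group. -/
abbrev Aut (V : Type) [AddCommGroup V] := V ≃ₗ[ℤ] V

section
variable {V : Type} [AddCommGroup V]

theorem mul_ap (g h : Aut V) (v : V) : (g * h) v = g (h v) := rfl
theorem one_ap (v : V) : (1 : Aut V) v = v := rfl
theorem inv_ap (g : Aut V) (v : V) : g⁻¹ (g v) = v := g.symm_apply_apply v
theorem ap_inv (g : Aut V) (v : V) : g (g⁻¹ v) = v := g.apply_symm_apply v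

instance [Finite V] : Finite (Aut V) := Finite.of_injective (fun g : Aut V => (g : V → V)) DFunLike.coe_injective

/-- The additive automorphisms agreeing with `G` on all pairs of vectors. -/
def cl (G : Subgroup (Aut V)) : Subgroup (Aut V) where
  carrier := {h | ∀ v w, ∃ g ∈ G, g v = h v ∧ g w = h w}
  one_mem' := fun _ _ => ⟨1, one_mem _, rfl, rfl⟩
  mul_mem' := fun {a b} ha hb v w => by
    obtain ⟨g, hg, e1, e2⟩ := hb v w
    obtain ⟨g', hg', e3, e4⟩ := ha (b v) (b w)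
    exact ⟨g' * g, mul_mem hg' hg, by rw [mul_ap, mul_ap, e1, e3], by rw [mul_ap, mul_ap, e2, e4]⟩
  inv_mem' := fun {a} ha v w => by
    obtain ⟨g, hg, e1, e2⟩ := ha (a⁻¹ v) (a⁻¹ w)
    rw [ap_inv] at e1 e2
    exact ⟨g⁻¹, inv_mem hg, by nth_rewrite 1 [← e1]; rw [inv_ap], by nth_rewrite 1 [← e2]; rw [inv_ap]⟩

theorem mem_cl {G : Subgroup (Aut V)} {h : Aut V} : h ∈ cl G ↔ ∀ v w, ∃ g ∈ G, g v = h v ∧ g w = h w := Iff.rfl
theorem le_cl (G : Subgroup (Aut V)) : G ≤ cl G := fun g hg _ _ => ⟨g, hg, rfl, rfl⟩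
theorem cl_mono {G G' : Subgroup (Aut V)} (h : G ≤ G') : cl G ≤ cl G' := fun _ ha v w =>
  let ⟨g, hg, e⟩ := ha v w; ⟨g, h hg, e⟩

/-- Irreducibility. -/
def Irr (G : Subgroup (Aut V)) : Prop :=
  ∀ W : Submodule ℤ V, (∀ g ∈ G, ∀ w ∈ W, g w ∈ W) → W = ⊥ ∨ W = ⊤

/-- `f` agrees on triples with the affine group with linear part `G`. -/
def A3 (G : Subgroup (Aut V)) (f : V → V) : Prop :=
  ∀ a b c, ∃ g ∈ G, f b - f a = g (b - a) ∧ f c - f a = g (c - a)

/-- `W` is a block of a system of imprimitivity: `π` is the identity on `W` and kills its other translates. -/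
def Blk (G : Subgroup (Aut V)) (W : Submodule ℤ V) : Prop :=
  W ≠ ⊥ ∧ W ≠ ⊤ ∧ ∃ π : V →ₗ[ℤ] V, (∀ w ∈ W, π w = w) ∧ ∀ g ∈ G, (∃ w ∈ W, g w ∉ W) → ∀ w ∈ W, π (g w) = 0

/-- Solvable and containing every solvable group it normalises. -/
def MaxS (G : Subgroup (Aut V)) : Prop :=
  Group.IsSolvable G ∧ ∀ N : Subgroup (Aut V), Group.IsSolvable N → G ≤ normalizer (N : Set (Aut V)) → N ≤ G

variable (K : Type) [Field K] [Module K V]

/-- semilinear with automorphism `σ` -/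
def SemiS (σ : K ≃+* K) (g : Aut V) : Prop := ∀ (c : K) (v : V), g (c • v) = σ c • g v
/-- semilinear -/
def Semi (g : Aut V) : Prop := ∃ σ : K ≃+* K, SemiS K σ g
/-- linear -/
def Lin (g : Aut V) : Prop := ∀ (c : K) (v : V), g (c • v) = c • g v
/-- scalar -/
def Scal (g : Aut V) : Prop := ∃ c : K, ∀ v : V, g v = c • v

/-- `F` is a `Γ`-chief factor over the scalars with centre the scalars. -/
structure Chief (Γ F : Subgroup (Aut V)) : Prop where
  semi : ∀ g ∈ Γ, Semi K g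
  nrm : Γ ≤ normalizer (F : Set (Aut V))
  lin : ∀ x ∈ F, Lin K x
  sc : ∀ x, Scal K x → x ∈ F
  ne : ∃ x ∈ F, ¬Scal K x
  sol : Group.IsSolvable F
  cen : ∀ z ∈ F, (∀ y ∈ F, z * y = y * z) → Scal K z
  min : ∀ E : Subgroup (Aut V), E ≤ F → Γ ≤ normalizer (E : Set (Aut V)) → (∀ x, Scal K x → x ∈ E) →
    E = F ∨ ∀ x ∈ E, Scal K x

end

/-- The linear theorem for order `< n`. -/
def LIH (n : ℕ) : Prop := ∀ (V : Type) [AddCommGroup V] [Finite V], Nat.card V < n →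
  ∀ G : Subgroup (Aut V), Group.IsSolvable G → Group.IsSolvable (cl G)

/-- Additivity for order `< n`. -/
def AIH (n : ℕ) : Prop := ∀ (V : Type) [AddCommGroup V] [Finite V], Nat.card V < n →
  ∀ G : Subgroup (Aut V), Group.IsSolvable G → Irr G → ∀ f : V → V, A3 G f → f 0 = 0 →
    ∀ a b, f (a + b) = f a + f b

/-- A projective representation of the symplectic space `M` on `V`. -/
structure PR (K V M : Type) (r : ℕ) [Fact r.Prime] [Field K] [AddCommGroup V] [Module K V]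
    [AddCommGroup M] [Module (ZMod r) M] where
  ρ : M → Aut V
  β : M →ₗ[ZMod r] M →ₗ[ZMod r] ZMod r
  ψ : AddChar (ZMod r) K
  lin : ∀ x, Lin K (ρ x)
  zero : ρ 0 = 1
  mul : ∀ x y, ∃ c : K, c ≠ 0 ∧ ∀ v, ρ x (ρ y v) = c • ρ (x + y) v
  comm : ∀ x y v, ρ x (ρ y v) = ψ (β x y) • ρ y (ρ x v)
  inj : ∀ a, ψ a = 1 → a = 0
  alt : ∀ x, β x x = 0
  nd : ∀ x, (∀ y, β x y = 0) → x = 0
  spl : r ≠ 2 ∨ IsSquare (-1 : K) → ∀ x, ∃ v, v ≠ 0 ∧ ∃ c : K, ρ x v = c • v

namespace PR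
variable {K V M : Type} {r : ℕ} [Fact r.Prime] [Field K] [AddCommGroup V] [Module K V]
  [AddCommGroup M] [Module (ZMod r) M] (P : PR K V M r)

theorem st_add {u : V} {x y : M} (hx : ∃ c : K, P.ρ x u = c • u) (hy : ∃ c : K, P.ρ y u = c • u) :
    ∃ c : K, P.ρ (x + y) u = c • u := by
  obtain ⟨a, ha⟩ := hx
  obtain ⟨b, hb⟩ := hy
  obtain ⟨c, c0, hc⟩ := P.mul x y
  refine ⟨c⁻¹ * (b * a), ?_⟩
  rw [mul_smul, eq_inv_smul_iff₀ c0, ← hc, hb, P.lin, ha, mul_smul]

/-- The stabiliser of the line through `u`. -/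
def St (u : V) : Submodule (ZMod r) M where
  carrier := {x | ∃ c : K, P.ρ x u = c • u}
  zero_mem' := ⟨1, by rw [P.zero, one_smul]; rfl⟩
  add_mem' := P.st_add
  smul_mem' := fun a x hx => by
    obtain ⟨n, rfl⟩ := ZMod.natCast_zmod_surjective a
    rw [Nat.cast_smul_eq_nsmul]
    induction n with
    | zero => exact ⟨1, by rw [zero_smul, P.zero, one_smul]; rfl⟩
    | succ n ih => rw [succ_nsmul]; exact P.st_add ih hx

theorem mem_St {u : V} {x : M} : x ∈ P.St u ↔ ∃ c : K, P.ρ x u = c • u := Iff.rfl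

/-- `x` has an eigenvector. -/
def Split (x : M) : Prop := ∃ u : V, u ≠ 0 ∧ x ∈ P.St u

/-- `u ≠ 0` has a maximal line stabiliser. -/
def MaxSt (u : V) : Prop := u ≠ 0 ∧ ∀ u' : V, u' ≠ 0 → P.St u ≤ P.St u' → P.St u' ≤ P.St u

/-- The joint eigenspace of `A ≤ St u` whose character differs from that of `u` by `ψ (β · t)`. -/
def E (A : Submodule (ZMod r) M) (u : V) (t : M) : Submodule K V where
  carrier := {y | ∀ b ∈ A, ∀ c : K, P.ρ b u = c • u → P.ρ b y = (c * P.ψ (P.β b t)) • y}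
  zero_mem' := fun b _ c _ => by rw [map_zero, smul_zero]
  add_mem' := fun hy hz b hb c hc => by rw [map_add, hy b hb c hc, hz b hb c hc, smul_add]
  smul_mem' := fun a y hy b hb c hc => by rw [P.lin, hy b hb c hc, smul_comm]

theorem mem_E {A : Submodule (ZMod r) M} {u y : V} {t : M} :
    y ∈ P.E A u t ↔ ∀ b ∈ A, ∀ c : K, P.ρ b u = c • u → P.ρ b y = (c * P.ψ (P.β b t)) • y := Iff.rfl

/-- `s` induces `φ` on `M`. -/
def Act (s : Aut V) (φ : Aut M) : Prop := ∀ x, ∃ c : K, c ≠ 0 ∧ ∀ v, s (P.ρ x v) = c • P.ρ (φ x) (s v)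

/-- `φ` is induced by a semilinear map fixing `v` and `w`. -/
def Fx (v w : V) (φ : Aut M) : Prop := ∃ s : Aut V, Semi K s ∧ P.Act s φ ∧ s v = v ∧ s w = w

/-- The pair `(a, b)` is encoded, up to sign, by a pair of vectors. -/
def Pin (a b : M) : Prop := ∃ v w : V, ∀ φ, P.Fx v w φ → (φ a = a ∧ φ b = b) ∨ (φ a = -a ∧ φ b = -b)

end PR

/-- A finite group separated by homomorphisms with solvable image is solvable. -/
theorem solv_sep {H : Type*} [Group H] [Finite H]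
    (h : ∀ x : H, x ≠ 1 → ∃ (Q : Type) (_ : Group Q) (f : H →* Q), Group.IsSolvable f.range ∧ f x ≠ 1) :
    Group.IsSolvable H := by
  obtain ⟨n, hn⟩ := WellFoundedLT.antitone_chain_condition (derivedSeries_antitone H)
  refine ⟨⟨n, eq_bot_iff.2 fun x hx => mem_bot.2 (by_contra fun x1 => ?_)⟩⟩
  obtain ⟨Q, _, f, ⟨m, hm⟩, e⟩ := h x x1
  rw [hn (max n m) (le_max_left _ _)] at hx
  have := map_derivedSeries_le_derivedSeries f.rangeRestrict m
    (mem_map_of_mem _ (derivedSeries_antitone H (le_max_right n m) hx))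
  rw [hm] at this
  exact e (congrArg Subtype.val (mem_bot.1 this))

end CL.TC3
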