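import Cfsg.Agent.PERM.TC3.Defs

set_option autoImplicit false
set_option linter.unusedSectionVars false

namespace CL.TC3
open Subgroup

variable {V : Type} [AddCommGroup V] [Finite V]

namespace Dich

/-- conjugation of an endomorphism -/
def cj (g : Aut V) (x : Module.End ℤ V) : Module.End ℤ V :=
  (g : V →ₗ[ℤ] V) * x * ((g⁻¹ : Aut V) : V →ₗ[ℤ] V)

theorem cj_ap (g : Aut V) (x : Module.End ℤ V) (v : V) : cj g x v = g (x (g⁻¹ v)) := rfl

/-- the generated ring -/
def R (A : Subgroup (Aut V)) : Subring (Module.End ℤ V) :=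
  Subring.closure {x | ∃ a ∈ A, x = ((a : Aut V) : V →ₗ[ℤ] V)}

theorem R_comm {A : Subgroup (Aut V)} (ab : ∀ a ∈ A, ∀ b ∈ A, a * b = b * a) :
    ∀ x ∈ R A, ∀ y ∈ R A, x * y = y * x := by
  intro x hx y hy
  have h1 : ∀ a ∈ A, ∀ y ∈ R A, ((a : Aut V) : V →ₗ[ℤ] V) * y = y * ((a : Aut V) : V →ₗ[ℤ] V) := by
    intro a ha y hy
    have : R A ≤ Subring.centralizer {((a : Aut V) : V →ₗ[ℤ] V)} := by
      refine Subring.closure_le.2 ?_
      rintro _ ⟨b, hb, rfl⟩
      refine Subring.mem_centralizer_iff.2 ?_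
      rintro _ rfl
      ext v
      exact congrArg (fun f : Aut V => f v) (ab a ha b hb)
    exact Subring.mem_centralizer_iff.1 (this hy) _ rfl
  have : R A ≤ Subring.centralizer {y} := by
    refine Subring.closure_le.2 ?_
    rintro _ ⟨b, hb, rfl⟩
    refine Subring.mem_centralizer_iff.2 ?_
    rintro _ rfl
    exact (h1 b hb _ hy).symm
  exact (Subring.mem_centralizer_iff.1 (this hx) _ rfl).symm

theorem cj_mul (g : Aut V) (x y : Module.End ℤ V) : cj g (x * y) = cj g x * cj g y := by
  ext v; simp only [Module.End.mul_apply, cj_ap, inv_ap]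

theorem cj_add (g : Aut V) (x y : Module.End ℤ V) : cj g (x + y) = cj g x + cj g y := by
  ext v; simp only [LinearMap.add_apply, cj_ap, map_add]

theorem cj_neg (g : Aut V) (x : Module.End ℤ V) : cj g (-x) = -cj g x := by
  ext v; simp only [LinearMap.neg_apply, cj_ap, map_neg]

theorem cj_zero (g : Aut V) : cj g 0 = 0 := by
  ext v; simp only [LinearMap.zero_apply, cj_ap, map_zero]

theorem cj_one (g : Aut V) : cj g 1 = 1 := by
  ext v; simp only [Module.End.one_apply, cj_ap, ap_inv]

theorem cj_inv (g : Aut V) (x : Module.End ℤ V) : cj g⁻¹ (cj g x) = x := by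
  ext v; simp only [cj_ap, inv_inv, inv_ap]

theorem cj_inv' (g : Aut V) (x : Module.End ℤ V) : cj g (cj g⁻¹ x) = x := by
  ext v; simp only [cj_ap, inv_inv, ap_inv]

theorem cj_mem {A : Subgroup (Aut V)} {g : Aut V} (hg : g ∈ normalizer (A : Set (Aut V)))
    {x : Module.End ℤ V} (hx : x ∈ R A) : cj g x ∈ R A := by
  induction hx using Subring.closure_induction with
  | mem x hx =>
    obtain ⟨a, ha, rfl⟩ := hx
    exact Subring.subset_closure ⟨g * a * g⁻¹, (mem_normalizer_iff.1 hg a).1 ha, rfl⟩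
  | zero => rw [cj_zero]; exact zero_mem _
  | one => rw [cj_one]; exact one_mem _
  | add x y _ _ h1 h2 => rw [cj_add]; exact add_mem h1 h2
  | neg x _ h1 => rw [cj_neg]; exact neg_mem h1
  | mul x y _ _ h1 h2 => rw [cj_mul]; exact mul_mem h1 h2

/-- a vector with maximal annihilator -/
theorem ex_max [Nontrivial V] (S : Subring (Module.End ℤ V)) (hc : ∀ x ∈ S, ∀ y ∈ S, x * y = y * x) :
    ∃ u : V, u ≠ 0 ∧ ∀ x ∈ S, x u ≠ 0 → ∃ n, 0 < n ∧ (x ^ n) u = u := by
  classical
  haveI : Finite (Module.End ℤ V) := Finite.of_injective (fun g : Module.End ℤ V => (g : V → V)) DFunLike.coe_injective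
  obtain ⟨u0, hu0⟩ := exists_ne (0 : V)
  obtain ⟨u, hu, hm⟩ := Set.Finite.exists_maximalFor (fun u : V => {x : Module.End ℤ V | x ∈ S ∧ x u = 0})
    {u | u ≠ 0} (Set.toFinite _) ⟨u0, hu0⟩
  refine ⟨u, hu, fun x hx x0 => ?_⟩
  have key : ∀ y ∈ S, y u ≠ 0 → ∀ z ∈ S, z (y u) = 0 → z u = 0 := by
    intro y hy y0 z hz e
    have := hm (j := y u) y0 (by
      rintro t ⟨ht, e'⟩
      refine ⟨ht, ?_⟩
      have := congrArg (fun f : Module.End ℤ V => f u) (hc t ht y hy)
      simp only [Module.End.mul_apply] at this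
      rw [this, e', map_zero])
    exact (this (show z ∈ {x : Module.End ℤ V | x ∈ S ∧ x (y u) = 0} from ⟨hz, e⟩)).2
  have pw : ∀ n : ℕ, (x ^ n) u ≠ 0 := by
    intro n
    induction n with
    | zero => simpa using hu
    | succ n ih =>
      intro e
      rw [pow_succ', Module.End.mul_apply] at e
      exact x0 (key _ (pow_mem hx n) ih x hx e)
  have fin : ∀ i j : ℕ, i < j → (x ^ i) u = (x ^ j) u → ∃ n, 0 < n ∧ (x ^ n) u = u := by
    intro i j hij e
    obtain ⟨k, rfl⟩ := Nat.exists_eq_add_of_lt hij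
    refine ⟨k + 1, Nat.succ_pos _, ?_⟩
    have := key _ (pow_mem hx i) (pw i) (x ^ (k + 1) - 1) (sub_mem (pow_mem hx _) (one_mem _)) (by
      rw [LinearMap.sub_apply, ← Module.End.mul_apply, ← pow_add, Module.End.one_apply, e, sub_eq_zero]
      congr 2; omega)
    rwa [LinearMap.sub_apply, Module.End.one_apply, sub_eq_zero] at this
  obtain ⟨i, j, hij, e⟩ := Finite.exists_ne_map_eq_of_infinite (fun n : ℕ => (x ^ n) u)
  rcases lt_or_gt_of_ne hij with h | h
  · exact fin i j h e
  · exact fin j i h e.symm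

theorem cj_pow (g : Aut V) (x : Module.End ℤ V) (n : ℕ) : cj g (x ^ n) = cj g x ^ n := by
  induction n with
  | zero => rw [pow_zero, pow_zero, cj_one]
  | succ n ih => rw [pow_succ, pow_succ, cj_mul, ih]

end Dich

open Dich in
/-- An abelian normal subgroup of an irreducible group: imprimitive, or scalars of a field.
PROOF. `R` = subring of `Module.End ℤ V` generated by `A` (finite, commutative, stable under conjugation by `G`).
Among the ideals `Ann u` (`u ≠ 0`) pick a maximal one `I = Ann u`. It is prime (if `a b u = 0`, `b u ≠ 0` then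
`Ann (b u) ≥ I` so `= I ∋ a`), hence maximal (finite ring). `W = {w | ∀ a ∈ I, a w = 0} ∋ u`, `R`-invariant. For `g ∈ G`,
`g W` is killed by `I_g = g I g⁻¹ = Ann (g u)`, a maximal ideal too; if `I_g = I` then `g W ≤ W`.
* `W ≠ ⊤`: for each `g` with `I_g ≠ I` pick `e_g ∈ I_g`, `1 - e_g ∈ I` (comaximal); `π = ∏ e_g` (finite product,
 commutative) is the identity on `W` and kills `g W`. So `Blk G W`.
* `W = ⊤`: `I = 0`, so `R` is a field `K` (use `IsField.toField`), `V` a `K`-module by evaluation; `g` is semilinear for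
 `σ = ` conjugation by `g`; `a ∈ A` is the scalar `a`. -/
theorem dich [Nontrivial V] {G A : Subgroup (Aut V)} (hG : Irr G) (hA : G ≤ normalizer (A : Set (Aut V)))
    (ab : ∀ a ∈ A, ∀ b ∈ A, a * b = b * a) :
    (∃ W, Blk G W) ∨ ∃ (K : Type) (_ : Field K) (_ : Finite K) (_ : Module K V),
      (∀ g ∈ G, Semi K g) ∧ ∀ a ∈ A, Scal K a := by
  classical
  have hc := R_comm ab
  obtain ⟨u, u0, hu⟩ := ex_max (R A) hc
  let W : Submodule ℤ V :=
    { carrier := {w | ∀ a ∈ R A, a u = 0 → a w = 0}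
      zero_mem' := fun a _ _ => map_zero a
      add_mem' := fun h1 h2 a ha e => by rw [map_add, h1 a ha e, h2 a ha e, add_zero]
      smul_mem' := fun c w h1 a ha e => by rw [map_smul, h1 a ha e, smul_zero] }
  have mW : ∀ w, w ∈ W ↔ ∀ a ∈ R A, a u = 0 → a w = 0 := fun w => Iff.rfl
  by_cases hW : W = ⊤
  · right
    have z : ∀ a ∈ R A, a u = 0 → a = 0 := fun a ha e => by
      ext w
      exact (mW w).1 (hW ▸ Submodule.mem_top) a ha e
    have hF : IsField (R A) :=
      { exists_pair_ne := ⟨1, 0, fun e => u0 (congrArg (fun f : R A => (f : Module.End ℤ V) u) e)⟩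
        mul_comm := fun x y => Subtype.ext (hc x x.2 y y.2)
        mul_inv_cancel := fun {x} x0 => by
          obtain ⟨n, n0, e⟩ := hu x x.2 (fun e => x0 (Subtype.ext (z x x.2 e)))
          obtain ⟨k, rfl⟩ := Nat.exists_eq_add_of_lt n0
          refine ⟨x ^ k, Subtype.ext ?_⟩
          have := z ((x : Module.End ℤ V) ^ (0 + k + 1) - 1) (sub_mem (pow_mem x.2 _) (one_mem _)) (by
            rw [LinearMap.sub_apply, e, Module.End.one_apply, sub_self])
          rw [sub_eq_zero, zero_add, pow_succ'] at this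
          exact this }
    haveI : Finite (Module.End ℤ V) :=
      Finite.of_injective (fun g : Module.End ℤ V => (g : V → V)) DFunLike.coe_injective
    refine ⟨R A, hF.toField, inferInstance, (inferInstance : Module (R A) V), fun g hg => ?_, fun a ha => ?_⟩
    · refine ⟨{ toFun := fun x => ⟨cj g x, cj_mem (hA hg) x.2⟩
                invFun := fun x => ⟨cj g⁻¹ x, cj_mem (hA (inv_mem hg)) x.2⟩
                left_inv := fun x => Subtype.ext (cj_inv g x)
                right_inv := fun x => Subtype.ext (cj_inv' g x)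
                map_mul' := fun x y => Subtype.ext (cj_mul g x y)
                map_add' := fun x y => Subtype.ext (cj_add g x y) }, fun c v => ?_⟩
      show g ((c : Module.End ℤ V) v) = cj g c (g v)
      rw [cj_ap, inv_ap]
    · exact ⟨⟨((a : Aut V) : V →ₗ[ℤ] V), Subring.subset_closure ⟨a, ha, rfl⟩⟩, fun v => rfl⟩
  · left
    refine ⟨W, fun e => u0 ?_, hW, ?_⟩
    · have : u ∈ W := (mW u).2 fun a _ e => e
      rwa [e, Submodule.mem_bot] at this
    have one : ∀ g ∈ G, (∃ w ∈ W, g w ∉ W) → ∃ e ∈ R A, (∀ w ∈ W, e w = w) ∧ ∀ w ∈ W, e (g w) = 0 := by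
      rintro g hg ⟨w, hw, hgw⟩
      rw [mW] at hgw
      push Not at hgw
      obtain ⟨a, ha, au, agw⟩ := hgw
      have hb : cj g⁻¹ a ∈ R A := cj_mem (hA (inv_mem hg)) ha
      have bu : cj g⁻¹ a u ≠ 0 := fun e => agw (by
        have := (mW w).1 hw _ hb e
        rw [cj_ap, inv_inv] at this
        exact (LinearEquiv.map_eq_zero_iff _).1 this)
      obtain ⟨n, n0, e⟩ := hu _ hb bu
      refine ⟨1 - a ^ n, sub_mem (one_mem _) (pow_mem ha _), fun w' hw' => ?_, fun w' hw' => ?_⟩
      · obtain ⟨k, rfl⟩ := Nat.exists_eq_add_of_lt n0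
        rw [LinearMap.sub_apply, pow_succ, Module.End.mul_apply, (mW w').1 hw' a ha au, map_zero, sub_zero,
          Module.End.one_apply]
      · have := (mW w').1 hw' (cj g⁻¹ a ^ n - 1) (sub_mem (pow_mem hb _) (one_mem _)) (by
          rw [LinearMap.sub_apply, e, Module.End.one_apply, sub_self])
        rw [LinearMap.sub_apply, Module.End.one_apply, sub_eq_zero, ← cj_pow, cj_ap, inv_inv] at this
        rw [LinearMap.sub_apply, Module.End.one_apply, sub_eq_zero]
        nth_rewrite 1 [← this]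
        rw [ap_inv]
    have all : ∀ S : Finset (Aut V), ∃ π ∈ R A, (∀ w ∈ W, π w = w) ∧
        ∀ g ∈ S, g ∈ G → (∃ w ∈ W, g w ∉ W) → ∀ w ∈ W, π (g w) = 0 := by
      intro S
      induction S using Finset.induction_on with
      | empty => exact ⟨1, one_mem _, fun w _ => rfl, fun g hg => absurd hg (Finset.notMem_empty g)⟩
      | insert g S _ ih =>
        obtain ⟨π, hπ, p1, p2⟩ := ih
        by_cases hb : g ∈ G ∧ ∃ w ∈ W, g w ∉ W
        · obtain ⟨e, he, e1, e2⟩ := one g hb.1 hb.2
          refine ⟨e * π, mul_mem he hπ, fun w hw => by rw [Module.End.mul_apply, p1 w hw, e1 w hw],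
            fun g' hg' hG' hb' w hw => ?_⟩
          rcases Finset.mem_insert.1 hg' with rfl | hg'
          · rw [hc e he π hπ, Module.End.mul_apply, e2 w hw, map_zero]
          · rw [Module.End.mul_apply, p2 g' hg' hG' hb' w hw, map_zero]
        · refine ⟨π, hπ, p1, fun g' hg' hG' hb' w hw => ?_⟩
          rcases Finset.mem_insert.1 hg' with rfl | hg'
          · exact absurd ⟨hG', hb'⟩ hb
          · exact p2 g' hg' hG' hb' w hw
    haveI := Fintype.ofFinite (Aut V)
    obtain ⟨π, _, p1, p2⟩ := all Finset.univ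
    exact ⟨π, p1, fun g hg hb => p2 g (Finset.mem_univ g) hg hb⟩

end CL.TC3
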