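import Mathlib
import Cfsg.Agent.CHAR.Burnside

/-! A group with two factorisations over a solvable subgroup. -/

set_option autoImplicit false
set_option maxHeartbeats 400000

namespace CL.TC3.Exc1b
open Subgroup

theorem dvd {X : Type} [Group X] [Finite X] {G H S : Subgroup X} (l : S ≤ H)
    (h : ∀ h ∈ H, ∃ g ∈ G, ∃ s ∈ S, h = g * s) : (G.subgroupOf H).index ∣ Nat.card S := by
  have e : (G.subgroupOf H).index = (G.subgroupOf S).index := by
    refine (Nat.card_congr (Equiv.ofBijective (Subgroup.quotientSubgroupOfEmbeddingOfLE G l) ⟨Function.Embedding.injective _, fun q => ?_⟩)).symm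
    obtain ⟨x, rfl⟩ := QuotientGroup.mk_surjective q
    obtain ⟨g, hg, s, hs, e⟩ := h x⁻¹ (H.inv_mem x.2)
    refine ⟨QuotientGroup.mk ⟨s⁻¹, S.inv_mem hs⟩, ?_⟩
    rw [Subgroup.quotientSubgroupOfEmbeddingOfLE_apply_mk, QuotientGroup.eq, mem_subgroupOf]
    have : (x : X) = s⁻¹ * g⁻¹ := by rw [← mul_inv_rev, ← e, inv_inv]
    simpa [this] using hg
  rw [e]
  exact index_dvd_card _

theorem idx {X : Type} [Group X] [Finite X] {G H S₁ S₂ : Subgroup X} (hG : Group.IsSolvable G) (le : G ≤ H) (l1 : S₁ ≤ H)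
    (l2 : S₂ ≤ H) (h1 : ∀ h ∈ H, ∃ g ∈ G, ∃ s ∈ S₁, h = g * s) (h2 : ∀ h ∈ H, ∃ g ∈ G, ∃ s ∈ S₂, h = g * s)
    (o1 : ∀ s ∈ S₁, Odd (orderOf s) → s = 1) (o2 : Nat.card S₂ ∣ 12) : Group.IsSolvable H := by
  have d2 := (dvd l2 h2).trans o2
  have d3 : ¬ 3 ∣ (G.subgroupOf H).index := fun d => by
    have := Fact.mk Nat.prime_three
    obtain ⟨s, hs⟩ := exists_prime_orderOf_dvd_card' 3 (d.trans (dvd l1 h1))
    rw [← Subgroup.orderOf_coe] at hs
    rw [o1 s s.2 (by rw [hs]; decide), orderOf_one] at hs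
    exact absurd hs (by decide)
  have hi : (G.subgroupOf H).index ≤ 4 :=
    Nat.le_of_dvd (by decide) (Nat.Coprime.dvd_of_dvd_mul_left
      ((Nat.Prime.coprime_iff_not_dvd Nat.prime_three).2 d3).symm d2)
  have : Group.IsSolvable (Equiv.Perm (H ⧸ G.subgroupOf H)) :=
    CL.Char.isSolvable_of_card_dvd_pow_mul_pow (a := 3) (b := 1) Nat.prime_two Nat.prime_three (by
      rw [Nat.card_perm]; exact Nat.factorial_dvd_factorial hi)
  refine solvable_of_ker_le_range (inclusion le) (MulAction.toPermHom H (H ⧸ G.subgroupOf H)) ?_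
  rw [← normalCore_eq_ker, inclusion_range]
  exact normalCore_le _

end CL.TC3.Exc1b
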