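import Cfsg.Agent.PERM.TC3.Bas

set_option autoImplicit false
set_option linter.unusedSectionVars false

namespace CL.TC3
open Subgroup

variable {K V M : Type} {r : ℕ} [Fact r.Prime] [Field K] [Finite K] [AddCommGroup V] [Finite V] [Nontrivial V]
  [Module K V] [AddCommGroup M] [Finite M] [Module (ZMod r) M] (P : PR K V M r)

namespace PR

theorem ext_eig_pow {z : M} {u : V} {c : K} (h : P.ρ z u = c • u) (n : ℕ) : (P.ρ z ^ n) u = c ^ n • u := by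
  induction n with
  | zero => rw [pow_zero, pow_zero, one_smul]; rfl
  | succ n ih => rw [pow_succ', mul_ap, ih, P.lin, h, smul_smul, pow_succ]

theorem ext_sq_mul {a b : K} (ha : ¬IsSquare a) (hb : ¬IsSquare b) : IsSquare (a * b) := by
  classical
  have := Fintype.ofFinite K
  have a0 : a ≠ 0 := fun e => ha (e ▸ ⟨0, (mul_zero 0).symm⟩)
  have b0 : b ≠ 0 := fun e => hb (e ▸ ⟨0, (mul_zero 0).symm⟩)
  refine (quadraticChar_one_iff_isSquare (mul_ne_zero a0 b0)).1 ?_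
  rw [map_mul, quadraticChar_neg_one_iff_not_isSquare.2 ha, quadraticChar_neg_one_iff_not_isSquare.2 hb]
  norm_num

theorem ext_sq (h2 : r = 2) (z : M) : ∃ a : K, a ≠ 0 ∧ ∀ v, P.ρ z (P.ρ z v) = a • v := by
  obtain ⟨a, a0, ha⟩ := P.pow_scal z
  refine ⟨a, a0, fun v => ?_⟩
  have : P.ρ z ^ r = P.ρ z * P.ρ z := by rw [← pow_two]; exact congrArg (P.ρ z ^ ·) h2
  rw [← ha v, this, mul_ap]

theorem ext_split_of_sq {x : M} {c : K} (h : ∀ v, P.ρ x (P.ρ x v) = (c * c) • v) : P.Split x := by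
  obtain ⟨v, v0⟩ := exists_ne (0 : V)
  by_cases w0 : P.ρ x v + c • v = 0
  · exact ⟨v, v0, -c, by rw [neg_smul]; exact eq_neg_of_add_eq_zero_left w0⟩
  · refine ⟨_, w0, c, ?_⟩
    rw [map_add, h, P.lin, smul_add, smul_smul, add_comm]

theorem ext_sq_of_split {x : M} {a : K} (h : ∀ v, P.ρ x (P.ρ x v) = a • v) (hs : P.Split x) : IsSquare a := by
  obtain ⟨u, u0, c, hc⟩ := hs
  refine ⟨c, ?_⟩
  have := h u
  rw [hc, P.lin, hc, smul_smul] at this
  exact (smul_left_injective K u0 this).symm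

theorem ext_three (h2 : r = 2) {x y : M} (nx : ¬P.Split x) (ny : ¬P.Split y) (nxy : ¬P.Split (x + y)) :
    P.β x y ≠ 0 := by
  intro h0
  obtain ⟨a, a0, ha⟩ := P.ext_sq h2 x
  obtain ⟨b, b0, hb⟩ := P.ext_sq h2 y
  obtain ⟨d, d0, hd⟩ := P.mul x y
  have na : ¬IsSquare a := fun ⟨c, hc⟩ => nx (P.ext_split_of_sq (c := c) fun v => by rw [ha, hc])
  have nb : ¬IsSquare b := fun ⟨c, hc⟩ => ny (P.ext_split_of_sq (c := c) fun v => by rw [hb, hc])
  obtain ⟨s, hs⟩ := ext_sq_mul na nb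
  have h1 : P.β y x = 0 := by rw [P.skew, h0, neg_zero]
  refine nxy (P.ext_split_of_sq (c := d⁻¹ * s) fun v => ?_)
  have e1 : P.ρ x (P.ρ y (P.ρ x (P.ρ y v))) = (d * d) • P.ρ (x + y) (P.ρ (x + y) v) := by
    rw [hd, hd, P.lin, smul_smul]
  have e2 : P.ρ x (P.ρ y (P.ρ x (P.ρ y v))) = (a * b) • v := by
    rw [P.comm y x, h1, AddChar.map_zero_eq_one, one_smul, ha, hb, smul_smul]
  have e3 : P.ρ (x + y) (P.ρ (x + y) v) = ((d * d)⁻¹ * (a * b)) • v := by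
    rw [mul_smul, eq_inv_smul_iff₀ (mul_ne_zero d0 d0), ← e1, e2]
  rw [e3, hs]
  congr 1
  rw [mul_inv]; ring

theorem ext_eig {ι : Type} (L : V →ₗ[K] V) (W : Submodule K V) (hW : ∀ w ∈ W, L w ∈ W) (f : ι → K) (s : Finset ι) :
    ∀ u ∈ W, u ≠ 0 → Polynomial.aeval L (∏ i ∈ s, (Polynomial.X - Polynomial.C (f i))) u = 0 →
      ∃ v ∈ W, v ≠ 0 ∧ ∃ c : K, L v = c • v := by
  classical
  induction s using Finset.induction_on with
  | empty =>
    intro u _ u0 h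
    rw [Finset.prod_empty, map_one] at h
    exact absurd h u0
  | insert i s hi ih =>
    intro u hu u0 h
    by_cases w0 : L u - f i • u = 0
    · exact ⟨u, hu, u0, f i, sub_eq_zero.1 w0⟩
    · refine ih _ (W.sub_mem (hW u hu) (W.smul_mem _ hu)) w0 ?_
      rw [Finset.prod_insert hi, mul_comm, map_mul, Module.End.mul_apply] at h
      simpa using h

theorem ext_z2 : ∀ a b : ZMod 2, a ≠ 0 → b ≠ 0 → a + b = 0 := by decide

/-- PROOF. `ρ z ^ r = a` (`pow_scal`); on an eigenvector `a = c ^ r`; `e = c⁻¹`. -/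
theorem norm_r {z : M} (hz : P.Split z) : ∃ e : K, e ≠ 0 ∧ ∀ v, e ^ r • (P.ρ z ^ r) v = v := by
  obtain ⟨u, u0, c, hc⟩ := hz
  obtain ⟨a, a0, ha⟩ := P.pow_scal z
  have e : a = c ^ r := smul_left_injective K u0 ((ha u).symm.trans (P.ext_eig_pow hc r))
  have c0 : c ≠ 0 := fun h => a0 (by rw [e, h, zero_pow (Fact.out : r.Prime).ne_zero])
  refine ⟨c⁻¹, inv_ne_zero c0, fun v => ?_⟩
  rw [ha, smul_smul, e, ← mul_pow, inv_mul_cancel₀ c0, one_pow, one_smul]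

/-- PROOF. `ρ z ^ 2 = a ≠ 0`. If `a` is a square, `e² a = 1`. Otherwise `z` is not split, so `-1` is not a square (`spl`), so
`-a` is a square (finite field, product of two non-squares) and `e² a = -1`. -/
theorem norm_two (h2 : r = 2) (z : M) : ∃ e : K, e ≠ 0 ∧ ∃ η : K, (η = 1 ∨ η = -1) ∧ ∀ v, e • P.ρ z (e • P.ρ z v) = η • v := by
  obtain ⟨a, a0, ha⟩ := P.ext_sq h2 z
  have key : ∀ (e : K) v, e • P.ρ z (e • P.ρ z v) = (e * e * a) • v := fun e v => by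
    rw [P.lin, ha, smul_smul, smul_smul]
  by_cases hs : IsSquare a
  · obtain ⟨b, hb⟩ := hs
    have b0 : b ≠ 0 := fun h => a0 (by rw [hb, h, mul_zero])
    refine ⟨b⁻¹, inv_ne_zero b0, 1, Or.inl rfl, fun v => ?_⟩
    rw [key, hb]
    congr 1
    field_simp
  · have n1 : ¬IsSquare (-1 : K) := fun h => by
      obtain ⟨v, v0, c, hc⟩ := P.spl (Or.inr h) z
      exact hs (P.ext_sq_of_split ha ⟨v, v0, c, hc⟩)
    obtain ⟨b, hb⟩ := ext_sq_mul n1 hs
    have b0 : b ≠ 0 := fun h => a0 (by rw [h, mul_zero, neg_one_mul, neg_eq_zero] at hb; exact hb)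
    have ea : a = -(b * b) := by rw [← hb]; ring
    refine ⟨b⁻¹, inv_ne_zero b0, -1, Or.inr rfl, fun v => ?_⟩
    rw [key, ea]
    congr 1
    field_simp

/-- PROOF. `T = e ρ x`, `T ^ r = 1` (`norm_r`) preserves `E A u 0 ∋ u` (`ρ_mem_E`, `E_congr`). The vectors
`y j = ∑ i, ψ (-i j) T^i u` are eigenvectors with `∑ j, y j = r u ≠ 0` (or: `∏ (T - ψ j) = 0` on `E A u 0`); `le_St`. -/
theorem ext {u : V} (u0 : u ≠ 0) {A : Submodule (ZMod r) M} (hA : A ≤ P.St u) {x : M} (hx : ∀ a ∈ A, P.β a x = 0)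
    (sx : P.Split x) : ∃ u', u' ≠ 0 ∧ A ≤ P.St u' ∧ x ∈ P.St u' := by
  obtain ⟨e, e0, he⟩ := P.norm_r sx
  have rp : r.Prime := Fact.out
  let L : V →ₗ[K] V := ⟨⟨fun v => P.ρ x v, map_add _⟩, fun c v => P.lin x c v⟩
  have Lp : ∀ n v, (L ^ n) v = (P.ρ x ^ n) v := fun n => by
    induction n with
    | zero => intro v; rfl
    | succ n ih => intro v; rw [pow_succ, pow_succ, Module.End.mul_apply, mul_ap, ih]; rfl
  have hζ : IsPrimitiveRoot (P.ψ 1) r := by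
    have h1 : P.ψ 1 ^ r = 1 := by
      rw [← AddChar.map_nsmul_eq_pow, nsmul_one, ZMod.natCast_self, AddChar.map_zero_eq_one]
    have h2 : P.ψ 1 ≠ 1 := fun h => one_ne_zero (P.inj 1 h)
    have := IsPrimitiveRoot.orderOf (P.ψ 1)
    rwa [orderOf_eq_prime h1 h2] at this
  have hp := X_pow_sub_C_eq_prod hζ rp.pos (rfl : e⁻¹ ^ r = e⁻¹ ^ r)
  have hW : ∀ w ∈ P.E A u 0, L w ∈ P.E A u 0 := fun w hw => by
    have := P.ρ_mem_E x hw
    rwa [P.E_congr u (t' := 0) fun b hb => by rw [zero_add, hx b hb, map_zero]] at this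
  obtain ⟨v, hv, v0, c, hc⟩ := ext_eig L (P.E A u 0) hW (fun i => P.ψ 1 ^ i * e⁻¹) (Finset.range r) u
    (P.self_mem_E A u) u0 (by
      rw [← hp, map_sub, map_pow, Polynomial.aeval_X, Polynomial.aeval_C, LinearMap.sub_apply, Lp,
        Module.algebraMap_end_apply, sub_eq_zero, inv_pow, eq_inv_smul_iff₀ (pow_ne_zero r e0), he])
  exact ⟨v, v0, P.le_St hA hv, c, hc⟩

theorem exists_max {u : V} (u0 : u ≠ 0) : ∃ u', P.MaxSt u' ∧ P.St u ≤ P.St u' := by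
  have : Finite (Submodule (ZMod r) M) := Finite.of_injective _ SetLike.coe_injective
  obtain ⟨B, hle, ⟨u', u'0, rfl⟩, hm⟩ := Finite.exists_le_maximal
    (p := fun B : Submodule (ZMod r) M => ∃ u' : V, u' ≠ 0 ∧ B = P.St u') (a := P.St u) ⟨u, u0, rfl⟩
  exact ⟨u', ⟨u'0, fun w w0 hw => hm ⟨w, w0, rfl⟩ hw⟩, hle⟩

/-- `B^⊥ / B` has at most four elements. PROOF. `B = St u`. By `ext` and maximality a split `x ⊥ B` lies in `B`. If `r ≠ 2`,
all are split, `y = y' = 0`. Let `r = 2`, `ρ x ^ 2 = a x`; if `a x = c²` then `(ρ x - c)(ρ x + c) = 0` so `x` is split; hence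
`a x` is a non-square for `x ∈ B^⊥ \ B`. `a (x + y) = d⁻² ψ (β y x) a x a y`, so if `x, y, x + y ∈ B^⊥ \ B` then `β x y ≠ 0`
(product of two non-squares is a square), i.e. `= 1`. If `y ∉ B`, `y' ∉ B ∪ (y + B)` and `x` is outside the four cosets then
`β x y = β x y' = β x (y + y') = 1`, absurd in `ZMod 2`. -/
theorem aniso {u : V} (hu : P.MaxSt u) : ∃ y y', (∀ b ∈ P.St u, P.β b y = 0) ∧ (∀ b ∈ P.St u, P.β b y' = 0) ∧
    ∀ x, (∀ b ∈ P.St u, P.β b x = 0) → x ∈ P.St u ∨ x - y ∈ P.St u ∨ x - y' ∈ P.St u ∨ x - (y + y') ∈ P.St u := by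
  have sp : ∀ x, (∀ b ∈ P.St u, P.β b x = 0) → x ∉ P.St u → ¬P.Split x := fun x hx nx sx => by
    obtain ⟨u', u'0, h1, h2⟩ := P.ext hu.1 le_rfl hx sx
    exact nx (hu.2 u' u'0 h1 h2)
  have z0 : ∀ b ∈ P.St u, P.β b 0 = 0 := fun b _ => map_zero _
  by_cases h1 : ∀ x, (∀ b ∈ P.St u, P.β b x = 0) → x ∈ P.St u
  · exact ⟨0, 0, z0, z0, fun x hx => Or.inl (h1 x hx)⟩
  push Not at h1
  obtain ⟨y, hy, ny⟩ := h1
  have h2 : r = 2 := by
    by_contra h
    obtain ⟨v, v0, c, hc⟩ := P.spl (Or.inl h) y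
    exact sp y hy ny ⟨v, v0, c, hc⟩
  by_cases h3 : ∀ x, (∀ b ∈ P.St u, P.β b x = 0) → x ∈ P.St u ∨ x - y ∈ P.St u
  · exact ⟨y, 0, hy, z0, fun x hx => (h3 x hx).imp_right Or.inl⟩
  push Not at h3
  obtain ⟨y', hy', ny', nd⟩ := h3
  refine ⟨y, y', hy, hy', fun x hx => ?_⟩
  by_contra hc
  push Not at hc
  obtain ⟨n1, n2, n3, n4⟩ := hc
  have tw : ∀ x : M, -x = x := fun x => by
    rw [neg_eq_iff_add_eq_zero, ← two_smul (ZMod r) x]
    have : (2 : ZMod r) = 0 := by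
      have e : ((2 : ℕ) : ZMod r) = (r : ZMod r) := congrArg _ h2.symm
      rwa [ZMod.natCast_self, Nat.cast_ofNat] at e
    rw [this, zero_smul]
  have sa : ∀ x y : M, x - y = x + y := fun x y => by rw [sub_eq_add_neg, tw]
  have ad : ∀ {x y : M}, (∀ b ∈ P.St u, P.β b x = 0) → (∀ b ∈ P.St u, P.β b y = 0) →
      ∀ b ∈ P.St u, P.β b (x + y) = 0 := fun hx hy b hb => by rw [map_add, hx b hb, hy b hb, add_zero]
  rw [sa] at n2 n3 n4 nd
  rw [add_comm] at nd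
  have t1 := P.ext_three h2 (sp x hx n1) (sp y hy ny) (sp _ (ad hx hy) n2)
  have t2 := P.ext_three h2 (sp x hx n1) (sp y' hy' ny') (sp _ (ad hx hy') n3)
  have t3 := P.ext_three h2 (sp x hx n1) (sp _ (ad hy hy') nd) (sp _ (ad hx (ad hy hy')) n4)
  rw [map_add] at t3
  have fin : ∀ a b : ZMod r, a ≠ 0 → b ≠ 0 → a + b = 0 := by
    subst h2
    exact ext_z2
  exact t3 (fin _ _ t1 t2)

end PR

end CL.TC3
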