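import Cfsg.Agent.PERM.TC3.Proj
import Cfsg.Agent.PERM.TC3.Ext
import Cfsg.Agent.PERM.TC3.Exc1b

set_option autoImplicit false
set_option linter.unusedSectionVars false

namespace CL.TC3
open Subgroup

variable {K V M : Type} {r : ℕ} [Fact r.Prime] [Field K] [Finite K] [AddCommGroup V] [Finite V] [Nontrivial V]
  [Module K V] [AddCommGroup M] [Finite M] [Module (ZMod r) M] (P : PR K V M r)

theorem Exc1c : ∀ a : ZMod 2, a = 0 ∨ a = 1 := by decide

namespace PR

/-- A dual pair of bases for a line stabiliser of order four. -/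
theorem exists_basis (h2 : r = 2) {u : V} (h4 : Nat.card (P.St u) = 4) : ∃ b₁ b₂ z₁ z₂ : M,
    (∀ b, b ∈ P.St u ↔ b = 0 ∨ b = b₁ ∨ b = b₂ ∨ b = b₁ + b₂) ∧
      P.β b₁ z₁ = 1 ∧ P.β b₂ z₁ = 0 ∧ P.β b₁ z₂ = 0 ∧ P.β b₂ z₂ = 1 := by
  subst h2
  have hf : Module.finrank (ZMod 2) (P.St u) = 2 := by
    rw [Module.natCard_eq_pow_finrank (K := ZMod 2), Nat.card_zmod] at h4
    exact Nat.pow_right_injective le_rfl (h4.trans (by norm_num))
  let e := Module.finBasisOfFinrankEq (ZMod 2) (P.St u) hf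
  obtain ⟨z₁, h1⟩ := P.exists_dual _ (e.coord 0)
  obtain ⟨z₂, h2⟩ := P.exists_dual _ (e.coord 1)
  refine ⟨e 0, e 1, z₁, z₂, fun b => ⟨fun hb => ?_, ?_⟩, by simp [h1], by simp [h1], by simp [h2],
    by simp [h2]⟩
  · have h := congrArg Subtype.val (e.sum_repr ⟨b, hb⟩)
    rw [Fin.sum_univ_two] at h
    have c : ∀ a : ZMod 2, a = 0 ∨ a = 1 := Exc1c
    rcases c (e.repr ⟨b, hb⟩ 0) with c0 | c0 <;> rcases c (e.repr ⟨b, hb⟩ 1) with c1 | c1 <;>
      rw [c0, c1] at h <;> simp at h <;> simp [← h]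
  · rintro (rfl | rfl | rfl | rfl)
    · exact zero_mem _
    · exact (e 0).2
    · exact (e 1).2
    · exact add_mem (e 0).2 (e 1).2

/-- PROOF. `B = St u`, `y, y'` from `aniso`, `v = u`, `w = ρ y u + ρ z₁ u` (types `0`, `z₁ ≁ 0`). `s` fixes both terms (`π 0`,
`Act.mem_E`, `φ B = B`, `β_two`), so `φ y - y, φ z₁ - z₁ ∈ B`. KEY: `φ` of odd order, `φ (φ a - a) = φ a - a` gives
`φ² a = a` (`2 M = 0`), so `φ a = a`. `φ b₂ = b₂` (nonzero, in `B`, orthogonal to `z₁`); `φ b₁ - b₁ ∈ {0, b₂}`, so `φ` fixes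
`B`, then `y`, then `C = B + {0, y}`; `φ y' ∈ B^⊥`: if `φ y' ∈ C` then `y' ∈ C`, else `φ y' - y' ∈ C`; so `φ` fixes `B^⊥`.
For any `m`, `φ m - m ∈ B^⊥`; KEY. -/
theorem exc1 (h2 : r = 2) {u : V} (hu : P.MaxSt u) (h4 : Nat.card (P.St u) = 4) :
    ∃ v w, ∀ φ, P.Fx v w φ → Odd (orderOf φ) → φ = 1 := by
  obtain ⟨b₁, b₂, z₁, z₂, hB, e11, e21, -, e22⟩ := P.exists_basis h2 h4
  obtain ⟨y, y', hy, hy', an⟩ := P.aniso hu
  obtain ⟨-, π, -, π1, π0⟩ := P.exists_proj hu.1 le_rfl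
  refine ⟨u, P.ρ y u + P.ρ z₁ u, fun φ ⟨s, hs, h, su, sw⟩ ho => ?_⟩
  have two : ∀ m : M, m + m = 0 := fun m => by
    rw [← two_smul (ZMod r) m]
    subst h2
    rw [show (2 : ZMod 2) = 0 from rfl, zero_smul]
  have o1 : (1 : ZMod r) ≠ 0 := one_ne_zero
  have hβ := Act.β_two h2 hs h
  have hφ : ∀ a, φ a ∈ P.St u ↔ a ∈ P.St u := fun a => by
    have := Act.mem_St hs h u a
    rwa [su] at this
  have b1 : b₁ ∈ P.St u := (hB _).2 (Or.inr (Or.inl rfl))
  have b2 : b₂ ∈ P.St u := (hB _).2 (Or.inr (Or.inr (Or.inl rfl)))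
  have sE : ∀ {t : M} {x : V}, x ∈ P.E (P.St u) u t → s x ∈ P.E (P.St u) u (φ t) := fun hx =>
    Act.mem_E hs h hu.1 le_rfl (c := 1) (by rw [su, one_smul]) (fun a ha => (hφ a).2 ha) hx
  have m1 : P.ρ y u ∈ P.E (P.St u) u 0 := by
    have := P.ρ_mem_E y (P.self_mem_E (P.St u) u)
    rwa [P.E_congr u (t' := 0) fun b hb => by rw [zero_add, hy b hb, map_zero]] at this
  have m2 : P.ρ z₁ u ∈ P.E (P.St u) u z₁ := by
    have := P.ρ_mem_E z₁ (P.self_mem_E (P.St u) u)
    rwa [zero_add] at this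
  have m3 := sE m1
  rw [map_zero] at m3
  have f1 : s (P.ρ y u) = P.ρ y u := by
    have := congrArg (π 0) sw
    rwa [map_add, map_add, map_add, π1 _ _ m1, π1 _ _ m3,
      π0 0 z₁ ⟨b₁, b1, by rw [map_zero, e11]; exact o1.symm⟩ _ m2,
      π0 0 (φ z₁) ⟨φ b₁, (hφ _).2 b1, by rw [map_zero, hβ, e11]; exact o1.symm⟩ _ (sE m2),
      add_zero, add_zero] at this
  have f2 : s (P.ρ z₁ u) = P.ρ z₁ u := by
    rw [map_add, f1] at sw
    exact add_left_cancel sw
  have mv : ∀ z, s (P.ρ z u) = P.ρ z u → φ z - z ∈ P.St u := fun z hz => by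
    obtain ⟨c, -, hc⟩ := h z
    have := hc u
    rw [hz, su] at this
    rw [← neg_sub]
    exact neg_mem (P.sub_mem_St this)
  have key : ∀ a, φ (φ a - a) = φ a - a → φ a = a := fun a ha => by
    have h1 : φ (φ a) = a := by
      rw [map_sub, sub_eq_iff_eq_add] at ha
      rw [ha]
      rw [sub_add_eq_add_sub, two, zero_sub, neg_eq_iff_add_eq_zero, two]
    have h3 : ∀ k : ℕ, (φ ^ (2 * k)) a = a := fun k => by
      induction k with
      | zero => rfl
      | succ k ih => rw [mul_add, mul_one, pow_add, mul_ap, sq, mul_ap, h1, ih]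
    obtain ⟨k, hk⟩ := ho
    have h4 := pow_orderOf_eq_one φ
    rw [hk, pow_succ'] at h4
    conv_lhs => rw [← h3 k]
    rw [← mul_ap, h4, one_ap]
  have bz : ∀ b ∈ P.St u, P.β (φ b) z₁ = P.β b z₁ := fun b hb => by
    have := P.iso hu.1 ((hφ b).2 hb) (mv _ f2)
    rw [map_sub, hβ, sub_eq_zero] at this
    exact this.symm
  have g2 : φ b₂ = b₂ := by
    have := bz _ b2
    rcases (hB _).1 ((hφ _).2 b2) with e | e | e | e
    · rw [map_eq_zero_iff _ φ.injective] at e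
      rw [e, map_zero, LinearMap.zero_apply] at e22
      exact absurd e22.symm o1
    · rw [e, e11, e21] at this
      exact absurd this o1
    · exact e
    · rw [e, map_add, LinearMap.add_apply, e11, e21, add_zero] at this
      exact absurd this o1
  have g1 : φ b₁ = b₁ := by
    have := bz _ b1
    rcases (hB _).1 ((hφ _).2 b1) with e | e | e | e
    · rw [e, map_zero, LinearMap.zero_apply, e11] at this
      exact absurd this.symm o1
    · exact e
    · rw [e, e11, e21] at this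
      exact absurd this.symm o1
    · exact key _ (by rw [e, add_sub_cancel_left, g2])
  have gB : ∀ b ∈ P.St u, φ b = b := fun b hb => by
    rcases (hB _).1 hb with rfl | rfl | rfl | rfl
    · exact map_zero _
    · exact g1
    · exact g2
    · rw [map_add, g1, g2]
  have gy : φ y = y := key _ (gB _ (mv _ f1))
  have bp : ∀ b ∈ P.St u, ∀ m, P.β b (φ m) = P.β b m := fun b hb m => by
    rw [← hβ b m, gB b hb]
  have gy' : φ y' = y' := by
    rcases an (φ y') (fun b hb => by rw [bp b hb, hy' b hb]) with e | e | e | e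
    · exact gB _ ((hφ _).1 e)
    · have e1 : y' - y ∈ P.St u := (hφ _).1 (by rwa [map_sub, gy])
      have := gB _ e1
      rwa [map_sub, gy, sub_left_inj] at this
    · exact key _ (gB _ e)
    · refine key _ ?_
      have := gB _ e
      rw [show φ y' - y' = φ y' - (y + y') + y by abel, map_add, this, gy]
  have gP : ∀ x, (∀ b ∈ P.St u, P.β b x = 0) → φ x = x := fun x hx => by
    rcases an x hx with e | e | e | e
    · exact gB _ e
    · have := gB _ e
      rwa [map_sub, gy, sub_left_inj] at this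
    · have := gB _ e
      rwa [map_sub, gy', sub_left_inj] at this
    · have := gB _ e
      rwa [map_sub, map_add, gy, gy', sub_left_inj] at this
  exact LinearEquiv.ext fun m => key m (gP _ fun b hb => by rw [map_sub, bp b hb, sub_self])

end PR

/-- PROOF. `H = G S` gives `[H : G] = [S : S ⊓ G]`, a divisor of `|S|` (transitive action of `S` on `H ⧸ G`, or
`relIndex`). `S₁` is a 2-group (Cauchy), so the index is a power of two dividing 12, so `≤ 4`; the normal core of `G` in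
`H` is solvable and the quotient embeds in `Perm` of `≤ 4` points. -/
theorem idx {X : Type} [Group X] [Finite X] {G H S₁ S₂ : Subgroup X} (hG : Group.IsSolvable G) (le : G ≤ H) (l1 : S₁ ≤ H)
    (l2 : S₂ ≤ H) (h1 : ∀ h ∈ H, ∃ g ∈ G, ∃ s ∈ S₁, h = g * s) (h2 : ∀ h ∈ H, ∃ g ∈ G, ∃ s ∈ S₂, h = g * s)
    (o1 : ∀ s ∈ S₁, Odd (orderOf s) → s = 1) (o2 : Nat.card S₂ ∣ 12) : Group.IsSolvable H := by
  exact Exc1b.idx hG le l1 l2 h1 h2 o1 o2

end CL.TC3
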