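import Cfsg.Agent.PERM.TC3.Proj
import Cfsg.Agent.PERM.TC3.Ext

set_option autoImplicit false
set_option linter.unusedSectionVars false
set_option linter.unusedVariables false

namespace CL.TC3
open Subgroup

variable {K V M : Type} {r : ℕ} [Fact r.Prime] [Field K] [Finite K] [AddCommGroup V] [Finite V] [Nontrivial V]
  [Module K V] [AddCommGroup M] [Finite M] [Module (ZMod r) M] (P : PR K V M r)

theorem PinE.z2 (h2 : r = 2) (t : ZMod r) : t = 0 ∨ t = 1 := by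
  subst h2; fin_cases t
  exacts [.inl rfl, .inr rfl]

theorem PinE.oo (h2 : r = 2) : (1 + 1 : ZMod r) = 0 := by
  subst h2; rfl

namespace PR

/-- The sign lemma. PROOF. `T = e ρ z`, `T² = η = ±1`. `φ z = z + b`, `b ∈ St v` (`sub_mem_St`); `R = c⁻¹ ρ b` fixes `v`,
`R² = 1` (scalar fixing `v`, `2 b = 0`). `s T s⁻¹ = d T R`, at `v`: `d = 1`. Squaring, `σ η = η ψ (β b z)`; `σ η = η ≠ 0`. -/
theorem sign (h2 : r = 2) {s : Aut V} {φ : Aut M} (hs : Semi K s) (h : P.Act s φ) {v : V} (v0 : v ≠ 0) (hv : s v = v)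
    {z : M} {e η : K} (e0 : e ≠ 0) (hη : η = 1 ∨ η = -1) (hz : ∀ v, e • P.ρ z (e • P.ρ z v) = η • v)
    (hT : s (e • P.ρ z v) = e • P.ρ z v) : φ z - z ∈ P.St v ∧ P.β (φ z - z) z = 0 := by
  obtain ⟨σ, hσ⟩ := hs
  obtain ⟨c, c0, hc⟩ := h z
  have d0 : σ e * c ≠ 0 := mul_ne_zero ((map_ne_zero σ).2 e0) c0
  have hT' : ∀ u, s (e • P.ρ z u) = (σ e * c) • P.ρ (φ z) (s u) := fun u => by
    rw [hσ, hc, mul_smul]
  have e1 : (σ e * c) • P.ρ (φ z) v = e • P.ρ z v := by rw [← hT, hT', hv]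
  have η0 : η ≠ 0 := by rcases hη with rfl | rfl <;> simp
  have e2 : (σ e * c) • P.ρ (φ z) (e • P.ρ z v) = η • v := by
    have := hT' (e • P.ρ z v)
    rw [hz, hT, hσ, hv] at this
    rw [← this]
    rcases hη with rfl | rfl <;> simp
  have e3 : η • v = P.ψ (P.β z (φ z)) • η • v := by
    conv_lhs => rw [← hz v, ← e1, P.lin, P.comm]
    rw [← e2, P.lin]
    simp only [smul_smul]
    congr 1
    ring
  have e4 : P.β z (φ z) = 0 := P.inj _ (by
    have : (P.ψ (P.β z (φ z)) - 1) • η • v = 0 := by rw [sub_smul, ← e3, one_smul, sub_self]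
    rcases smul_eq_zero.1 this with h' | h'
    · exact sub_eq_zero.1 h'
    · exact absurd h' (smul_ne_zero η0 v0))
  refine ⟨P.sub_mem_St (c := (σ e * c)⁻¹ * e) ?_, ?_⟩
  · rw [mul_smul, ← e1, inv_smul_smul₀ d0]
  · rw [map_sub, LinearMap.sub_apply, P.alt, P.skew, e4]; simp

/-- PROOF. `e` from `norm_two z`, `w = ρ y v + e ρ z v`; `A = St v = {0, x}`, `φ x = x`. Types `y ~ 0`, `z ≁ 0` are preserved
(`β_two`, `Act.mem_E`), so `s` fixes `ρ y v` and `e ρ z v`. `sign`: `φ z - z ∈ {0, x}` is orthogonal to `z`, so `φ z = z`.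
`φ y - y ∈ {0, x}` and `β (φ y) z = β y z`, so `φ y = y`. -/
theorem pinE (h2 : r = 2) {v : V} (v0 : v ≠ 0) {x y z : M} (hv : P.St v = Submodule.span (ZMod r) {x}) (hy : P.β x y = 0)
    (hz : P.β x z = 1) : ∃ w, ∀ φ, P.Fx v w φ → φ y = y ∧ φ z = z := by
  obtain ⟨e, e0, η, hη, he⟩ := P.norm_two h2 z
  refine ⟨P.ρ y v + e • P.ρ z v, fun φ ⟨s, hs, h, sv, sw⟩ => ?_⟩
  have hx : x ∈ P.St v := hv ▸ Submodule.mem_span_singleton_self x
  have hA : ∀ a ∈ P.St v, φ a ∈ P.St v := fun a ha => by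
    have := (h.mem_St hs v a).2 ha
    rwa [sv] at this
  have zero : ∀ a ∈ P.St v, P.β a z = 0 → a = 0 := fun a ha h0 => by
    rw [hv, Submodule.mem_span_singleton] at ha
    obtain ⟨t, rfl⟩ := ha
    rw [map_smul, LinearMap.smul_apply, hz, smul_eq_mul, mul_one] at h0
    rw [h0, zero_smul]
  have fx : φ x = x := by
    have := hA x hx
    rw [hv, Submodule.mem_span_singleton] at this
    obtain ⟨t, ht⟩ := this
    rcases PinE.z2 h2 t with rfl | rfl
    · rw [zero_smul, eq_comm, map_eq_zero_iff _ φ.injective] at ht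
      rw [ht, map_zero]
    · rw [← ht, one_smul]
  have fA : ∀ a ∈ P.St v, φ a = a := fun a ha => by
    rw [hv, Submodule.mem_span_singleton] at ha
    obtain ⟨t, rfl⟩ := ha
    rw [aut_smul, fx]
  have mE : ∀ t, P.ρ t v ∈ P.E (P.St v) v t := fun t => by
    simpa using P.ρ_mem_E t (P.self_mem_E (P.St v) v)
  have sE : ∀ t, ∀ u ∈ P.E (P.St v) v t, s u ∈ P.E (P.St v) v t := fun t u hu => by
    have := h.mem_E hs v0 le_rfl (c := 1) (by rw [sv, one_smul]) hA hu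
    rwa [P.E_congr v (t' := t) fun b hb => by
      nth_rewrite 1 [← fA b hb]; exact h.β_two h2 hs b t] at this
  have d0 : s (P.ρ y v) - P.ρ y v = 0 := by
    by_contra d0
    have m1 := sub_mem (sE y _ (mE y)) (mE y)
    have m2 : s (P.ρ y v) - P.ρ y v ∈ P.E (P.St v) v z := by
      have q := Submodule.smul_mem _ e (mE z)
      have : s (P.ρ y v) - P.ρ y v = e • P.ρ z v - s (e • P.ρ z v) := by
        rw [map_add] at sw
        rw [sub_eq_sub_iff_add_eq_add, sw, add_comm]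
      exact this ▸ sub_mem q (sE z _ q)
    have := P.type_eq v0 le_rfl d0 m1 m2 x hx
    rw [hy, hz] at this
    exact zero_ne_one this
  rw [sub_eq_zero] at d0
  have d1 : s (e • P.ρ z v) = e • P.ρ z v := by
    rw [map_add, d0] at sw
    exact add_left_cancel sw
  obtain ⟨k1, k2⟩ := P.sign h2 hs h v0 sv e0 hη he d1
  have fz : φ z = z := sub_eq_zero.1 (zero _ k1 k2)
  refine ⟨?_, fz⟩
  obtain ⟨c, -, hc⟩ := h y
  have k3 : y - φ y ∈ P.St v := P.sub_mem_St (c := c) (by rw [← d0, hc, sv])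
  refine (sub_eq_zero.1 (zero _ k3 ?_)).symm
  rw [map_sub, LinearMap.sub_apply, ← h.β_two h2 hs y z, fz, sub_self]

/-- PROOF. `a = b = 0` trivial. Say `a ≠ 0` (symmetric); `x` split with `β x a ≠ 0`, so `= 1`, `x ≠ 0`; `z = a`, `y = b` or
`b + a`, whichever is orthogonal to `x`; `pinE`. -/
theorem pin_two (h2 : r = 2) (hg : ∀ x, x ≠ 0 → P.Split x → ∃ v, v ≠ 0 ∧ P.St v = Submodule.span (ZMod r) {x})
    (sp : ∀ a, a ≠ 0 → ∃ x, P.Split x ∧ P.β x a ≠ 0) (a b : M) : P.Pin a b := by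
  have key : ∀ a b : M, a ≠ 0 → ∃ v w, ∀ φ, P.Fx v w φ → φ a = a ∧ φ b = b := fun a b a0 => by
    obtain ⟨x, sx, hx⟩ := sp a a0
    have h1 := (PinE.z2 h2 _).resolve_left hx
    obtain ⟨v, v0, hv⟩ := hg x (fun e => hx (by rw [e, map_zero, LinearMap.zero_apply])) sx
    rcases PinE.z2 h2 (P.β x b) with hb | hb
    · obtain ⟨w, hw⟩ := P.pinE h2 v0 hv hb h1
      exact ⟨v, w, fun φ f => (hw φ f).symm⟩
    · obtain ⟨w, hw⟩ := P.pinE h2 v0 hv (y := b + a) (by rw [map_add, hb, h1, PinE.oo h2]) h1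
      refine ⟨v, w, fun φ f => ?_⟩
      obtain ⟨e1, e2⟩ := hw φ f
      rw [map_add, e2] at e1
      exact ⟨e2, add_right_cancel e1⟩
  by_cases a0 : a = 0
  · by_cases b0 : b = 0
    · exact ⟨0, 0, fun φ _ => Or.inl ⟨by rw [a0, map_zero], by rw [b0, map_zero]⟩⟩
    · obtain ⟨v, w, h⟩ := key b a b0
      exact ⟨v, w, fun φ f => Or.inl (h φ f).symm⟩
  · obtain ⟨v, w, h⟩ := key a b a0
    exact ⟨v, w, fun φ f => Or.inl (h φ f)⟩

end PR

end CL.TC3
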