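import Cfsg.Agent.PERM.TC3.Exc1
import Cfsg.Agent.PERM.TC3.PinE

set_option autoImplicit false
set_option linter.unusedSectionVars false

namespace CL.TC3
open Subgroup

variable {K V M : Type} {r : ℕ} [Fact r.Prime] [Field K] [Finite K] [AddCommGroup V] [Finite V] [Nontrivial V]
  [Module K V] [AddCommGroup M] [Finite M] [Module (ZMod r) M] (P : PR K V M r)

namespace PR

theorem ex2_four {u : V} (u0 : u ≠ 0) {t₀ t₁ t₂ t₃ : M} {x₀ x₁ x₂ x₃ : V} (h0 : x₀ ∈ P.E (P.St u) u t₀)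
    (h1 : x₁ ∈ P.E (P.St u) u t₁) (h2 : x₂ ∈ P.E (P.St u) u t₂) (h3 : x₃ ∈ P.E (P.St u) u t₃)
    (n1 : ∃ b ∈ P.St u, P.β b t₀ ≠ P.β b t₁) (n2 : ∃ b ∈ P.St u, P.β b t₀ ≠ P.β b t₂)
    (n3 : ∃ b ∈ P.St u, P.β b t₀ ≠ P.β b t₃) (e : x₀ + x₁ + x₂ + x₃ = 0) : x₀ = 0 := by
  obtain ⟨-, π, -, p1, p2⟩ := P.exists_proj u0 (le_refl (P.St u))
  have := congrArg (π t₀) e
  rwa [map_add, map_add, map_add, p1 _ _ h0, p2 _ _ n1 _ h1, p2 _ _ n2 _ h2, p2 _ _ n3 _ h3, map_zero, add_zero, add_zero,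
    add_zero] at this

theorem ex2_fix {s : Aut V} {φ : Aut M} (h : P.Act s φ) {u : V} (hu : s u = u) {z : M} (hz : s (P.ρ z u) = P.ρ z u) :
    φ z - z ∈ P.St u := by
  obtain ⟨c, -, hc⟩ := h z
  have := P.sub_mem_St (u := u) (z := z) (z' := φ z) (c := c) (by rw [← hz, hc, hu])
  rw [← neg_sub]
  exact neg_mem this

/-- PROOF. `B = St u`, `b i, z i` from `exists_basis`, `y, y'` from `aniso`, `e i` from `norm_two (z i)`, `z₃ = z₁ + z₂ + y'`;
`v = u`, `w = ρ y u + e₁ ρ z₁ u + e₂ ρ z₂ u + ρ z₃ u` (four distinct types). Each `φ ∈ S` preserves `B`, so permutes the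
three elements of `B \ 0`: a hom `S →* Perm (B \ 0)`, range of order dividing 6. Let `φ` be in the kernel: it fixes `B`,
so `φ m - m ∈ B^⊥` (`β_two`) and `s` preserves every type, so fixes the four terms: `θ m = φ m - m ∈ B` for
`m = y, z₁, z₂, z₃`, hence for `y'`, for `B^⊥` (`aniso`) and all `m` (`m - β b₁ m z₁ - β b₂ m z₂ ∈ B^⊥`). As `B` is isotropic
`β (θ m) m' = β m (θ m')`; so `θ = 0` on `B^⊥`; `sign` gives `β (θ z₁) z₁ = 0 = β (θ z₂) z₂`; so `θ z₁ = ε b₂`, `θ z₂ = ε b₁`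
with `ε = β (θ z₁) z₂`, and `φ` is determined by `ε ∈ ZMod 2`: the kernel has order `1` or `2`. -/
theorem exc2 (h2 : r = 2) {u : V} (hu : P.MaxSt u) (h4 : Nat.card (P.St u) = 4) :
    ∃ v w, ∀ S : Subgroup (Aut M), (∀ φ ∈ S, P.Fx v w φ) → Nat.card S ∣ 12 := by
  obtain ⟨b₁, b₂, z₁, z₂, hB, k11, k21, k12, k22⟩ := P.exists_basis h2 h4
  obtain ⟨y, y', hy, hy', an⟩ := P.aniso hu
  obtain ⟨e₁, e10, η₁, hη₁, he₁⟩ := P.norm_two h2 z₁
  obtain ⟨e₂, e20, η₂, hη₂, he₂⟩ := P.norm_two h2 z₂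
  have u0 := hu.1
  have m1 : b₁ ∈ P.St u := (hB _).2 (by simp)
  have m2 : b₂ ∈ P.St u := (hB _).2 (by simp)
  have bz : ∀ b ∈ P.St u, P.β b z₁ = 0 → P.β b z₂ = 0 → b = 0 := by
    intro b hb e1 e2
    rcases (hB b).1 hb with rfl | rfl | rfl | rfl
    · rfl
    · rw [k11] at e1; exact absurd e1 one_ne_zero
    · rw [k22] at e2; exact absurd e2 one_ne_zero
    · rw [map_add, LinearMap.add_apply, k11, k21, add_zero] at e1; exact absurd e1 one_ne_zero
  have ρE : ∀ z, P.ρ z u ∈ P.E (P.St u) u z := fun z => by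
    have := P.ρ_mem_E z (P.self_mem_E (P.St u) u)
    rwa [zero_add] at this
  have pB : ∀ φ w, P.Fx u w φ → ∀ x, φ x ∈ P.St u ↔ x ∈ P.St u := by
    rintro φ w ⟨s, hs, ha, su, -⟩ x
    have := Act.mem_St hs ha u x
    rwa [su] at this
  have y1 := hy _ m1
  have y2 := hy _ m2
  have y1' := hy' _ m1
  have y2' := hy' _ m2
  have key : ∀ φ, P.Fx u (P.ρ y u + e₁ • P.ρ z₁ u + e₂ • P.ρ z₂ u + P.ρ (z₁ + z₂ + y') u) φ → (∀ b ∈ P.St u, φ b = b) →
      (∀ x, (∀ b ∈ P.St u, P.β b x = 0) → φ x = x) ∧ φ z₁ - z₁ ∈ P.St u ∧ φ z₂ - z₂ ∈ P.St u ∧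
        P.β (φ z₁ - z₁) z₁ = 0 ∧ P.β (φ z₂ - z₂) z₂ = 0 ∧ P.β (φ z₂ - z₂) z₁ = P.β (φ z₁ - z₁) z₂ := by
    rintro φ ⟨s, hs, ha, su, sw⟩ fx
    have sE : ∀ t x, x ∈ P.E (P.St u) u t → s x - x ∈ P.E (P.St u) u t := by
      intro t x hx
      refine sub_mem ?_ hx
      have := Act.mem_E hs ha u0 le_rfl (c := 1) (by rw [su, one_smul]) (fun a h => by rwa [fx a h]) hx
      rwa [P.E_congr u (t := φ t) (t' := t) fun b hb => by
        nth_rewrite 1 [← fx b hb]; exact Act.β_two h2 hs ha b t] at this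
    have a0 := sE _ _ (ρE y)
    have a1 := sE _ _ (Submodule.smul_mem _ e₁ (ρE z₁))
    have a2 := sE _ _ (Submodule.smul_mem _ e₂ (ρE z₂))
    have a3 := sE _ _ (ρE (z₁ + z₂ + y'))
    rw [map_add, map_add, map_add, ← sub_eq_zero] at sw
    have f0 := P.ex2_four u0 a0 a1 a2 a3 ⟨b₁, m1, by simp [y1, k11]⟩ ⟨b₂, m2, by simp [y2, k22]⟩
      ⟨b₁, m1, by simp [y1, k11, k12, y1']⟩ (by rw [← sw]; abel)
    have f1 := P.ex2_four u0 a1 a0 a2 a3 ⟨b₁, m1, by simp [y1, k11]⟩ ⟨b₁, m1, by simp [k11, k12]⟩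
      ⟨b₂, m2, by simp [k21, k22, y2']⟩ (by rw [← sw]; abel)
    have f2 := P.ex2_four u0 a2 a0 a1 a3 ⟨b₂, m2, by simp [y2, k22]⟩ ⟨b₁, m1, by simp [k11, k12]⟩
      ⟨b₁, m1, by simp [k11, k12, y1']⟩ (by rw [← sw]; abel)
    have f3 := P.ex2_four u0 a3 a0 a1 a2 ⟨b₁, m1, by simp [y1, k11, k12, y1']⟩ ⟨b₂, m2, by simp [k21, k22, y2']⟩
      ⟨b₁, m1, by simp [k11, k12, y1']⟩ (by rw [← sw]; abel)
    rw [sub_eq_zero] at f0 f1 f2 f3
    have t0 := P.ex2_fix ha su f0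
    have t3 := P.ex2_fix ha su f3
    obtain ⟨t1, s1⟩ := P.sign h2 hs ha u0 su e10 hη₁ he₁ f1
    obtain ⟨t2, s2⟩ := P.sign h2 hs ha u0 su e20 hη₂ he₂ f2
    have t4 : φ y' - y' ∈ P.St u := by
      have := sub_mem (sub_mem t3 t1) t2
      rw [map_add, map_add] at this
      convert this using 1
      abel
    have sy : ∀ m m', φ m - m ∈ P.St u → φ m' - m' ∈ P.St u → P.β (φ m - m) m' = P.β (φ m' - m') m := by
      intro m m' h h'
      have e1 := Act.β_two h2 hs ha m m'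
      have e2 := P.iso u0 h h'
      have e3 := P.skew (φ m' - m') m
      simp only [map_sub, LinearMap.sub_apply] at e2 e3 ⊢
      linear_combination e1 - e2 - e3
    refine ⟨fun x hx => ?_, t1, t2, s1, s2, sy _ _ t2 t1⟩
    have tx : φ x - x ∈ P.St u := by
      rcases an x hx with h | h | h | h <;> have := fx _ h
      · rw [this, sub_self]; exact zero_mem _
      · rw [map_sub] at this
        convert t0 using 1
        linear_combination (norm := abel1) this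
      · rw [map_sub] at this
        convert t4 using 1
        linear_combination (norm := abel1) this
      · rw [map_sub, map_add] at this
        convert add_mem t0 t4 using 1
        linear_combination (norm := abel1) this
    rw [← sub_eq_zero]
    exact bz _ tx (by rw [sy _ _ tx t1]; exact hx _ t1) (by rw [sy _ _ tx t2]; exact hx _ t2)
  refine ⟨u, P.ρ y u + e₁ • P.ρ z₁ u + e₂ • P.ρ z₂ u + P.ρ (z₁ + z₂ + y') u, fun S hS => ?_⟩
  let X : Set M := (P.St u : Set M) \ {0}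
  have cX : Nat.card X = 3 := by
    rw [Nat.card_coe_set_eq, Set.ncard_diff_singleton_of_mem (zero_mem (P.St u)), ← Nat.card_coe_set_eq]
    exact congrArg (· - 1) h4
  have hX : ∀ φ : S, ∀ x, φ.1.toEquiv x ∈ X ↔ x ∈ X := fun φ x =>
    and_congr (pB _ _ (hS _ φ.2) x) (not_congr (map_eq_zero_iff φ.1 φ.1.injective))
  let f : S →* Equiv.Perm X := MonoidHom.mk' (fun φ => Equiv.Perm.subtypePerm φ.1.toEquiv (hX φ)) fun _ _ => rfl
  have kf : ∀ φ : f.ker, ∀ b ∈ P.St u, φ.1.1 b = b := by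
    intro φ b hb
    by_cases b0 : b = 0
    · rw [b0, map_zero]
    · exact congrArg Subtype.val (DFunLike.congr_fun (MonoidHom.mem_ker.1 φ.2) (⟨b, hb, b0⟩ : X))
  have inj : Function.Injective fun φ : f.ker => P.β (φ.1.1 z₁ - z₁) z₂ := by
    intro φ φ' e
    obtain ⟨p0, p1, p2, p3, p4, p5⟩ := key _ (hS _ φ.1.2) (kf φ)
    obtain ⟨q0, q1, q2, q3, q4, q5⟩ := key _ (hS _ φ'.1.2) (kf φ')
    have e : P.β (φ.1.1 z₁ - z₁) z₂ = P.β (φ'.1.1 z₁ - z₁) z₂ := e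
    have g1 := bz _ (sub_mem p1 q1) (by rw [map_sub, LinearMap.sub_apply, p3, q3, sub_self])
      (by rw [map_sub, LinearMap.sub_apply, e, sub_self])
    have g2 := bz _ (sub_mem p2 q2) (by rw [map_sub, LinearMap.sub_apply, p5, q5, e, sub_self])
      (by rw [map_sub, LinearMap.sub_apply, p4, q4, sub_self])
    rw [sub_sub_sub_cancel_right, sub_eq_zero] at g1 g2
    refine Subtype.ext (Subtype.ext (LinearEquiv.ext fun m => ?_))
    have hx : ∀ b ∈ P.St u, P.β b (m - P.β b₁ m • z₁ - P.β b₂ m • z₂) = 0 := by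
      intro b hb
      rcases (hB b).1 hb with rfl | rfl | rfl | rfl <;> simp [k11, k12, k21, k22]
    have a := (p0 _ hx).trans (q0 _ hx).symm
    rw [map_sub, map_sub, map_sub, map_sub, aut_smul, aut_smul, aut_smul, aut_smul, g1, g2] at a
    exact sub_left_inj.1 (sub_left_inj.1 a)
  have c1 : Nat.card f.ker ∣ 2 := by
    have a := Nat.card_le_card_of_injective _ inj
    rw [Nat.card_zmod, h2] at a
    have b : 0 < Nat.card f.ker := Nat.card_pos
    interval_cases Nat.card f.ker <;> decide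
  have c2 : Nat.card f.range ∣ 6 := by
    have := card_subgroup_dvd_card f.range
    rwa [Nat.card_perm, cX] at this
  rw [← f.ker.card_mul_index, index_ker]
  exact Nat.mul_dvd_mul c1 c2

end PR

end CL.TC3
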