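import Cfsg.Agent.PERM.TC3.Proj

set_option autoImplicit false
set_option linter.unusedSectionVars false

namespace CL.TC3
open Subgroup

variable {K V M : Type} {r : ℕ} [Fact r.Prime] [Field K] [Finite K] [AddCommGroup V] [Finite V] [Nontrivial V]
  [Module K V] [AddCommGroup M] [Finite M] [Module (ZMod r) M] (P : PR K V M r)

namespace PR

theorem Gen_dual {B A : Submodule (ZMod r) M} (hA : A ≤ B) (h : r ≠ 2 ∨ Nat.card B ≠ 2 * Nat.card A) :
    ∃ (k : ℕ) (z bb : Fin k → M), (r = 2 → k ≠ 1) ∧ (∀ i, bb i ∈ B) ∧ (∀ i, P.β (bb i) (z i) = 1) ∧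
      (∀ i j, i ≠ j → P.β (bb i) (z j) = 0) ∧ ∀ b ∈ B, b ∈ A ↔ ∀ j, P.β b (z j) = 0 := by
  classical
  let A' := A.submoduleOf B
  have : Finite (B ⧸ A') := Finite.of_surjective _ A'.mkQ_surjective
  let bq := Module.finBasis (ZMod r) (B ⧸ A')
  choose z hz using fun i => P.exists_dual B (bq.coord i ∘ₗ A'.mkQ)
  choose bb hb using fun i => A'.mkQ_surjective (bq i)
  refine ⟨_, z, fun i => bb i, fun h2 h1 => ?_, fun i => (bb i).2, fun i => ?_, fun i j ij => ?_, fun b hB => ?_⟩
  · refine h.resolve_left (not_not.2 h2) ?_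
    rw [Submodule.card_eq_card_quotient_mul_card A', Module.natCard_eq_pow_finrank (K := ZMod r) (V := B ⧸ A'), h1,
      Nat.card_zmod, pow_one, mul_comm, Nat.card_congr (Submodule.submoduleOfEquivOfLe hA).toEquiv, ← h2]
  · rw [hz, LinearMap.comp_apply, hb]; simp
  · rw [hz, LinearMap.comp_apply, hb]; simp [ij.symm]
  · have e : ∀ j, P.β b (z j) = bq.coord j (A'.mkQ ⟨b, hB⟩) := fun j => hz j ⟨b, hB⟩
    simp only [e]
    rw [bq.forall_coord_eq_zero_iff, Submodule.mkQ_apply, Submodule.Quotient.mk_eq_zero]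
    rfl

/-- Generic vectors. PROOF. `B = St u`. Take linearly independent functionals `e i` (`i : Fin k`) on `B` with common kernel
`A` (a basis of the dual of `B / A`; `|B| = r ^ k |A|`, so `r ≠ 2 ∨ k ≠ 1`), `z i` with `β b (z i) = e i b` (`exists_dual`),
`v = u + ∑ ρ (z i) u`; `π` from `exists_proj` for `B`. `π 0 v = u ≠ 0`. `A ≤ St v` (all terms lie in `E A u 0`). Let
`ρ x v = c v`, `t = β · x` on `B`. The terms of `ρ x v` have the distinct types `t`, `e i + t`, all nonzero, so each of these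
types lies in `S = {0, e i}`. If `t ≠ 0`: `t = e i`; `2 e i ∈ S` forces `r = 2`, so `k ≥ 2` and `e j + e i ∈ S`, against
independence. So `t = 0`, `π 0` gives `ρ x u = c u`, `x ∈ B`, and `π (z i)` gives `c ψ (e i x) = c`, so `x ∈ A`. -/
theorem gen {u : V} (u0 : u ≠ 0) {A : Submodule (ZMod r) M} (hA : A ≤ P.St u)
    (h : r ≠ 2 ∨ Nat.card (P.St u) ≠ 2 * Nat.card A) : ∃ v, v ≠ 0 ∧ P.St v = A := by
  classical
  obtain ⟨k, z, bb, hk, hb, d1, d0, hAB⟩ := P.Gen_dual hA h
  obtain ⟨-, π, -, p1, p0⟩ := P.exists_proj u0 (le_refl (P.St u))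
  let τ : Option (Fin k) → M := fun o => o.elim 0 z
  have ne : ∀ x {y : V}, y ≠ 0 → P.ρ x y ≠ 0 := fun x y hy => (map_ne_zero_iff _ (P.ρ x).injective).2 hy
  have wE : ∀ o, P.ρ (τ o) u ∈ P.E (P.St u) u (τ o) := fun o => by
    simpa using P.ρ_mem_E (τ o) (P.self_mem_E (P.St u) u)
  have d2 : ∀ i o, P.β (bb i) (τ o) ≠ 0 → o = some i := by
    rintro i (_ | j) e
    · exact absurd (map_zero _) e
    · by_contra ij
      exact e (d0 i j fun e' => ij (by rw [e']))
  have D : ∀ o o', o' ≠ o → ∃ b ∈ P.St u, P.β b (τ o) ≠ P.β b (τ o') := by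
    rintro (_ | i) o' e
    · obtain ⟨j, rfl⟩ := Option.ne_none_iff_exists'.1 e
      exact ⟨bb j, hb j, fun e' => zero_ne_one (((map_zero _).symm.trans e').trans (d1 j))⟩
    · exact ⟨bb i, hb i, fun e' => e (d2 i o' (e' ▸ (d1 i).trans_ne one_ne_zero))⟩
  have key : ∀ (x t : M) (y : Option (Fin k) → V) o, (∀ o, y o ∈ P.E (P.St u) u (τ o + x)) →
      (∀ b ∈ P.St u, P.β b t = P.β b (τ o + x)) → π t (∑ o, y o) = y o := fun x t y o hy ht => by
    rw [map_sum, Finset.sum_eq_single o (fun o' _ e => ?_) (fun e => absurd (Finset.mem_univ o) e)]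
    · exact p1 t _ (P.E_congr u ht ▸ hy o)
    · obtain ⟨b, hB, e'⟩ := D o o' e
      refine p0 t _ ⟨b, hB, fun e2 => e' ?_⟩ _ (hy o')
      rw [ht b hB, map_add, map_add] at e2
      exact add_right_cancel e2
  have wE0 : ∀ o, P.ρ (τ o) u ∈ P.E (P.St u) u (τ o + 0) := fun o => (add_zero (τ o)).symm ▸ wE o
  refine ⟨∑ o, P.ρ (τ o) u, fun e => ?_, le_antisymm (fun x hx => ?_) fun a ha => ?_⟩
  · have := key 0 _ _ none wE0 fun _ _ => rfl
    rw [e, map_zero] at this
    exact ne _ u0 this.symm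
  · obtain ⟨c, hc⟩ := hx
    have e1 : ∀ o, P.ρ x (P.ρ (τ o) u) = c • π (τ o + x) (∑ o, P.ρ (τ o) u) := fun o => by
      rw [← map_smul, ← hc, map_sum (P.ρ x)]
      exact (key x _ _ o (fun o => P.ρ_mem_E x (wE o)) fun _ _ => rfl).symm
    have S : ∀ o, ∃ o', ∀ b ∈ P.St u, P.β b (τ o) + P.β b x = P.β b (τ o') := fun o => by
      by_contra hn
      push Not at hn
      refine ne x (ne (τ o) u0) ?_
      rw [e1, map_sum, Finset.sum_eq_zero fun o' _ => p0 _ _ ?_ _ (wE o'), smul_zero]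
      simpa only [map_add] using hn o'
    have x0 : ∀ b ∈ P.St u, P.β b x = 0 := by
      obtain ⟨o, ho⟩ := S none
      have ho' : ∀ b ∈ P.St u, P.β b x = P.β b (τ o) := fun b hB => by
        rw [← ho b hB]; exact (zero_add _).symm.trans (congrArg (· + _) (map_zero _).symm)
      rcases o with _ | i
      · exact fun b hB => (ho' b hB).trans (map_zero _)
      exfalso
      have xi : P.β (bb i) x = 1 := (ho' _ (hb i)).trans (d1 i)
      have r2 : r = 2 := by
        obtain ⟨o, h1⟩ := S (some i)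
        have h2 : (1 : ZMod r) + 1 = P.β (bb i) (τ o) := by rw [← h1 _ (hb i), xi]; exact congrArg (· + _) (d1 i).symm
        by_cases h3 : P.β (bb i) (τ o) = 0
        · have : ((2 : ℕ) : ZMod r) = 0 := by rw [← h3, ← h2]; norm_num
          exact (Nat.prime_dvd_prime_iff_eq Fact.out Nat.prime_two).1 ((ZMod.natCast_eq_zero_iff 2 r).1 this)
        · rw [d2 i o h3] at h2
          exact absurd (add_eq_left.1 (h2.trans (d1 i))) one_ne_zero
      have : Nontrivial (Fin k) := Fin.nontrivial_iff_two_le.2 (by have := hk r2; have := i.pos; omega)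
      obtain ⟨j, ji⟩ := exists_ne i
      obtain ⟨o, h1⟩ := S (some j)
      have a1 : o = some i := d2 i o (by
        rw [← h1 _ (hb i), xi, show P.β (bb i) (τ (some j)) = 0 from d0 i j ji.symm, zero_add]; exact one_ne_zero)
      have a2 : o = some j := d2 j o (by
        rw [← h1 _ (hb j), ho' _ (hb j), show P.β (bb j) (τ (some i)) = 0 from d0 j i ji, add_zero]
        exact (d1 j).trans_ne one_ne_zero)
      exact ji (Option.some.inj (a2.symm.trans a1))
    have e2 : ∀ o, P.ρ x (P.ρ (τ o) u) = c • P.ρ (τ o) u := fun o => by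
      rw [e1, key 0 _ _ o wE0 fun b hB => by rw [map_add, x0 b hB, add_zero, add_zero]]
    have e3 : P.ρ x u = c • u := by
      have := e2 none
      rwa [show P.ρ (τ none) u = u by rw [show τ none = 0 from rfl, P.zero]; rfl] at this
    have c0 : c ≠ 0 := fun e => ne x u0 (by rw [e3, e, zero_smul])
    refine (hAB x ⟨c, e3⟩).2 fun j => P.inj _ (mul_left_cancel₀ c0 ?_)
    rw [mul_one]
    exact smul_left_injective K (ne (τ (some j)) u0) ((wE (some j) x ⟨c, e3⟩ c e3).symm.trans (e2 _))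
  · obtain ⟨c, hc⟩ := hA ha
    refine ⟨c, ?_⟩
    rw [map_sum, Finset.smul_sum]
    refine Finset.sum_congr rfl fun o _ => ?_
    have : P.β a (τ o) = 0 := by
      rcases o with _ | j
      exacts [map_zero _, (hAB a (hA ha)).1 ha j]
    rw [wE o a (hA ha) c hc, this, AddChar.map_zero_eq_one, mul_one]

end PR

end CL.TC3
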