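import Cfsg.Agent.PERM.TC3.Proj

set_option autoImplicit false
set_option linter.unusedSectionVars false

namespace CL.TC3
open Subgroup

variable {K V M : Type} {r : ℕ} [Fact r.Prime] [Field K] [Finite K] [AddCommGroup V] [Finite V] [Nontrivial V]
  [Module K V] [AddCommGroup M] [Finite M] [Module (ZMod r) M] (P : PR K V M r)

namespace PR

/-- PROOF. `A = span {x, y} = St u`, `u₂ = ρ z₂ u`, `w₁ = ρ z₁ u`, `l` a generator of `Kˣ`, `v = u + u₂`, `w = l u + w₁`.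
`St v = span {x} =: X`: if `ρ m v = c v`, the types (for `A, u`) `m, m + z₂` lie in `{0, z₂}`; `m ~ z₂` would give
`2 z₂ ~ 0` or `z₂ ~ 0`, impossible for odd `r`; so `m ~ 0`, `ρ m u = c u`, `m ∈ A`, `β m z₂ = 0`. Let `s` fix `v, w`, induce
`φ`. `φ X = X`; for `(X, v)`: `l u ∈ E 0`, `w₁ ∈ E z₁`, `s w₁ ∈ E (φ z₁)` with `β x (φ z₁) ≠ 0`; `π 0` gives
`s (l u) = l u`, `s w₁ = w₁`. So `s u ∈ K u`, `φ A = A`; for `(A, u)`: `s u₂ ∈ E (φ z₂)`, `φ z₂ ≁ 0`, so `s u = u`,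
`s u₂ = u₂`, `σ l = l`, `s` linear. `φ z₁ - z₁, φ z₂ - z₂ ∈ A` (`sub_mem_St`), so for `a ∈ A`,
`β (φ a) (z i) = β (φ a) (φ (z i)) = β a (z i)`, hence `φ a = a` (coordinates on `A`). -/
theorem pinB (h2 : r ≠ 2) {u : V} (u0 : u ≠ 0) {x y z₁ z₂ : M} (hu : P.St u = Submodule.span (ZMod r) {x, y})
    (h11 : P.β x z₁ = 1) (h21 : P.β y z₁ = 0) (h12 : P.β x z₂ = 0) (h22 : P.β y z₂ = 1) : P.Pin x y := by
  classical
  have hx : x ∈ P.St u := hu ▸ Submodule.subset_span (by simp)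
  have hy : y ∈ P.St u := hu ▸ Submodule.subset_span (by simp)
  have co : ∀ m ∈ P.St u, m = P.β m z₁ • x + P.β m z₂ • y := fun m hm => by
    rw [hu, Submodule.mem_span_pair] at hm
    obtain ⟨a, b, rfl⟩ := hm
    simp [h11, h21, h12, h22]
  have two : (1 + 1 : ZMod r) ≠ 0 := fun e => h2 ((Nat.prime_dvd_prime_iff_eq Fact.out Nat.prime_two).1
    ((ZMod.natCast_eq_zero_iff 2 r).1 (by rw [← e]; norm_num)))
  obtain ⟨-, π, -, p1, p0⟩ := P.exists_proj u0 (le_refl (P.St u))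
  have e0 := P.self_mem_E (P.St u) u
  have e2 : P.ρ z₂ u ∈ P.E (P.St u) u z₂ := by simpa using P.ρ_mem_E z₂ e0
  have nz : ∀ (m : M) {a : V}, a ≠ 0 → P.ρ m a ≠ 0 := fun m a a0 e => a0 ((P.ρ m).map_eq_zero_iff.1 e)
  have q2 : π 0 (P.ρ z₂ u) = 0 := p0 0 z₂ ⟨y, hy, by simp [h22]⟩ _ e2
  have v0 : u + P.ρ z₂ u ≠ 0 := fun e => u0 (by simpa [p1 0 u e0, q2] using congrArg (π 0) e)
  have sv : ∀ m ∈ P.St (u + P.ρ z₂ u), ∀ c : K, P.ρ m (u + P.ρ z₂ u) = c • (u + P.ρ z₂ u) → P.ρ m u = c • u := by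
    intro m _ c hc
    rw [map_add] at hc
    have f0 : P.ρ m u ∈ P.E (P.St u) u m := by simpa using P.ρ_mem_E m e0
    have f2 := P.ρ_mem_E m e2
    by_cases k0 : P.β y m = 0
    · have a1 := congrArg (π m) hc
      rw [map_add, map_smul, map_add, p1 m _ f0, p0 m (z₂ + m) ⟨y, hy, by simp [h22]⟩ _ f2,
        p0 m z₂ ⟨y, hy, by simp [h22, k0]⟩ _ e2, add_zero, add_zero] at a1
      by_cases k : ∃ b ∈ P.St u, P.β b m ≠ P.β b 0
      · rw [p0 m 0 k _ e0, smul_zero] at a1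
        exact absurd a1 (nz m u0)
      · push Not at k
        rwa [p1 m u (P.E_congr u k ▸ e0)] at a1
    · exfalso
      by_cases k1 : P.β y m = 1
      · have a1 := congrArg (π (z₂ + m)) hc
        rw [map_add, map_smul, map_add, p1 _ _ f2, p0 _ m ⟨y, hy, by simp [h22]⟩ _ f0,
          p0 _ z₂ ⟨y, hy, by simp [h22, k1]⟩ _ e2, p0 _ 0 ⟨y, hy, by simpa [h22, k1] using two⟩ _ e0] at a1
        exact nz m (nz z₂ u0) (by simpa using a1)
      · have a1 := congrArg (π m) hc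
        rw [map_add, map_smul, map_add, p1 m _ f0, p0 m (z₂ + m) ⟨y, hy, by simp [h22]⟩ _ f2,
          p0 m z₂ ⟨y, hy, by simpa [h22] using k1⟩ _ e2, p0 m 0 ⟨y, hy, by simpa using k0⟩ _ e0] at a1
        exact nz m u0 (by simpa using a1)
  have xv : x ∈ P.St (u + P.ρ z₂ u) := by
    obtain ⟨c, hc⟩ := id hx
    exact ⟨c, by rw [map_add, e2 x hx c hc, hc, h12]; simp⟩
  obtain ⟨l, hl⟩ := IsCyclic.exists_generator (α := Kˣ)
  refine ⟨u + P.ρ z₂ u, (l : K) • u + P.ρ z₁ u, ?_⟩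
  rintro φ ⟨s, hs, h, s1, s2⟩
  obtain ⟨-, π', -, p1', p0'⟩ := P.exists_proj v0 (le_refl (P.St (u + P.ρ z₂ u)))
  have g0 : u ∈ P.E (P.St (u + P.ρ z₂ u)) (u + P.ρ z₂ u) 0 := fun b hb c hc => by simpa using sv b hb c hc
  have g1 : P.ρ z₁ u ∈ P.E (P.St (u + P.ρ z₂ u)) (u + P.ρ z₂ u) z₁ := by simpa using P.ρ_mem_E z₁ g0
  have φv : ∀ a ∈ P.St (u + P.ρ z₂ u), φ a ∈ P.St (u + P.ρ z₂ u) := fun a ha => by
    have := (Act.mem_St hs h _ a).2 ha
    rwa [s1] at this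
  have s1' : s (u + P.ρ z₂ u) = (1 : K) • (u + P.ρ z₂ u) := by rw [s1, one_smul]
  have gl := Submodule.smul_mem _ (l : K) g0
  have i0 := Act.mem_E hs h v0 le_rfl s1' φv gl
  have i1 := Act.mem_E hs h v0 le_rfl s1' φv g1
  rw [map_zero] at i0
  have sl : s ((l : K) • u) = (l : K) • u := by
    have a1 := congrArg (π' 0) s2
    rwa [map_add, map_add, map_add, p1' 0 _ i0, p1' 0 _ gl, p0' 0 z₁ ⟨x, xv, by simp [h11]⟩ _ g1,
      p0' 0 (φ z₁) ⟨φ x, φv x xv, by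
        rw [map_zero]; exact fun e => by simpa [h11] using (Act.β_zero hs h x z₁).1 e.symm⟩ _ i1,
      add_zero, add_zero] at a1
  have sw : s (P.ρ z₁ u) = P.ρ z₁ u := by rwa [map_add, sl, add_right_inj] at s2
  obtain ⟨σ, hσ⟩ := id hs
  have σ0 : σ l ≠ 0 := by simp
  have su : s u = ((σ l)⁻¹ * l) • u := by rw [mul_smul, eq_inv_smul_iff₀ σ0, ← hσ, sl]
  have φu : ∀ a ∈ P.St u, φ a ∈ P.St u := fun a ha => by
    have := (Act.mem_St hs h _ a).2 ha
    rwa [su, P.St_smul (mul_ne_zero (inv_ne_zero σ0) l.ne_zero)] at this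
  have j0 := Act.mem_E hs h u0 le_rfl su φu e0
  have j2 := Act.mem_E hs h u0 le_rfl su φu e2
  rw [map_zero] at j0
  have su' : s u = u := by
    have a1 := congrArg (π 0) s1
    rwa [map_add, map_add, map_add, p1 0 _ j0, p1 0 _ e0, q2,
      p0 0 (φ z₂) ⟨φ y, φu y hy, by
        rw [map_zero]; exact fun e => by simpa [h22] using (Act.β_zero hs h y z₂).1 e.symm⟩ _ j2,
      add_zero, add_zero] at a1
  have s2' : s (P.ρ z₂ u) = P.ρ z₂ u := by rwa [map_add, su', add_right_inj] at s1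
  have σl : σ l = l := by
    rw [hσ, su'] at sl
    exact smul_left_injective K u0 sl
  have li : Lin K s := fun c v => by
    rw [hσ]
    rcases eq_or_ne c 0 with rfl | c0
    · simp
    · obtain ⟨n, hn⟩ := hl (Units.mk0 c c0)
      have : c = (l : K) ^ n := by simpa using (congrArg Units.val hn).symm
      rw [this, map_zpow₀, σl]
  have key : ∀ z, s (P.ρ z u) = P.ρ z u → ∀ a ∈ P.St u, P.β (φ a) z = P.β a z := fun z hz a ha => by
    obtain ⟨c, -, hc⟩ := h z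
    have := P.iso u0 (φu a ha) (P.sub_mem_St (z := z) (z' := φ z) (c := c) (by rw [← hz, hc, su']))
    rw [map_sub, Act.β_lin li h, sub_eq_zero] at this
    exact this
  have fin : ∀ a ∈ P.St u, φ a = a := fun a ha => by
    rw [co _ (φu a ha), key _ sw a ha, key _ s2' a ha, ← co a ha]
  exact .inl ⟨fin x hx, fin y hy⟩

end PR

end CL.TC3
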