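import Cfsg.Agent.PERM.TC3.PinA
import Cfsg.Agent.PERM.TC3.PinB
import Cfsg.Agent.PERM.TC3.Gen

set_option autoImplicit false
set_option linter.unusedSectionVars false

namespace CL.TC3
open Subgroup

variable {K V M : Type} {r : ℕ} [Fact r.Prime] [Field K] [Finite K] [AddCommGroup V] [Finite V] [Nontrivial V]
  [Module K V] [AddCommGroup M] [Finite M] [Module (ZMod r) M] (P : PR K V M r)

namespace PR

namespace PinO

variable {P}

theorem of_span {x z a b : M} (h : P.Pin x z) (ha : a ∈ Submodule.span (ZMod r) {x, z})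
    (hb : b ∈ Submodule.span (ZMod r) {x, z}) : P.Pin a b := by
  obtain ⟨v, w, h⟩ := h
  obtain ⟨i, j, rfl⟩ := Submodule.mem_span_pair.1 ha
  obtain ⟨k, l, rfl⟩ := Submodule.mem_span_pair.1 hb
  refine ⟨v, w, fun φ hφ => (h φ hφ).imp (fun e => ?_) fun e => ?_⟩ <;>
    simp only [map_add, aut_smul, e.1, e.2, smul_neg, neg_add, and_self]

variable (P)

theorem dual {a b : M} (h : a ∉ Submodule.span (ZMod r) {b}) : ∃ z, P.β a z = 1 ∧ P.β b z = 0 := by
  obtain ⟨f, fa, fb⟩ := Submodule.exists_le_ker_of_notMem h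
  obtain ⟨z, hz⟩ := P.exists_dual ⊤ (f.domRestrict ⊤)
  have e : ∀ x, P.β x z = f x := fun x => hz ⟨x, trivial⟩
  refine ⟨(f a)⁻¹ • z, by rw [map_smul, e, smul_eq_mul, inv_mul_cancel₀ fa], ?_⟩
  rw [map_smul, e, show f b = 0 from fb (Submodule.mem_span_singleton_self b), smul_zero]

theorem one (h2 : r ≠ 2) {x z : M} (hz : P.β x z = 1) : P.Pin x z := by
  obtain ⟨u, u0, hu⟩ := P.spl (Or.inl h2) x
  obtain ⟨v, v0, hv⟩ := P.gen u0 (A := Submodule.span (ZMod r) {x})
    ((Submodule.span_singleton_le_iff_mem _ _).2 hu) (Or.inl h2)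
  exact P.pinA h2 v0 hv hz

theorem line (h2 : r ≠ 2) {x a b : M} (ha : a ∈ Submodule.span (ZMod r) {x}) (hb : b ∈ Submodule.span (ZMod r) {x}) :
    P.Pin a b := by
  by_cases x0 : x = 0
  · rw [x0, Submodule.span_zero_singleton, Submodule.mem_bot] at ha hb
    exact ⟨0, 0, fun φ _ => Or.inl ⟨by rw [ha, map_zero], by rw [hb, map_zero]⟩⟩
  obtain ⟨z, hz, -⟩ := dual P (a := x) (b := 0) (by rwa [Submodule.span_zero_singleton, Submodule.mem_bot])
  have le : Submodule.span (ZMod r) {x} ≤ Submodule.span (ZMod r) {x, z} := Submodule.span_mono (by simp)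
  exact of_span (one P h2 hz) (le ha) (le hb)

end PinO

/-- PROOF. All elements are split (`spl`); `gen` (`r ≠ 2`) gives `v` with `St v = span {x}` for every `x`. If `β a b ≠ 0`:
`pinA` with `x = a`, `z = (β a b)⁻¹ • b` (`aut_smul`). If `a, b` are independent and orthogonal: `ext` gives `u` with
`span {a, b} ≤ St u`, `gen` makes it an equality, `exists_dual` gives `z₁, z₂`; `pinB`. Otherwise `a, b ∈ span {x}` with
`x ≠ 0` (or both zero): `z` with `β x z = 1` (`nd`), `pinA`. -/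
theorem pin_odd (h2 : r ≠ 2) (a b : M) : P.Pin a b := by
  by_cases hab : P.β a b ≠ 0
  · refine PinO.of_span (PinO.one P h2 (x := a) (z := (P.β a b)⁻¹ • b) ?_) (Submodule.subset_span (by simp))
      (Submodule.mem_span_pair.2 ⟨0, P.β a b, ?_⟩)
    · rw [map_smul, smul_eq_mul, inv_mul_cancel₀ hab]
    · rw [zero_smul, zero_add, smul_inv_smul₀ hab]
  rw [not_not] at hab
  by_cases h1 : b ∈ Submodule.span (ZMod r) {a}
  · exact PinO.line P h2 (Submodule.mem_span_singleton_self a) h1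
  by_cases h1' : a ∈ Submodule.span (ZMod r) {b}
  · exact PinO.line P h2 h1' (Submodule.mem_span_singleton_self b)
  obtain ⟨u, u0, hu⟩ := P.spl (Or.inl h2) a
  obtain ⟨u', u0', hA, hb⟩ := P.ext u0 (A := Submodule.span (ZMod r) {a})
    ((Submodule.span_singleton_le_iff_mem _ _).2 hu) (x := b) (fun c hc => by
      obtain ⟨i, rfl⟩ := Submodule.mem_span_singleton.1 hc
      rw [map_smul, LinearMap.smul_apply, hab, smul_zero]) (P.spl (Or.inl h2) b)
  obtain ⟨v, v0, hv⟩ := P.gen u0' (A := Submodule.span (ZMod r) {a, b}) (Submodule.span_le.2 (by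
    rintro c (rfl | rfl)
    · exact hA (Submodule.mem_span_singleton_self _)
    · exact hb)) (Or.inl h2)
  obtain ⟨z₁, h11, h21⟩ := PinO.dual P h1'
  obtain ⟨z₂, h22, h12⟩ := PinO.dual P h1
  exact P.pinB h2 v0 hv h11 h21 h12 h22

end PR

end CL.TC3
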