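import Cfsg.Agent.PERM.TC3.Exc2
import Cfsg.Agent.PERM.TC3.PinO

set_option autoImplicit false
set_option linter.unusedSectionVars false

namespace CL.TC3
open Subgroup

variable {K V M : Type} {r : ℕ} [Fact r.Prime] [Field K] [Finite K] [AddCommGroup V] [Finite V] [Nontrivial V]
  [Module K V] [AddCommGroup M] [Finite M] [Module (ZMod r) M] (P : PR K V M r)

namespace Img

theorem perm4 : Group.IsSolvable (Equiv.Perm (Fin 4)) := by
  have h4 : Nat.card (Fin 4) = 4 := by simp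
  have k := alternatingGroup.kleinFour_isKleinFour h4
  have := IsKleinFour.isMulCommutative (G := alternatingGroup.kleinFour (Fin 4))
  have s1 : Group.IsSolvable (alternatingGroup.kleinFour (Fin 4)) := Group.isSolvable_of_comm fun a b => mul_comm' a b
  have s2 : Group.IsSolvable (alternatingGroup (Fin 4)) :=
    Group.isSolvable_of_ker_le_range (alternatingGroup.kleinFour (Fin 4)).subtype Abelianization.of
      (by rw [Abelianization.ker_of, alternatingGroup.kleinFour_eq_commutator h4, range_subtype])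
  exact Group.isSolvable_of_ker_le_range (alternatingGroup (Fin 4)).subtype Equiv.Perm.sign
    (by rw [range_subtype]; rfl)

theorem perm_le {X : Type*} [Finite X] (h : Nat.card X ≤ 4) : Group.IsSolvable (Equiv.Perm X) := by
  have := Fintype.ofFinite X
  obtain ⟨e⟩ : Nonempty (X ↪ Fin 4) := Function.Embedding.nonempty_of_card_le (by simpa using h)
  have := perm4
  exact Group.isSolvable_of_isSolvable_injective (Equiv.Perm.viaEmbeddingHom_injective e)

theorem sub {X : Type*} [Group X] {A B : Subgroup X} (le : A ≤ B) (h : Group.IsSolvable B) : Group.IsSolvable A :=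
  Group.isSolvable_of_isSolvable_injective (inclusion_injective le)

theorem sG {G : Subgroup (Aut V)} (hG : Group.IsSolvable G) : Group.IsSolvable (G.subgroupOf (cl G)) :=
  Group.isSolvable_of_isSolvable_injective (f := (subgroupOfEquivOfLe (le_cl G)).toMonoidHom)
    (subgroupOfEquivOfLe (le_cl G)).injective

end Img

namespace PR
open Img
variable {G : Subgroup (Aut V)} (Φ : cl G →* Aut M)

/-- PROOF. `g ∈ G` agreeing with `h` at `v, w`; `s = g⁻¹ h ∈ cl G` fixes `v, w`. -/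
theorem fac (hs : ∀ h ∈ cl G, Semi K h) (ha : ∀ h : cl G, P.Act h (Φ h)) (v w : V) (h : cl G) :
    ∃ g s : cl G, (g : Aut V) ∈ G ∧ h = g * s ∧ (s : Aut V) v = v ∧ (s : Aut V) w = w ∧ P.Fx v w (Φ s) := by
  obtain ⟨g, hg, e1, e2⟩ := h.2 v w
  have f1 : (g⁻¹ * h.1) v = v := by rw [mul_ap, ← e1, inv_ap]
  have f2 : (g⁻¹ * h.1) w = w := by rw [mul_ap, ← e2, inv_ap]
  exact ⟨⟨g, le_cl G hg⟩, (⟨g, le_cl G hg⟩ : cl G)⁻¹ * h, hg, by group, f1, f2,
    _, hs _ ((⟨g, le_cl G hg⟩ : cl G)⁻¹ * h).2, ha _, f1, f2⟩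

/-- PROOF. `G' = Φ (G) ⊔ ⟨-1⟩` (or the subgroup `{±Φ g}`) is solvable (`-1 = LinearEquiv.neg ℤ` is central);
`Φ.range ≤ cl G'` by `fac`; `lih` with `card_lt`. -/
theorem img_pin (lih : LIH (Nat.card V)) (hG : Group.IsSolvable G) (hs : ∀ h ∈ cl G, Semi K h)
    (ha : ∀ h : cl G, P.Act h (Φ h)) (hp : ∀ a b, P.Pin a b) : Group.IsSolvable Φ.range := by
  have := sG hG
  let n : Aut M := LinearEquiv.neg ℤ
  have cn : ∀ φ : Aut M, Commute φ n := fun φ => LinearEquiv.ext fun a => map_neg φ a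
  have s2 : Group.IsSolvable (zpowers n) := Group.isSolvable_of_comm fun a b => mul_comm' a b
  let f : (G.subgroupOf (cl G)) × zpowers n →* Aut M :=
    MonoidHom.noncommCoprod (Φ.comp (G.subgroupOf (cl G)).subtype) (zpowers n).subtype (by
      rintro a ⟨_, k, rfl⟩; exact (cn _).zpow_right k)
  refine sub ?_ (lih M (by first | exact P.card_lt | exact card_lt) f.range (Group.isSolvable_of_surjective f.rangeRestrict_surjective))
  rintro _ ⟨h, rfl⟩ a b
  obtain ⟨v, w, hp⟩ := hp a b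
  obtain ⟨g, s, hg, rfl, -, -, fx⟩ := P.fac Φ hs ha v w h
  rw [map_mul, mul_ap, mul_ap]
  rcases hp _ fx with ⟨e1, e2⟩ | ⟨e1, e2⟩ <;> rw [e1, e2]
  · exact ⟨_, ⟨(⟨g, hg⟩, 1), rfl⟩, rfl, rfl⟩
  · exact ⟨_, ⟨(⟨g, hg⟩, ⟨n, mem_zpowers n⟩), rfl⟩, rfl, rfl⟩

/-- PROOF. `idx` with `S i` = image under `Φ` of the stabiliser of the pair from `exc1`, `exc2`; `fac`. -/
theorem img_exc (hG : Group.IsSolvable G) (hs : ∀ h ∈ cl G, Semi K h) (ha : ∀ h : cl G, P.Act h (Φ h)) (h2 : r = 2)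
    {u : V} (hu : P.MaxSt u) (h4 : Nat.card (P.St u) = 4) : Group.IsSolvable Φ.range := by
  have := sG hG
  let S : V → V → Subgroup (Aut M) := fun v w =>
    ((MulAction.stabilizer (Aut V) v ⊓ MulAction.stabilizer (Aut V) w).subgroupOf (cl G)).map Φ
  have fx : ∀ v w, ∀ φ ∈ S v w, P.Fx v w φ := by
    rintro v w _ ⟨s, hs', rfl⟩
    exact ⟨s, hs _ s.2, ha s, hs'.1, hs'.2⟩
  have fc : ∀ v w, ∀ h ∈ Φ.range, ∃ g ∈ (G.subgroupOf (cl G)).map Φ, ∃ s ∈ S v w, h = g * s := by
    rintro v w _ ⟨h, rfl⟩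
    obtain ⟨g, s, hg, rfl, e1, e2, -⟩ := P.fac Φ hs ha v w h
    exact ⟨_, ⟨g, hg, rfl⟩, _, ⟨s, ⟨e1, e2⟩, rfl⟩, map_mul _ _ _⟩
  obtain ⟨v, w, h1⟩ := P.exc1 h2 hu h4
  obtain ⟨v', w', h1'⟩ := P.exc2 h2 hu h4
  exact idx (Group.isSolvable_of_surjective (Φ.subgroupMap_surjective _)) (map_le_range _ _) (map_le_range _ _)
    (map_le_range _ _) (fc v w) (fc v' w') (fun s hs => h1 s (fx v w s hs)) (h1' _ (fx v' w'))

/-- PROOF. `r ≠ 2`: `pin_odd`. Let `r = 2`. If no nonzero `x` is split, `exists_max`, `St u = ⊥`, `aniso` gives `|M| ≤ 4` and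
`Aut M` embeds in the solvable `Perm M`. Otherwise the `ℤ`-span of the split elements is invariant (`Act.mem_St`), nonzero,
so `⊤`; with `nd`, `skew` this gives `sp` of `pin_two`. If `hg` fails for a split `x ≠ 0`, then by `gen` every `u ≠ 0`
with `x ∈ St u` has `|St u| = 2 * 2`; take such a `u` maximal (`exists_max`): `img_exc`. -/
theorem img (lih : LIH (Nat.card V)) (hG : Group.IsSolvable G) (hs : ∀ h ∈ cl G, Semi K h)
    (ha : ∀ h : cl G, P.Act h (Φ h)) (hi : Irr Φ.range) : Group.IsSolvable Φ.range := by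
  by_cases h2 : r = 2
  swap
  · exact P.img_pin Φ lih hG hs ha (P.pin_odd h2)
  by_cases h0 : ∃ x, x ≠ 0 ∧ P.Split x
  swap
  · obtain ⟨u0, hu0⟩ := exists_ne (0 : V)
    obtain ⟨u, hu, -⟩ := P.exists_max hu0
    have z : ∀ b ∈ P.St u, b = 0 := fun b hb => by_contra fun e => h0 ⟨b, e, u, hu.1, hb⟩
    obtain ⟨y, y', -, -, h⟩ := P.aniso hu
    have c : Nat.card M ≤ 4 := by
      refine (Nat.card_le_card_of_surjective (![0, y, y', y + y'] : Fin 4 → M) fun x => ?_).trans (by simp)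
      rcases h x (fun b hb => by rw [z b hb, map_zero, LinearMap.zero_apply]) with e | e | e | e
      · exact ⟨0, (z _ e).symm⟩
      · exact ⟨1, (sub_eq_zero.1 (z _ e)).symm⟩
      · exact ⟨2, (sub_eq_zero.1 (z _ e)).symm⟩
      · exact ⟨3, (sub_eq_zero.1 (z _ e)).symm⟩
    have := perm_le c
    have : Group.IsSolvable (Aut M) :=
      Group.isSolvable_of_isSolvable_injective (f := MulAction.toPermHom (Aut M) M) MulAction.toPerm_injective
    infer_instance
  have top : Submodule.span ℤ {x | P.Split x} = ⊤ := by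
    refine (hi _ ?_).resolve_left fun e => ?_
    · rintro _ ⟨h, rfl⟩ w hw
      refine (Submodule.span_le (p := (Submodule.span ℤ {x | P.Split x}).comap (Φ h).toLinearMap)).2 ?_ hw
      rintro x ⟨u, u0, hx⟩
      exact Submodule.subset_span ⟨h.1 u, (map_ne_zero_iff _ h.1.injective).2 u0,
        (Act.mem_St (hs _ h.2) (ha h) u x).2 hx⟩
    · obtain ⟨x, x0, hx⟩ := h0
      exact x0 ((Submodule.span_eq_bot.1 e) x hx)
  have sp : ∀ a, a ≠ 0 → ∃ x, P.Split x ∧ P.β x a ≠ 0 := fun a a0 => by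
    by_contra hc
    push Not at hc
    refine a0 (P.nd a fun y => ?_)
    rw [P.skew, neg_eq_zero]
    have hy : y ∈ Submodule.span ℤ {x | P.Split x} := top ▸ Submodule.mem_top
    induction hy using Submodule.span_induction with
    | mem x hx => exact hc x hx
    | zero => simp
    | add x y _ _ e e' => rw [map_add, LinearMap.add_apply, e, e', add_zero]
    | smul k x _ e => rw [map_zsmul, LinearMap.smul_apply, e, smul_zero]
  by_cases hg : ∀ x, x ≠ 0 → P.Split x → ∃ v, v ≠ 0 ∧ P.St v = Submodule.span (ZMod r) {x}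
  · exact P.img_pin Φ lih hG hs ha (P.pin_two h2 hg sp)
  push Not at hg
  obtain ⟨x, x0, ⟨u0, hu0, hx⟩, hg⟩ := hg
  obtain ⟨u, hu, le⟩ := P.exists_max hu0
  refine P.img_exc Φ hG hs ha h2 hu (by_contra fun h4 => ?_)
  obtain ⟨v, v0, e⟩ := P.gen hu.1 (A := Submodule.span (ZMod r) {x})
    ((Submodule.span_singleton_le_iff_mem _ _).2 (le hx)) (Or.inr (by
      rwa [← Nat.card_congr (LinearEquiv.toSpanNonzeroSingleton (ZMod r) M x x0).toEquiv, Nat.card_zmod,
        show 2 * r = 4 by omega]))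
  exact hg v v0 e

end PR

end CL.TC3
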