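import Cfsg.Agent.PERM.TC3.Defs

set_option autoImplicit false
set_option linter.unusedSectionVars false

namespace CL.TC3
open Subgroup

namespace Impr

theorem act {n : ℕ} (ih : IH n) {X : Type} [Finite X] (hX : Nat.card X < n) {A B : Type*} [Group A] [Group B]
    (f : A →* Equiv.Perm X) (g : B →* Equiv.Perm X) (hA : Group.IsSolvable A)
    (h : ∀ b x y z, ∃ a, f a x = g b x ∧ f a y = g b y ∧ f a z = g b z) : Group.IsSolvable g.range :=
  ih X hX f.range g.range (Group.isSolvable_of_surjective f.rangeRestrict_surjective) (by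
    rintro _ ⟨b, rfl⟩ x y z
    obtain ⟨a, e⟩ := h b x y z
    exact ⟨f a, ⟨a, rfl⟩, e⟩)

/-- the action on the classes -/
def qh {Ω : Type} (r : Setoid Ω) (K : Subgroup (Equiv.Perm Ω)) (hr : ∀ g ∈ K, ∀ a b, r a b → r (g a) (g b)) :
    K →* Equiv.Perm (Quotient r) :=
  MonoidHom.toHomPerm
    { toFun := fun g => Quotient.map (sa := r) (sb := r) g.1 (hr g g.2)
      map_one' := by funext q; induction q using Quotient.inductionOn; rfl
      map_mul' := fun _ _ => by funext q; induction q using Quotient.inductionOn; rfl }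

/-- the action on an invariant set -/
def rh {Ω A : Type} [Group A] (φ : A →* Equiv.Perm Ω) (s : Ω → Prop) (h : ∀ g b, s b → s (φ g b)) :
    A →* Equiv.Perm {b // s b} :=
  MonoidHom.toHomPerm
    { toFun := fun g b => ⟨φ g b.1, h g _ b.2⟩
      map_one' := by funext b; exact Subtype.ext (by simp [Function.End.one_def])
      map_mul' := fun g g' => by
        funext b; exact Subtype.ext (congrArg (fun e : Equiv.Perm Ω => e b.1) (map_mul φ g g')) }

end Impr

open Impr in
/-- Reduction to the primitive case (also covers the intransitive case: `r` = orbits).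
PROOF. `H` preserves `r` (pairs). On `Quotient r` (card `< card Ω` by `h1`) let `G', H'` be the ranges of the induced
homs to `Perm (Quotient r)`; `Cl3 G' H'` (lift three classes), `G'` solvable, so `H'` solvable by `ih`. Let `N` be the
kernel of `H → Perm (Quotient r)`; enough `N` solvable (`solvable_of_ker_le_range`). Use `solv_sep`: `x ∈ N`, `x ≠ 1`
moves a point `a`; `C = {b // r a b}` has card `< card Ω` by `h2` (if every `b` is related to `a` then all are related);
restrict `N` and `G_C = {g ∈ G | r a (g a)}` (these preserve `C`) to `Perm C`; an element of `G` agreeing with `h ∈ N` at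
a point of `C` lies in `G_C`; so `Cl3` holds for the ranges and `ih` gives solvable range. -/
theorem impr {Ω : Type} [Finite Ω] (ih : IH (Nat.card Ω)) {G H : Subgroup (Equiv.Perm Ω)} (hG : Group.IsSolvable G)
    (hH : Cl3 G H) (r : Setoid Ω) (hr : ∀ g ∈ G, ∀ a b, r a b → r (g a) (g b)) (h1 : ∃ a b, a ≠ b ∧ r a b)
    (h2 : ∃ a b, ¬r a b) : Group.IsSolvable H := by
  have hr' : ∀ h ∈ H, ∀ a b, r a b → r (h a) (h b) := fun h hh a b e => by
    obtain ⟨g, hg, e1, e2, -⟩ := hH h hh a b b
    rw [← e1, ← e2]; exact hr g hg a b e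
  have c1 : Nat.card (Quotient r) < Nat.card Ω := by
    obtain ⟨a, b, ne, e⟩ := h1
    refine lt_of_le_of_ne (Nat.card_le_card_of_surjective _ Quotient.mk_surjective) fun c => ne ?_
    exact ((Quotient.mk_surjective (s := r)).bijective_of_nat_card_le c.ge).1 (Quotient.sound e)
  have s1 : Group.IsSolvable (qh r H hr').range := act ih c1 (qh r G hr) (qh r H hr') hG fun h x y z => by
    induction x using Quotient.inductionOn with | _ x => ?_
    induction y using Quotient.inductionOn with | _ y => ?_
    induction z using Quotient.inductionOn with | _ z => ?_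
    obtain ⟨g, hg, e1, e2, e3⟩ := hH h h.2 x y z
    exact ⟨⟨g, hg⟩, congrArg (Quotient.mk r) e1, congrArg (Quotient.mk r) e2, congrArg (Quotient.mk r) e3⟩
  have s2 : Group.IsSolvable (qh r H hr').ker := solv_sep fun x x1 => by
    obtain ⟨a, ha⟩ : ∃ a, x.1.1 a ≠ a := by
      by_contra hc
      push Not at hc
      exact x1 (Subtype.ext (Subtype.ext (Equiv.ext hc)))
    have kr : ∀ (n : (qh r H hr').ker) (b : Ω), r b (n.1.1 b) := fun n b =>
      r.symm (Quotient.exact (congrArg (fun e : Equiv.Perm (Quotient r) => e (Quotient.mk r b)) n.2))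
    have c2 : Nat.card {b // r a b} < Nat.card Ω := by
      obtain ⟨u, v, e⟩ := h2
      refine lt_of_le_of_ne (Nat.card_le_card_of_injective _ Subtype.val_injective) fun c => e ?_
      have sj := ((Subtype.val_injective (p := fun b => r a b)).bijective_of_nat_card_le c.ge).2
      obtain ⟨u, rfl⟩ := sj u
      obtain ⟨v, rfl⟩ := sj v
      exact r.trans (r.symm u.2) v.2
    let S : Subgroup G := (MulAction.stabilizer _ (Quotient.mk r a)).comap (qh r G hr)
    have mS : ∀ g : G, g ∈ S ↔ r (g.1 a) a := fun g => Quotient.eq (r := r)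
    refine ⟨_, _, rh (H.subtype.comp (qh r H hr').ker.subtype) (r a) fun n b e => r.trans e (kr n b),
      act ih c2 (rh (G.subtype.comp S.subtype) (r a) fun g b e =>
        r.trans (r.symm ((mS _).1 g.2)) (hr _ g.1.2 a b e)) _ inferInstance fun n u v w => ?_, fun e => ha ?_⟩
    · obtain ⟨g, hg, e1, e2, e3⟩ := hH n.1.1 n.1.2 u v w
      refine ⟨⟨⟨g, hg⟩, (mS _).2 ?_⟩, Subtype.ext e1, Subtype.ext e2, Subtype.ext e3⟩
      refine r.trans (hr g hg a u u.2) ?_
      rw [e1]; exact r.symm (r.trans u.2 (kr n u))
    · exact congrArg (fun e : Equiv.Perm {b // r a b} => (e ⟨a, r.refl a⟩).1) e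
  exact Group.isSolvable_of_ker_le_range (qh r H hr').ker.subtype (qh r H hr').rangeRestrict (by simp)

end CL.TC3
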