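import Cfsg.Agent.PERM.TC3.Bas
import Cfsg.Agent.PERM.TC3.BlkB

set_option autoImplicit false
set_option linter.unusedSectionVars false

namespace CL.TC3
open Subgroup

variable {K V M : Type} {r : ℕ} [Fact r.Prime] [Field K] [Finite K] [AddCommGroup V] [Finite V] [Nontrivial V]
  [Module K V] [AddCommGroup M] [Finite M] [Module (ZMod r) M] (P : PR K V M r)

namespace Kr

/-- abstract form: a conjugation-stable ring `R` with a nonzero annihilator. -/
theorem core {V : Type} [AddCommGroup V] [Finite V] [Nontrivial V] (lih : LIH (Nat.card V))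
    {G C : Subgroup (Aut V)} (hG : Group.IsSolvable G) (hi : Irr G) (R : Set (Module.End ℤ V))
    (hc : ∀ g ∈ G, ∀ α ∈ R, ∃ α' ∈ R, ∀ v, g (α v) = α' (g v))
    {α₀ : Module.End ℤ V} (h0 : α₀ ∈ R) (n0 : α₀ ≠ 0) {u₀ : V} (u0 : u₀ ≠ 0) (e0 : α₀ u₀ = 0)
    (hC : C ≤ cl G) (hm : ∀ h ∈ C, ∀ α ∈ R, ∀ v, h (α v) = α (h v)) : Group.IsSolvable C := by
  let A : V → Set (Module.End ℤ V) := fun u => {α | α ∈ R ∧ α u = 0}
  have L : ∀ g ∈ G, ∀ u w, A u ⊆ A w → A (g u) ⊆ A (g w) := by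
    intro g hg u w h α hα
    obtain ⟨α', h', e⟩ := hc g⁻¹ (inv_mem hg) α hα.1
    have e1 : α' u = 0 := by
      have := e (g u)
      rw [hα.2, map_zero, inv_ap] at this
      exact this.symm
    have e2 := e (g w)
    rw [inv_ap, (h ⟨h', e1⟩).2] at e2
    exact ⟨hα.1, (map_eq_zero_iff _ (g⁻¹).injective).1 e2⟩
  let Mx : V → Prop := fun u => u ≠ 0 ∧ ∀ w, w ≠ 0 → A u ⊆ A w → A w ⊆ A u
  have M1 : ∀ g ∈ G, ∀ u, Mx u → Mx (g u) := by
    intro g hg u hu
    refine ⟨fun e => hu.1 ((map_eq_zero_iff _ g.injective).1 e), fun w w0 h => ?_⟩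
    have h1 := L g⁻¹ (inv_mem hg) _ _ h
    rw [inv_ap] at h1
    have h2 := L g hg _ _ (hu.2 _ (fun e => w0 ((map_eq_zero_iff _ (g⁻¹).injective).1 e)) h1)
    rwa [ap_inv] at h2
  let U : V → Submodule ℤ V := fun u =>
    { carrier := {w | A u ⊆ A w}
      zero_mem' := fun α hα => ⟨hα.1, map_zero _⟩
      add_mem' := fun ha hb α hα => ⟨hα.1, by rw [map_add, (ha hα).2, (hb hα).2, add_zero]⟩
      smul_mem' := fun c _ ha α hα => ⟨hα.1, by rw [map_smul, (ha hα).2, smul_zero]⟩ }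
  have mU : ∀ u w, w ∈ U u ↔ A u ⊆ A w := fun _ _ => Iff.rfl
  refine ti lih hG {X | ∃ u, Mx u ∧ X = U u} ?_ ?_ ?_ hC ?_
  · rintro _ ⟨u, hu, rfl⟩ e
    have all : ∀ w, A u ⊆ A w := fun w => (mU u w).1 (e ▸ Submodule.mem_top)
    have := hu.2 u₀ u0 (all _) ⟨h0, e0⟩
    exact n0 (LinearMap.ext fun w => (all w this).2)
  · refine (hi _ fun g hg w hw => ?_).resolve_left fun e => ?_
    · have : sSup {X | ∃ u, Mx u ∧ X = U u} ≤ (sSup {X | ∃ u, Mx u ∧ X = U u}).comap (g : V →ₗ[ℤ] V) := by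
        refine sSup_le ?_
        rintro _ ⟨u, hu, rfl⟩ x hx
        exact (le_sSup (s := {X | ∃ u, Mx u ∧ X = U u}) ⟨g u, M1 g hg u hu, rfl⟩ : U (g u) ≤ _) (L g hg u x hx)
      exact this hw
    · obtain ⟨u, hu, hx⟩ := Set.Finite.exists_maximalFor A {u : V | u ≠ 0} (Set.toFinite _) ⟨u₀, u0⟩
      have mx : Mx u := ⟨hu, fun w w0 h => hx w0 h⟩
      have : u ∈ sSup {X | ∃ u, Mx u ∧ X = U u} :=
        (le_sSup (s := {X | ∃ u, Mx u ∧ X = U u}) ⟨u, mx, rfl⟩ : U u ≤ _) ((mU u u).2 subset_rfl)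
      rw [e] at this
      exact hu this
  · rintro _ ⟨u, hu, rfl⟩ g hg w hw w0 hgw u' hu'
    exact (mU _ _).2 (((mU _ _).1 hgw).trans (L g hg _ _ ((hu.2 w w0 hw).trans hu')))
  · rintro h hh _ ⟨u, -, rfl⟩ w hw α hα
    exact ⟨hα.1, by rw [← hm h hh α hα.1, (hw hα).2, map_zero]⟩

/-- the map `v ↦ c • ρ x v`. -/
def el (c : K) (x : M) : Module.End ℤ V :=
  (DistribSMul.toAddMonoidHom V c).toIntLinearMap ∘ₗ (P.ρ x : V →ₗ[ℤ] V)

theorem el_ap (c : K) (x : M) (v : V) : el P c x v = c • P.ρ x v := rfl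

/-- the ring generated by the maps `c • ρ x`. -/
def R : Subring (Module.End ℤ V) := Subring.closure {α | ∃ c x, α = el P c x}

theorem el_mem (c : K) (x : M) : el P c x ∈ R P := Subring.subset_closure ⟨c, x, rfl⟩

theorem cj {g : Aut V} (hs : Semi K g) {φ : Aut M} (ha : P.Act g φ) :
    ∀ α ∈ R P, ∃ α' ∈ R P, ∀ v, g (α v) = α' (g v) := by
  intro α hα
  obtain ⟨σ, hσ⟩ := hs
  induction hα using Subring.closure_induction with
  | mem α h =>
    obtain ⟨c, x, rfl⟩ := h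
    obtain ⟨d, -, e⟩ := ha x
    exact ⟨_, el_mem P (σ c * d) (φ x), fun v => by rw [el_ap, el_ap, hσ, e, mul_smul]⟩
  | zero => exact ⟨0, zero_mem _, fun v => by simp⟩
  | one => exact ⟨1, one_mem _, fun v => rfl⟩
  | add a b _ _ ha hb =>
    obtain ⟨a', h1, e1⟩ := ha
    obtain ⟨b', h2, e2⟩ := hb
    exact ⟨a' + b', add_mem h1 h2, fun v => by rw [LinearMap.add_apply, LinearMap.add_apply, map_add, e1, e2]⟩
  | neg a _ ha =>
    obtain ⟨a', h1, e1⟩ := ha
    exact ⟨-a', neg_mem h1, fun v => by rw [LinearMap.neg_apply, LinearMap.neg_apply, map_neg, e1]⟩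
  | mul a b _ _ ha hb =>
    obtain ⟨a', h1, e1⟩ := ha
    obtain ⟨b', h2, e2⟩ := hb
    exact ⟨a' * b', mul_mem h1 h2, fun v => by rw [Module.End.mul_apply, Module.End.mul_apply, e1, e2]⟩

theorem cm {h : Aut V} (hl : Lin K h) (hc : ∀ x v, h (P.ρ x v) = P.ρ x (h v)) :
    ∀ α ∈ R P, ∀ v, h (α v) = α (h v) := by
  intro α hα
  induction hα using Subring.closure_induction with
  | mem α h =>
    obtain ⟨c, x, rfl⟩ := h
    exact fun v => by rw [el_ap, el_ap, hl, hc]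
  | zero => exact fun v => by simp
  | one => exact fun v => rfl
  | add a b _ _ ha hb => exact fun v => by rw [LinearMap.add_apply, LinearMap.add_apply, map_add, ha, hb]
  | neg a _ ha => exact fun v => by rw [LinearMap.neg_apply, LinearMap.neg_apply, map_neg, ha]
  | mul a b _ _ ha hb => exact fun v => by rw [Module.End.mul_apply, Module.End.mul_apply, ha, hb]

theorem ann [Nontrivial M] : ∃ α ∈ R P, α ≠ 0 ∧ ∃ u : V, u ≠ 0 ∧ α u = 0 := by
  by_contra! hc
  obtain ⟨v, v0⟩ := exists_ne (0 : V)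
  haveI : Finite (Module.End ℤ V) := Finite.of_injective (fun f : Module.End ℤ V => (f : V → V)) DFunLike.coe_injective
  haveI : Nontrivial (R P) := ⟨⟨0, 1, fun e => v0 (LinearMap.congr_fun (congrArg Subtype.val e) v).symm⟩⟩
  haveI : NoZeroDivisors (R P) := ⟨fun {a b} e => by
    by_contra! h
    have a0 : a.1 ≠ 0 := fun e => h.1 (Subtype.ext e)
    have b0 : b.1 ≠ 0 := fun e => h.2 (Subtype.ext e)
    exact hc a.1 a.2 a0 _ (hc b.1 b.2 b0 v v0) (LinearMap.congr_fun (congrArg Subtype.val e) v)⟩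
  haveI : IsDomain (R P) := NoZeroDivisors.to_isDomain _
  obtain ⟨x, x0⟩ := exists_ne (0 : M)
  refine x0 (P.nd x fun y => P.inj _ ?_)
  have e := LinearMap.congr_fun (congrArg Subtype.val
    ((Finite.isDomain_to_isField (R P)).mul_comm ⟨_, el_mem P 1 x⟩ ⟨_, el_mem P 1 y⟩)) v
  change el P 1 x (el P 1 y v) = el P 1 y (el P 1 x v) at e
  simp only [el_ap, one_smul] at e
  rw [P.comm] at e
  have n : P.ρ y (P.ρ x v) ≠ 0 := fun e =>
    v0 ((map_eq_zero_iff _ (P.ρ x).injective).1 ((map_eq_zero_iff _ (P.ρ y).injective).1 e))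
  exact smul_left_injective K n (e.trans (one_smul K _).symm)

theorem of_comm {H : Type*} [Group H] (C : Subgroup H) (h : Group.IsSolvable (⁅C, C⁆ : Subgroup H)) :
    Group.IsSolvable C := by
  have le : ⁅C, C⁆ ≤ C := commutator_le.2 fun a ha b hb =>
    mul_mem (mul_mem (mul_mem ha hb) (inv_mem ha)) (inv_mem hb)
  refine Group.isSolvable_of_ker_le_range (inclusion le) (Abelianization.of (G := C)) ?_
  rw [Abelianization.ker_of, inclusion_range]
  intro x hx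
  rw [mem_subgroupOf]
  have := mem_map_of_mem C.subtype hx
  rwa [map_subtype_commutator] at this

end Kr

namespace PR

/-- PROOF. `h ρ x h⁻¹ = c ρ x` for linear `h ∈ C`, so commutators lie in `C₁ = {h ∈ C commuting with all ρ x}`; enough `C₁`
solvable. `R` = subring of `Module.End ℤ V` of the finite sums of maps `c • ρ x` (closure); finite, stable under
conjugation by `G` (`hs`, `ha`), centralised by `C₁`. `Ann u = {α ∈ R | α u = 0}`. Some `Ann u ≠ 0` (`u ≠ 0`): else `R` is a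
domain, so commutative (`Finite.isDomain_to_isField`), but `β x y ≠ 0` for some `x, y`. `S` = the set of
`U(I) = {w | ∀ α ∈ I, α w = 0}` for `I = Ann u` maximal among annihilators of nonzero vectors (so `I ≠ 0`, `U(I) ≠ ⊤`).
`g U(I) = U(g I g⁻¹)`, `g I g⁻¹ = Ann (g u)` is maximal too; so `sSup S` is invariant, nonzero, `⊤`. TI: if `0 ≠ w ∈ U(I)`,
`g w ∈ U(I)` then `Ann w = I = Ann (g w)`, so `g⁻¹ α g ∈ I` for `α ∈ I`, so `g U(I) ≤ U(I)`. Apply `ti`. -/
theorem ker [Nontrivial M] (lih : LIH (Nat.card V)) {G C : Subgroup (Aut V)} (hG : Group.IsSolvable G) (hi : Irr G)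
    (hs : ∀ g ∈ G, Semi K g) (ha : ∀ g ∈ G, ∃ φ, P.Act g φ) (hC : C ≤ cl G) (hl : ∀ h ∈ C, Lin K h)
    (h1 : ∀ h ∈ C, P.Act h 1) : Group.IsSolvable C := by
  refine Kr.of_comm C ?_
  have le : ⁅C, C⁆ ≤ C := commutator_le.2 fun a ha b hb =>
    mul_mem (mul_mem (mul_mem ha hb) (inv_mem ha)) (inv_mem hb)
  have z : ⁅C, C⁆ ≤ centralizer (Set.range P.ρ) := by
    refine commutator_le.2 fun a ha b hb => ?_
    rintro _ ⟨x, rfl⟩
    obtain ⟨c, c0, ec⟩ := h1 a ha x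
    obtain ⟨d, d0, ed⟩ := h1 b hb x
    rw [one_ap] at ec ed
    refine LinearEquiv.ext fun v => ?_
    obtain ⟨w, rfl⟩ := (b * a).surjective v
    have e1 : ∀ y, (a * b * a⁻¹ * b⁻¹) ((b * a) y) = (a * b) y := fun y => by
      rw [← mul_ap]; congr 1; group
    rw [commutatorElement_def]
    have e2 : P.ρ x ((b * a) w) = (b * a) ((c * d)⁻¹ • P.ρ x w) := by
      rw [mul_ap, mul_ap, hl a ha, hl b hb, ec, hl b hb, ed, smul_smul, smul_smul, mul_assoc,
        inv_mul_cancel₀ (mul_ne_zero c0 d0), one_smul]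
    rw [mul_ap (P.ρ x), mul_ap _ (P.ρ x), e2, e1, e1, mul_ap, mul_ap, hl b hb, hl a ha, ed, hl a ha, ec, smul_smul,
      smul_smul, mul_assoc, mul_comm d c, inv_mul_cancel₀ (mul_ne_zero c0 d0), one_smul]
  obtain ⟨α, hα, α0, u, u0, e⟩ := Kr.ann P
  refine Kr.core lih hG hi (Kr.R P) (fun g hg => ?_) hα α0 u0 e (le.trans hC) fun h hh => ?_
  · obtain ⟨φ, hφ⟩ := ha g hg
    exact Kr.cj P (hs g hg) hφ
  · exact Kr.cm P (hl h (le hh)) fun x v => (LinearEquiv.congr_fun (z hh _ ⟨x, rfl⟩) v).symm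

end PR

end CL.TC3
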