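import Cfsg.Agent.PERM.TC3.BlkB

set_option autoImplicit false
set_option linter.unusedSectionVars false

namespace CL.TC3
open Subgroup

variable {V : Type} [AddCommGroup V] [Finite V]

section aux
variable {G : Subgroup (Aut V)} {W : Submodule ℤ V}

theorem lb_A (hi : Irr G) (h : Blk G W) {k : Aut V} (hk : k ∈ cl G) {X Y : Submodule ℤ V} (hX : X ∈ tr G W)
    (hY : Y ∈ tr G W) {x : V} (hx : x ∈ X) (x0 : x ≠ 0) (e : k x ∈ Y) : ∀ x' ∈ X, k x' ∈ Y := by
  intro x' hx'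
  obtain ⟨g, hg, e1, e2⟩ := hk x x'
  rw [← e2, ← h.ti hi hX hY hg hx x0 (e1 ▸ e)]
  exact ⟨x', hx', rfl⟩

theorem lb_B (hi : Irr G) (h : Blk G W) {k : Aut V} (hk : k ∈ cl G) {X Y : Submodule ℤ V} (hX : X ∈ tr G W)
    (hY : Y ∈ tr G W) {x : V} (hx : x ∈ X) (x0 : x ≠ 0) (e : k x ∈ Y) : X.map (k : V →ₗ[ℤ] V) = Y := by
  apply le_antisymm
  · rintro _ ⟨x', hx', rfl⟩
    exact lb_A hi h hk hX hY hx x0 e x' hx'
  · intro y hy
    have k0 : k x ≠ 0 := fun e0 => x0 (k.injective (e0.trans (map_zero k).symm))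
    exact ⟨k⁻¹ y, lb_A hi h (inv_mem hk) hY hX e k0 (by rw [inv_ap]; exact hx) y hy, ap_inv k y⟩

theorem lb_C (hi : Irr G) (h : Blk G W) {k : Aut V} (hk : k ∈ cl G) {X : Submodule ℤ V} (hX : X ∈ tr G W) :
    X.map (k : V →ₗ[ℤ] V) ∈ tr G W := by
  obtain ⟨-, hS, -⟩ := h.proj hi
  obtain ⟨x, hx, x0⟩ := Submodule.exists_mem_ne_zero_of_ne_bot (hS X hX).1
  obtain ⟨g, hg, e1, -⟩ := hk x x
  have hY := (hS X hX).2.2 g hg
  rw [lb_B hi h hk hX hY hx x0 ⟨x, hx, e1⟩]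
  exact hY

omit [Finite V] in
theorem lb_inj (k : Aut V) {X Y : Submodule ℤ V} (e : X.map (k : V →ₗ[ℤ] V) = Y.map (k : V →ₗ[ℤ] V)) : X = Y :=
  Submodule.map_injective_of_injective (f := (k : V →ₗ[ℤ] V)) k.injective e

theorem lb_D (hi : Irr G) (h : Blk G W) {k g : Aut V} (hk : k ∈ cl G) (hg : g ∈ G) {X Y : Submodule ℤ V}
    (hX : X ∈ tr G W) (hY : Y ∈ tr G W) (ne : X ≠ Y) {x y : V} (hx : x ∈ X) (hy : y ∈ Y) (x0 : x ≠ 0)
    (e : g (x + y) = k (x + y)) :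
    X.map (g : V →ₗ[ℤ] V) = X.map (k : V →ₗ[ℤ] V) ∨ Y.map (g : V →ₗ[ℤ] V) = X.map (k : V →ₗ[ℤ] V) := by
  obtain ⟨-, hS, p, hp⟩ := h.proj hi
  by_contra hn
  rw [not_or] at hn
  obtain ⟨h1, h2⟩ := hp _ (lb_C hi h hk hX)
  have a1 := h2 _ ((hS X hX).2.2 g hg) hn.1 (g x) ⟨x, hx, rfl⟩
  have a2 := h2 _ ((hS Y hY).2.2 g hg) hn.2 (g y) ⟨y, hy, rfl⟩
  have a3 := h1 (k x) ⟨x, hx, rfl⟩
  have a4 := h2 _ (lb_C hi h hk hY) (fun e' => ne (lb_inj k e').symm) (k y) ⟨y, hy, rfl⟩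
  have := congrArg (p (X.map (k : V →ₗ[ℤ] V))) e
  rw [map_add, map_add, map_add, map_add, a1, a2, a3, a4, add_zero, add_zero] at this
  exact x0 (k.injective (this.symm.trans (map_zero k).symm))

theorem lb_two (hi : Irr G) (h : Blk G W) {k : Aut V} (hk : k ∈ cl G) {X Y : Submodule ℤ V}
    (hX : X ∈ tr G W) (hY : Y ∈ tr G W) : ∃ g ∈ G, X.map (g : V →ₗ[ℤ] V) = X.map (k : V →ₗ[ℤ] V) ∧
      Y.map (g : V →ₗ[ℤ] V) = Y.map (k : V →ₗ[ℤ] V) := by
  obtain ⟨-, hS, -⟩ := h.proj hi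
  obtain ⟨x, hx, x0⟩ := Submodule.exists_mem_ne_zero_of_ne_bot (hS X hX).1
  obtain ⟨y, hy, y0⟩ := Submodule.exists_mem_ne_zero_of_ne_bot (hS Y hY).1
  obtain ⟨g, hg, e1, e2⟩ := hk x y
  exact ⟨g, hg, h.ti hi hX (lb_C hi h hk hX) hg hx x0 ⟨x, hx, e1.symm⟩,
    h.ti hi hY (lb_C hi h hk hY) hg hy y0 ⟨y, hy, e2.symm⟩⟩

theorem lb_three (hi : Irr G) (h : Blk G W) {k : Aut V} (hk : k ∈ cl G) {A B C : Submodule ℤ V}
    (hA : A ∈ tr G W) (hB : B ∈ tr G W) (hC : C ∈ tr G W) :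
    ∃ g ∈ G, A.map (g : V →ₗ[ℤ] V) = A.map (k : V →ₗ[ℤ] V) ∧ B.map (g : V →ₗ[ℤ] V) = B.map (k : V →ₗ[ℤ] V) ∧
      C.map (g : V →ₗ[ℤ] V) = C.map (k : V →ₗ[ℤ] V) := by
  by_cases ab : A = B
  · subst ab
    obtain ⟨g, hg, e1, e2⟩ := lb_two hi h hk hA hC
    exact ⟨g, hg, e1, e1, e2⟩
  by_cases bc : B = C
  · subst bc
    obtain ⟨g, hg, e1, e2⟩ := lb_two hi h hk hA hB
    exact ⟨g, hg, e1, e2, e2⟩
  by_cases ac : A = C
  · subst ac
    obtain ⟨g, hg, e1, e2⟩ := lb_two hi h hk hA hB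
    exact ⟨g, hg, e1, e2, e1⟩
  obtain ⟨-, hS, -⟩ := h.proj hi
  obtain ⟨a, ha, a0⟩ := Submodule.exists_mem_ne_zero_of_ne_bot (hS A hA).1
  obtain ⟨b, hb, b0⟩ := Submodule.exists_mem_ne_zero_of_ne_bot (hS B hB).1
  obtain ⟨c, hc, c0⟩ := Submodule.exists_mem_ne_zero_of_ne_bot (hS C hC).1
  obtain ⟨g, hg, e1, e2⟩ := hk (a + b) (b + c)
  have d1 := lb_D hi h hk hg hA hB ab ha hb a0 e1
  have d2 := lb_D hi h hk hg hB hA (Ne.symm ab) hb ha b0 (by rw [add_comm]; exact e1)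
  have d3 := lb_D hi h hk hg hB hC bc hb hc b0 e2
  have d4 := lb_D hi h hk hg hC hB (Ne.symm bc) hc hb c0 (by rw [add_comm]; exact e2)
  have eB : B.map (g : V →ₗ[ℤ] V) = B.map (k : V →ₗ[ℤ] V) := by
    rcases d2 with d2 | d2
    · exact d2
    rcases d3 with d3 | d3
    · exact d3
    exact absurd (lb_inj g (d2.trans d3.symm)) ac
  refine ⟨g, hg, d1.resolve_right fun e => ab (lb_inj k (e.symm.trans eB)), eB,
    d4.resolve_right fun e => bc (lb_inj k (eB.symm.trans e))⟩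

theorem lb_hom (hi : Irr G) (h : Blk G W) : ∃ φ : cl G →* Equiv.Perm (tr G W),
    ∀ (k : cl G) (X : tr G W), ((φ k X : tr G W) : Submodule ℤ V) = X.1.map (k.1 : V →ₗ[ℤ] V) := by
  letI : MulAction (cl G) (tr G W) :=
    { smul := fun k X => ⟨X.1.map (k.1 : V →ₗ[ℤ] V), lb_C hi h k.2 X.2⟩
      one_smul := fun X => Subtype.ext (Submodule.map_id X.1)
      mul_smul := fun a b X => Subtype.ext
        (Submodule.map_comp (b.1 : V →ₗ[ℤ] V) (a.1 : V →ₗ[ℤ] V) X.1) }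
  exact ⟨MulAction.toPermHom (cl G) (tr G W), fun _ _ => rfl⟩

theorem lb_card (hi : Irr G) (h : Blk G W) : Nat.card (tr G W) < Nat.card V := by
  classical
  obtain ⟨-, hS, -⟩ := h.proj hi
  haveI : Finite (Submodule ℤ V) := Finite.of_injective _ SetLike.coe_injective
  choose f hf f0 using fun X : tr G W => Submodule.exists_mem_ne_zero_of_ne_bot (hS X.1 X.2).1
  have hinj : Function.Injective f := fun X Y e => Subtype.ext (by
    have := h.ti hi X.2 Y.2 (one_mem G) (hf X) (f0 X) (by rw [one_ap, e]; exact hf Y)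
    exact (Submodule.map_id X.1).symm.trans this)
  letI := Fintype.ofFinite V
  letI := Fintype.ofFinite (tr G W)
  rw [Nat.card_eq_fintype_card, Nat.card_eq_fintype_card]
  exact Fintype.card_lt_of_injective_of_notMem f hinj (b := 0) fun ⟨X, e⟩ => f0 X e

end aux

/-- The imprimitive linear case.
PROOF. Blocks `S = tr G W`, projections `p` (`Blk.proj`). (1) `h ∈ cl G` maps each `X ∈ S` onto some `Y ∈ S`: every
`h x` lies in some block; if `h x ∈ Y`, `h x' ∈ Y'` (`x, x' ≠ 0` in `X`) take `g` agreeing with `h` at `x, x'`: by `Blk.ti`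
`Y = g X = Y'`; equality of `h X` and `Y` by cardinality (or use `h⁻¹`). (2) This gives a hom `cl G →* Perm S`;
`card S < card V` (choose a nonzero vector in each block, injective, missing `0`). The range lies in the 3-closure of
the range of `G`: for blocks `A, B, C` pairwise distinct choose nonzero `a, b, c` in them and `g` agreeing with `h` at
`a + b` and `b + c`: projections give `{gA, gB} = {hA, hB}`, `{gB, gC} = {hB, hC}`, hence `gB = hB` etc.; if two coincide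
use the pair of nonzero vectors directly. So the range is solvable by `ih`. (3) the kernel is solvable by `ti`
(with `lih`, `Blk.ti`). -/
theorem linB (ih : IH (Nat.card V)) (lih : LIH (Nat.card V)) {G : Subgroup (Aut V)} (hG : Group.IsSolvable G)
    (hi : Irr G) {W : Submodule ℤ V} (h : Blk G W) : Group.IsSolvable (cl G) := by
  haveI : Finite (Submodule ℤ V) := Finite.of_injective _ SetLike.coe_injective
  obtain ⟨φ, hφ⟩ := lb_hom hi h
  obtain ⟨hsup, hS, -⟩ := h.proj hi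
  have s0 : Group.IsSolvable (G.subgroupOf (cl G)) :=
    solvable_of_surjective (f := (subgroupOfEquivOfLe (le_cl G)).symm.toMonoidHom)
      (subgroupOfEquivOfLe (le_cl G)).symm.surjective
  have s1 : Group.IsSolvable ((G.subgroupOf (cl G)).map φ) :=
    solvable_of_surjective (φ.subgroupMap_surjective (G.subgroupOf (cl G)))
  have s2 : Group.IsSolvable φ.range := by
    refine ih (tr G W) (lb_card hi h) _ _ s1 ?_
    rintro _ ⟨k, rfl⟩ A B C
    obtain ⟨g, hg, e1, e2, e3⟩ := lb_three hi h k.2 A.2 B.2 C.2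
    refine ⟨φ ⟨g, le_cl G hg⟩, mem_map_of_mem _ (mem_subgroupOf.2 hg), ?_, ?_, ?_⟩ <;>
      apply Subtype.ext <;> rw [hφ, hφ] <;> assumption
  have s3 : Group.IsSolvable (φ.ker.map (cl G).subtype) := by
    refine ti lih hG (tr G W) (fun U hU => (hS U hU).2.1) hsup ?_ (map_subtype_le _) ?_
    · intro U hU g hg u hu u0 e u' hu'
      rw [← h.ti hi hU hU hg hu u0 e]
      exact ⟨u', hu', rfl⟩
    · rintro _ ⟨k, hk, rfl⟩ U hU u hu
      have := hφ k ⟨U, hU⟩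
      rw [MonoidHom.mem_ker.1 hk] at this
      have e : U = U.map (k.1 : V →ₗ[ℤ] V) := this
      rw [e]
      exact ⟨u, hu, rfl⟩
  have s4 : Group.IsSolvable φ.ker :=
    solvable_of_surjective (f := (φ.ker.equivMapOfInjective _ (cl G).subtype_injective).symm.toMonoidHom)
      (φ.ker.equivMapOfInjective _ (cl G).subtype_injective).symm.surjective
  exact solvable_of_ker_le_range φ.ker.subtype φ.rangeRestrict (by
    rw [MonoidHom.ker_rangeRestrict, range_subtype])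

end CL.TC3
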