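import Cfsg.Agent.PERM.TC3.LinF
import Cfsg.Agent.PERM.TC3.LinB
import Cfsg.Agent.PERM.TC3.Dich
import Cfsg.Agent.PERM.TC3.Aff
import Cfsg.Agent.PERM.TC3.Impr
import Cfsg.Agent.PERM.TC3.Add

set_option autoImplicit false
set_option linter.unusedSectionVars false

namespace CL.TC3
open Subgroup

section
variable {V : Type} [AddCommGroup V] [Finite V]

theorem sup_solv {X : Type} [Group X] {G N : Subgroup X} (hG : Group.IsSolvable G) (hN : Group.IsSolvable N)
    (h : G ≤ normalizer (N : Set X)) : Group.IsSolvable ↥(G ⊔ N) := by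
  have hn : (N.subgroupOf (G ⊔ N)).Normal :=
    (normal_subgroupOf_iff_le_normalizer le_sup_right).2 (sup_le h le_normalizer)
  have s1 : Group.IsSolvable (N.subgroupOf (G ⊔ N)) :=
    Group.isSolvable_of_isSolvable_injective (f := (subgroupOfEquivOfLe (le_sup_right : N ≤ G ⊔ N)).toMonoidHom)
      (subgroupOfEquivOfLe _).injective
  have s2 : Group.IsSolvable (↥(G ⊔ N) ⧸ N.subgroupOf (G ⊔ N)) := by
    refine Group.isSolvable_of_surjective (f := (QuotientGroup.mk' _).comp (inclusion (le_sup_left : G ≤ G ⊔ N))) ?_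
    rw [← MonoidHom.range_eq_top, MonoidHom.range_comp, inclusion_range, eq_top_iff,
      ← QuotientGroup.range_mk', MonoidHom.range_eq_map]
    have e : (⊤ : Subgroup ↥(G ⊔ N)) = G.subgroupOf (G ⊔ N) ⊔ N.subgroupOf (G ⊔ N) := by
      rw [← subgroupOf_sup le_sup_left le_sup_right, subgroupOf_self]
    rw [e, Subgroup.map_sup, (Subgroup.map_eq_bot_iff _).2 (QuotientGroup.ker_mk' _).ge, sup_bot_eq]
  exact (Group.isSolvable_iff_subgroup_quotient _).2 ⟨s1, s2⟩

theorem lin_irr [Nontrivial V] (ih : IH (Nat.card V)) {G : Subgroup (Aut V)} (hG : Group.IsSolvable G) (hi : Irr G) :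
    Group.IsSolvable (cl G) := by
  obtain ⟨G', le, hG', mx⟩ := Finite.exists_le_maximal (p := fun X : Subgroup (Aut V) => Group.IsSolvable X) hG
  have hm : MaxS G' := ⟨hG', fun N hN h => le_sup_right.trans (mx (sup_solv hG' hN h) le_sup_left)⟩
  have hi' : Irr G' := fun W hW => hi W fun g hg => hW g (le hg)
  suffices Group.IsSolvable (cl G') from
    Group.isSolvable_of_isSolvable_injective (f := inclusion (cl_mono le)) (inclusion_injective _)
  obtain ⟨A, -, ⟨hA, nA, cA⟩, mA⟩ := Finite.exists_le_maximal (a := (⊥ : Subgroup (Aut V)))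
    (p := fun A : Subgroup (Aut V) => A ≤ G' ∧ G' ≤ normalizer (A : Set (Aut V)) ∧ ∀ a ∈ A, ∀ b ∈ A, a * b = b * a)
    ⟨bot_le, (normalizer_eq_top ⊥).ge.trans' le_top, fun a ha b _ => by rw [mem_bot.1 ha, one_mul, mul_one]⟩
  rcases dich hi' nA cA with ⟨W, hW⟩ | ⟨K, _, _, _, hs, hsc⟩
  · exact linB ih (lih_of_ih ih) hG' hi' hW
  · exact linF (K := K) (lih_of_ih ih) hm hi' hs fun B hB nB cB sB a ha =>
      hsc a (mA ⟨hB, nB, cB⟩ (fun x hx => sB x (hsc x hx)) ha)

end

theorem step {Ω : Type} [Finite Ω] (ih : IH (Nat.card Ω)) {G H : Subgroup (Equiv.Perm Ω)} (hG : Group.IsSolvable G)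
    (hH : Cl3 G H) : Group.IsSolvable H := by
  by_cases ne : G = ⊥
  · have : H = ⊥ := eq_bot_iff.2 fun h hh => mem_bot.2 (Equiv.ext fun a => by
      obtain ⟨g, hg, e, -⟩ := hH h hh a a a
      rw [ne, mem_bot] at hg
      rw [← e, hg])
    rw [this]; infer_instance
  by_cases pr : ∀ r : Setoid Ω, (∀ g ∈ G, ∀ a b, r a b → r (g a) (g b)) → (∀ a b, r a b → a = b) ∨ ∀ a b, r a b
  swap
  · push Not at pr
    obtain ⟨r, hr, ⟨a, b, h1, h2⟩, h3⟩ := pr
    exact impr ih hG hH r hr ⟨a, b, h2, h1⟩ h3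
  obtain ⟨V, _, e, G₀, _, s0, i0, he⟩ := aff hG ne pr
  have : Finite V := Finite.of_equiv _ e
  let f : H → V → V := fun h v => e (h.1 (e.symm v)) - e (h.1 (e.symm 0))
  have a3 : ∀ h, A3 G₀ (f h) := fun h a b c => by
    obtain ⟨g, hg, e1, e2, e3⟩ := hH h.1 h.2 (e.symm a) (e.symm b) (e.symm c)
    obtain ⟨g₀, h0, k⟩ := he g hg
    refine ⟨g₀, h0, ?_, ?_⟩
    · simp only [f, sub_sub_sub_cancel_right]; rw [← e1, ← e2, k]; simp
    · simp only [f, sub_sub_sub_cancel_right]; rw [← e1, ← e3, k]; simp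
  have f0 : ∀ h, f h 0 = 0 := fun h => sub_self _
  have ad : ∀ h a b, f h (a + b) = f h a + f h b := fun h =>
    aih (Nat.card V + 1) V (Nat.lt_succ_self _) G₀ s0 i0 (f h) (a3 h) (f0 h)
  have bj : ∀ h, Function.Bijective (f h) := fun h => Finite.injective_iff_bijective.1 fun a b k =>
    e.symm.injective (h.1.injective (e.injective (sub_left_injective k)))
  let θ : H → Aut V := fun h => (AddEquiv.ofBijective (AddMonoidHom.mk' (f h) (ad h)) (bj h)).toIntLinearEquiv
  have hθ : ∀ h v, θ h v = f h v := fun _ _ => rfl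
  have sb : ∀ h a b, θ h (e b - e a) = e (h.1 b) - e (h.1 a) := fun h a b => by
    rw [map_sub, hθ, hθ]; simp [f]
  have sb' : ∀ (h : H) (v : V), θ h v = e (h.1 (e.symm v)) - e (h.1 (e.symm 0)) := hθ
  let Θ : H →* Aut V := MonoidHom.mk' θ fun a b => LinearEquiv.ext fun v => by
    rw [mul_ap, sb' b, sb, sb']; rfl
  have s1 : Group.IsSolvable (cl G₀) := lin_irr (by rwa [← Nat.card_congr e]) s0 i0
  have le : Θ.range ≤ cl G₀ := by
    rintro _ ⟨h, rfl⟩ v w
    obtain ⟨g, hg, e1, e2⟩ := a3 h 0 v w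
    rw [f0, sub_zero, sub_zero] at e1 e2
    exact ⟨g, hg, e1.symm, e2.symm⟩
  have s2 : Group.IsSolvable Θ.range :=
    Group.isSolvable_of_isSolvable_injective (f := inclusion le) (inclusion_injective _)
  have tr : ∀ h : H, h ∈ Θ.ker → ∀ a, e (h.1 a) = e a + e (h.1 (e.symm 0)) := fun h hh a => by
    have := sb' h (e a)
    rw [show θ h = 1 from hh, one_ap, e.symm_apply_apply] at this
    rw [this, sub_add_cancel]
  have s3 : Group.IsSolvable Θ.ker := Group.isSolvable_of_comm fun a b => Subtype.ext (Subtype.ext (Equiv.ext fun x =>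
    e.injective (by
      change e (a.1.1 (b.1.1 x)) = e (b.1.1 (a.1.1 x))
      rw [tr _ a.2, tr _ b.2 x, tr _ b.2 (a.1.1 x), tr _ a.2 x, add_right_comm])))
  exact Group.isSolvable_of_ker_le_range Θ.ker.subtype Θ.rangeRestrict (by rw [MonoidHom.ker_rangeRestrict, range_subtype])

theorem ih_all (n : ℕ) : IH n := by
  induction n using Nat.strong_induction_on with
  | _ n ih => exact fun Ω _ h G H hG hH => step (ih _ h) hG hH

end CL.TC3
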