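import Cfsg.Agent.PERM.TC3.SemiB

set_option autoImplicit false
set_option linter.unusedSectionVars false
set_option linter.style.haveILetI false

namespace CL.TC3
open Subgroup

variable {K V : Type} [Field K] [Finite K] [AddCommGroup V] [Finite V] [Nontrivial V] [Module K V]
open scoped commutatorElement

namespace MkB

theorem uniq {g : Aut V} {c d : K} (h : ∀ v, c • g v = d • g v) : c = d := by
  obtain ⟨v, hv⟩ := exists_ne (0 : V)
  exact smul_left_injective K (m := g v) (by simpa using hv) (h v)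

theorem ne0 {g g' : Aut V} {c : K} (h : ∀ v, g v = c • g' v) : c ≠ 0 := by
  rintro rfl
  obtain ⟨v, hv⟩ := exists_ne (0 : V)
  exact hv (by simpa using h v)

theorem exκ {F : Subgroup (Aut V)} (lin : ∀ x ∈ F, Lin K x) (hc : ∀ x ∈ F, ∀ y ∈ F, Scal K ⁅x, y⁆) :
    ∃ κ : F → F → K, (∀ x y v, x.1 (y.1 v) = κ x y • y.1 (x.1 v)) ∧ (∀ x x' y, κ (x * x') y = κ x y * κ x' y) ∧
      (∀ x y y', κ x (y * y') = κ x y * κ x y') ∧ (∀ x y, Scal K x.1 → κ x y = 1) ∧ (∀ x y, Scal K y.1 → κ x y = 1) ∧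
      ∀ x, κ x x = 1 := by
  have e : ∀ x y : F, ∃ c : K, ∀ v, x.1 (y.1 v) = c • y.1 (x.1 v) := fun x y => by
    obtain ⟨c, hc⟩ := hc x x.2 y y.2
    refine ⟨c, fun v => ?_⟩
    have := hc (y.1 (x.1 v))
    rwa [commutatorElement_def, mul_ap, mul_ap, mul_ap, inv_ap, inv_ap] at this
  choose κ hκ using e
  refine ⟨κ, hκ, fun x x' y => uniq (g := y.1 * (x * x').1) fun v => ?_,
    fun x y y' => uniq (g := (y * y').1 * x.1) fun v => ?_, fun x y hx => uniq (g := y.1 * x.1) fun v => ?_,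
    fun x y hy => uniq (g := y.1 * x.1) fun v => ?_, fun x => uniq (g := x.1 * x.1) fun v => ?_⟩
  · rw [mul_ap, ← hκ, coe_mul, mul_ap, mul_ap, hκ x', lin _ x.2, hκ x, smul_smul, mul_comm]
  · rw [mul_ap, ← hκ, coe_mul, mul_ap, mul_ap, hκ x, hκ x, lin _ y.2, smul_smul]
  · rw [mul_ap, ← hκ, one_smul, ← mul_ap, hx.comm (lin _ y.2), mul_ap]
  · rw [mul_ap, ← hκ, one_smul, ← mul_ap, ← hy.comm (lin _ x.2), mul_ap]
  · rw [mul_ap, ← hκ, one_smul]

theorem exψ {r : ℕ} [Fact r.Prime] {ζ : K} (h1 : ζ ^ r = 1) (h2 : ζ ≠ 1) :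
    ∃ ψ : AddChar (ZMod r) K, Function.Injective ψ ∧ ∀ ξ : K, ξ ^ r = 1 → ∃ a, ψ a = ξ := by
  have hr : r.Prime := Fact.out
  haveI : NeZero r := ⟨hr.ne_zero⟩
  have hz : IsPrimitiveRoot ζ r := IsPrimitiveRoot.iff_orderOf.2 (orderOf_eq_prime h1 h2)
  refine ⟨AddChar.zmodChar r h1, fun a b hab => ?_, fun ξ hξ => ?_⟩
  · rw [AddChar.zmodChar_apply, AddChar.zmodChar_apply] at hab
    exact ZMod.val_injective r (hz.pow_inj (ZMod.val_lt a) (ZMod.val_lt b) hab)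
  · obtain ⟨i, -, hi⟩ := hz.eq_pow_of_pow_eq_one hξ
    exact ⟨i, by rw [AddChar.zmodChar_apply', hi]⟩

end MkB

/-- PROOF. `Z = (scal K V).subgroupOf F` is central; `F ⧸ Z` is commutative of exponent `r`; `M = Additive (F ⧸ Z)`
(`AddCommGroup.zmodModule`); `ρ` a section with `ρ 0 = 1`. `x y = κ(x,y) y x`, `κ` bimultiplicative, depends only on the
classes, `κ ^ r = 1`, some `ζ = κ(x,y) ≠ 1` is a primitive `r`-th root of unity; `ψ = AddChar.zmodChar r (ζ ^ r = 1)` is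
injective with image all `r`-th roots of unity; `β x y` = the `a` with `ψ a = κ(ρ x, ρ y)` (biadditive, so `ZMod r`-bilinear:
`AddMonoidHom.toZModLinearMap` / `ZMod.map_smul`). `nd` from `cen`. -/
theorem Chief.mk_PR {Γ F : Subgroup (Aut V)} (h : Chief K Γ F) (hc : ∀ x ∈ F, ∀ y ∈ F, Scal K ⁅x, y⁆) (r : ℕ) [Fact r.Prime]
    (hp : ∀ x ∈ F, Scal K (x ^ r)) (spl : r ≠ 2 ∨ IsSquare (-1 : K) → ∀ x ∈ F, ∃ v, v ≠ 0 ∧ ∃ c : K, x v = c • v) :
    ∃ (M : Type) (_ : AddCommGroup M) (_ : Finite M) (_ : Module (ZMod r) M) (P : PR K V M r), Nontrivial M ∧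
      ∀ g, g ∈ F ↔ ∃ x, ∃ c : K, ∀ v, g v = c • P.ρ x v := by
  classical
  obtain ⟨κ, hκ, kl, kr, k1, k2, kx⟩ := MkB.exκ h.lin hc
  have kp : ∀ x y, κ x y ^ r = 1 := fun x y => by
    have : ∀ n : ℕ, κ (x ^ n) y = κ x y ^ n := fun n => by
      induction n with
      | zero => rw [pow_zero, pow_zero]; exact k1 _ _ (scal K V).one_mem
      | succ n ih => rw [pow_succ, pow_succ, kl, ih]
    rw [← this]
    exact k1 _ _ (hp x x.2)
  have cen : ∀ x : F, (∀ y, κ x y = 1) → Scal K x.1 := fun x hx => h.cen x x.2 fun y hy => by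
    ext v
    rw [mul_ap, mul_ap, hκ x ⟨y, hy⟩, hx, one_smul]
  obtain ⟨x0, hx0, nx0⟩ := h.ne
  obtain ⟨y0, hy0⟩ : ∃ y, κ ⟨x0, hx0⟩ y ≠ 1 := by
    by_contra hn
    push Not at hn
    exact nx0 (cen ⟨x0, hx0⟩ hn)
  obtain ⟨ψ, ψi, ψs⟩ := MkB.exψ (kp _ _) hy0
  let Z : Subgroup F := (scal K V).subgroupOf F
  have mZ : ∀ x : F, x ∈ Z ↔ Scal K x.1 := fun x => Iff.rfl
  haveI : Z.Normal := ⟨fun n hn g => by
    have e : g * n * g⁻¹ = n := Subtype.ext (by
      rw [coe_mul, coe_mul, coe_inv, ← ((mZ n).1 hn).comm (h.lin _ g.2), mul_inv_cancel_right])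
    rwa [e]⟩
  letI : CommGroup (F ⧸ Z) := { (inferInstance : Group (F ⧸ Z)) with
    mul_comm := fun a b => by
      obtain ⟨x, rfl⟩ := QuotientGroup.mk_surjective a
      obtain ⟨y, rfl⟩ := QuotientGroup.mk_surjective b
      rw [← commutatorElement_eq_one_iff_mul_comm]
      change ⁅QuotientGroup.mk' Z x, QuotientGroup.mk' Z y⁆ = 1
      rw [← map_commutatorElement, QuotientGroup.mk'_apply, QuotientGroup.eq_one_iff]
      exact hc x x.2 y y.2 }
  have hr : ∀ a : Additive (F ⧸ Z), r • a = 0 := fun a => by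
    obtain ⟨x, hx⟩ := QuotientGroup.mk_surjective a.toMul
    apply Additive.toMul.injective
    rw [toMul_nsmul, ← hx, toMul_zero, ← QuotientGroup.mk_pow, QuotientGroup.eq_one_iff]
    exact hp x x.2
  letI : Module (ZMod r) (Additive (F ⧸ Z)) := AddCommGroup.zmodModule hr
  obtain ⟨s, hs, s0⟩ : ∃ s : Additive (F ⧸ Z) → F, (∀ a, (s a : F ⧸ Z) = a.toMul) ∧ s 0 = 1 := by
    refine ⟨fun a => if a = 0 then 1 else a.toMul.out, fun a => ?_, if_pos rfl⟩
    by_cases ha : a = 0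
    · simp [ha]
    · simp [ha]
  have cl : ∀ g g' : F, (g' : F ⧸ Z) = g → ∃ z : F, Scal K z.1 ∧ g = g' * z := fun g g' e =>
    ⟨g'⁻¹ * g, QuotientGroup.eq.1 e, by rw [mul_inv_cancel_left]⟩
  have cl' : ∀ g g' : F, (g' : F ⧸ Z) = g → ∃ c : K, c ≠ 0 ∧ ∀ v, g.1 v = c • g'.1 v := fun g g' e => by
    obtain ⟨z, ⟨c, hz⟩, rfl⟩ := cl g g' e
    have : ∀ v, (g' * z).1 v = c • g'.1 v := fun v => by rw [coe_mul, mul_ap, hz, h.lin _ g'.2]
    exact ⟨c, MkB.ne0 this, this⟩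
  have sa : ∀ a b, (s (a + b) : F ⧸ Z) = (s a * s b : F) := fun a b => by
    rw [QuotientGroup.mk_mul, hs, hs, hs, toMul_add]
  choose b hb using fun a a' => ψs _ (kp (s a) (s a'))
  have bl : ∀ a a' y, b (a + a') y = b a y + b a' y := fun a a' y => ψi (by
    obtain ⟨z, hz, e⟩ := cl _ _ (sa a a')
    rw [AddChar.map_add_eq_mul, hb, hb, hb, ← kl, e, kl, k1 z _ hz, mul_one])
  have br : ∀ a y y', b a (y + y') = b a y + b a y' := fun a y y' => ψi (by
    obtain ⟨z, hz, e⟩ := cl _ _ (sa y y')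
    rw [AddChar.map_add_eq_mul, hb, hb, hb, ← kr, e, kr, k2 _ z hz, mul_one])
  refine ⟨Additive (F ⧸ Z), inferInstance, inferInstance, inferInstance,
    { ρ := fun a => (s a).1
      β := LinearMap.mk₂ (ZMod r) b bl
        (fun c a y => ZMod.map_smul (AddMonoidHom.mk' (fun a => b a y) fun a a' => bl a a' y) c a) br
        (fun c a y => ZMod.map_smul (AddMonoidHom.mk' (b a) (br a)) c y)
      ψ := ψ
      lin := fun a => h.lin _ (s a).2
      zero := by rw [s0]; rfl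
      mul := fun a a' => cl' _ _ (sa a a')
      comm := fun a a' v => (hκ _ _ v).trans (congrArg (· • _) (hb a a').symm)
      inj := fun a ha => ψi (by rw [ha, AddChar.map_zero_eq_one])
      alt := fun a => ψi ((hb a a).trans (by rw [kx, AddChar.map_zero_eq_one]))
      nd := fun a ha => ?_
      spl := fun hh a => spl hh _ (s a).2 }, ⟨⟨Additive.ofMul (⟨x0, hx0⟩ : F), 0, fun e => ?_⟩⟩, fun g => ⟨fun hg => ?_, ?_⟩⟩
  · apply Additive.toMul.injective
    rw [← hs, toMul_zero, QuotientGroup.eq_one_iff]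
    refine cen _ fun y => ?_
    obtain ⟨z, hz, e⟩ := cl y _ (hs (Additive.ofMul y))
    have : b a (Additive.ofMul y) = 0 := ha (Additive.ofMul y)
    rw [e, kr, k2 _ z hz, mul_one, ← hb, this, AddChar.map_zero_eq_one]
  · exact nx0 ((QuotientGroup.eq_one_iff (N := Z) ⟨x0, hx0⟩).1 (congrArg Additive.toMul e))
  · obtain ⟨c, -, hc⟩ := cl' ⟨g, hg⟩ _ (hs (Additive.ofMul (⟨g, hg⟩ : F)))
    exact ⟨_, c, hc⟩
  · rintro ⟨a, c, hc⟩
    have : g = (g * (s a).1⁻¹) * (s a).1 := by rw [inv_mul_cancel_right]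
    rw [this]
    exact mul_mem (h.sc _ ⟨c, fun v => by rw [mul_ap, hc]; exact congrArg _ (ap_inv _ _)⟩) (s a).2

end CL.TC3
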