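import Cfsg.Agent.PERM.TC3.SemiB
import Cfsg.Agent.PERM.TC3.Bas

set_option autoImplicit false
set_option linter.unusedSectionVars false

namespace CL.TC3
open Subgroup

variable {K V M : Type} {r : ℕ} [Fact r.Prime] [Field K] [Finite K] [AddCommGroup V] [Finite V] [Nontrivial V]
  [Module K V] [AddCommGroup M] [Finite M] [Module (ZMod r) M] (P : PR K V M r)

namespace MkC

/-- `g` conjugates `ρ x` to a multiple of `ρ y` -/
def R (g : Aut V) (x y : M) : Prop := ∃ c : K, c ≠ 0 ∧ ∀ v, g (P.ρ x v) = c • P.ρ y (g v)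

variable {P} {g k : Aut V} {x x' y y' z : M}

theorem ne0 {c : K} {f : V → V} (e : ∀ v, g v = c • f v) : c ≠ 0 := by
  obtain ⟨v, hv⟩ := exists_ne (0 : V)
  rintro rfl
  exact hv (g.map_eq_zero_iff.1 (by rw [e, zero_smul]))

theorem R.uniq (h : R P g x y) (h' : R P g x y') : y = y' := by
  obtain ⟨c, c0, e⟩ := h
  obtain ⟨c', -, e'⟩ := h'
  refine P.ρ_inj (c := c⁻¹ * c') fun w => ?_
  rw [mul_smul, eq_inv_smul_iff₀ c0, ← ap_inv g w, ← e, ← e']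

theorem R.add (hg : Semi K g) (h : R P g x y) (h' : R P g x' y') : R P g (x + x') (y + y') := by
  obtain ⟨σ, hσ⟩ := hg
  obtain ⟨c, c0, e⟩ := h
  obtain ⟨c', c0', e'⟩ := h'
  obtain ⟨a, a0, ha⟩ := P.mul x x'
  obtain ⟨b, b0, hb⟩ := P.mul y y'
  have s0 := (map_ne_zero σ).2 a0
  refine ⟨(σ a)⁻¹ * (c * (c' * b)), mul_ne_zero (inv_ne_zero s0) (mul_ne_zero c0 (mul_ne_zero c0' b0)),
    fun v => ?_⟩
  rw [mul_smul, eq_inv_smul_iff₀ s0, ← hσ, ← ha, e, e', P.lin, hb, mul_smul, mul_smul]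

theorem R.mul (hg : Semi K g) (h : R P g y z) (h' : R P k x y) : R P (g * k) x z := by
  obtain ⟨σ, hσ⟩ := hg
  obtain ⟨c, c0, e⟩ := h
  obtain ⟨c', c0', e'⟩ := h'
  exact ⟨σ c' * c, mul_ne_zero ((map_ne_zero σ).2 c0') c0, fun v => by
    rw [mul_ap, mul_ap, e', hσ, e, mul_smul]⟩

theorem R.one (x : M) : R P 1 x x := ⟨1, one_ne_zero, fun v => by rw [one_smul]; rfl⟩

variable (P) in
/-- the preimage of a submodule -/
def E (W : Submodule ℤ M) : Subgroup (Aut V) where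
  carrier := {g | ∃ x ∈ W, ∃ c : K, ∀ v, g v = c • P.ρ x v}
  one_mem' := ⟨0, zero_mem W, 1, fun v => by rw [P.zero, one_smul]⟩
  mul_mem' := by
    rintro g k ⟨x, hx, c, e⟩ ⟨y, hy, d, e'⟩
    obtain ⟨a, -, ha⟩ := P.mul x y
    exact ⟨x + y, add_mem hx hy, c * (d * a), fun v => by rw [mul_ap, e, e', P.lin, ha, mul_smul, mul_smul]⟩
  inv_mem' := by
    rintro g ⟨x, hx, c, e⟩
    obtain ⟨a, a0, ha⟩ := P.mul x (-x)
    refine ⟨-x, neg_mem hx, (c * a)⁻¹, fun v => g.injective ?_⟩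
    rw [ap_inv, e, P.lin, ha, add_neg_cancel, P.zero, one_ap, smul_smul, smul_smul, mul_right_comm,
      mul_inv_cancel₀ (mul_ne_zero (ne0 e) a0), one_smul]

end MkC

/-- PROOF. For `h ∈ Γ`, `h ρ x h⁻¹ ∈ F`, so `= c ρ (φ x)` with `φ x` unique (`ρ_inj`, `c ≠ 0`); uniqueness gives additivity
(`mul`, semilinearity), `φ_1 = 1`, `φ_{gh} = φ_g φ_h`. For an invariant `W ≤ M`, `E = {g | ∃ x ∈ W, ∃ c, g = c ρ x}` is a
subgroup of `F`, `Γ`-normalised, containing the scalars; `E = F` gives `W = ⊤`, `E` scalar gives `W = ⊥` (`ρ_inj`). -/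
theorem Chief.act {Γ F : Subgroup (Aut V)} (h : Chief K Γ F) (hF : ∀ g, g ∈ F ↔ ∃ x, ∃ c : K, ∀ v, g v = c • P.ρ x v) :
    ∃ Φ : Γ →* Aut M, (∀ g : Γ, P.Act g (Φ g)) ∧ Irr Φ.range := by
  have mem : ∀ x, P.ρ x ∈ F := fun x => (hF _).2 ⟨x, 1, fun v => (one_smul _ _).symm⟩
  have ex : ∀ (g : Γ) (x : M), ∃ y, MkC.R P g x y := fun g x => by
    obtain ⟨y, c, e⟩ := (hF _).1 ((mem_normalizer_iff.1 (h.nrm g.2) _).1 (mem x))
    exact ⟨y, c, MkC.ne0 e, fun v => by rw [← e, mul_ap, mul_ap, inv_ap]⟩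
  choose φ hφ using ex
  have add : ∀ g x y, φ g (x + y) = φ g x + φ g y := fun g x y =>
    (hφ g _).uniq ((hφ g x).add (h.semi g g.2) (hφ g y))
  have mul : ∀ g k x, φ (g * k) x = φ g (φ k x) := fun g k x =>
    (hφ (g * k) x).uniq ((hφ g _).mul (h.semi g g.2) (hφ k x))
  have one : ∀ x, φ 1 x = x := fun x => (hφ 1 x).uniq (MkC.R.one x)
  let Φ : Γ →* Aut M := MonoidHom.mk' (fun g =>
    { (AddMonoidHom.mk' (φ g) (add g)).toIntLinearMap with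
      invFun := φ g⁻¹
      left_inv := fun x => (mul g⁻¹ g x).symm.trans (by rw [inv_mul_cancel, one])
      right_inv := fun x => (mul g g⁻¹ x).symm.trans (by rw [mul_inv_cancel, one]) })
    fun g k => LinearEquiv.ext (mul g k)
  refine ⟨Φ, hφ, fun W hW => ?_⟩
  rcases h.min (MkC.E P W) (fun g ⟨x, _, e⟩ => (hF g).2 ⟨x, e⟩) (fun g hg => mem_normalizer_fintype (by
      rintro k ⟨x, hx, c, e⟩
      obtain ⟨σ, hσ⟩ := h.semi g hg
      obtain ⟨d, -, e'⟩ := hφ ⟨g, hg⟩ x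
      refine ⟨φ ⟨g, hg⟩ x, hW _ ⟨⟨g, hg⟩, rfl⟩ x hx, σ c * d, fun v => ?_⟩
      rw [mul_ap, mul_ap, e, hσ, e', ap_inv, mul_smul]))
    (fun x ⟨c, e⟩ => ⟨0, zero_mem W, c, fun v => by rw [P.zero, e]; rfl⟩) with e | e
  · refine Or.inr (eq_top_iff.2 fun x _ => ?_)
    obtain ⟨y, hy, c, e'⟩ : P.ρ x ∈ MkC.E P W := e ▸ mem x
    exact P.ρ_inj e' ▸ hy
  · refine Or.inl (eq_bot_iff.2 fun x hx => ?_)
    obtain ⟨c, e'⟩ := e (P.ρ x) ⟨x, hx, 1, fun v => (one_smul _ _).symm⟩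
    exact P.ρ_inj (y := 0) (c := c) fun v => by rw [P.zero, e']; rfl

end CL.TC3
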