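import Cfsg.Agent.PERM.TC3.SemiB

set_option autoImplicit false
set_option linter.unusedSectionVars false

namespace CL.TC3
open Subgroup

variable {K V : Type} [Field K] [Finite K] [AddCommGroup V] [Finite V] [Nontrivial V] [Module K V]
open scoped commutatorElement

namespace MkS

theorem scal_pow {x : Aut V} {c : K} (h : ∀ v, x v = c • v) (n : ℕ) (v : V) : (x ^ n) v = c ^ n • v := by
  induction n with
  | zero => rw [pow_zero, pow_zero, one_smul]; rfl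
  | succ n ih => rw [pow_succ', mul_ap, h, ih, pow_succ', mul_smul]

theorem scal_ne {x : Aut V} {c : K} (h : ∀ v, x v = c • v) : c ≠ 0 := fun e => by
  obtain ⟨v, hv⟩ := exists_ne (0 : V)
  exact hv (x.injective (by rw [h, e, zero_smul, map_zero]))

theorem lin_pow {x : Aut V} (lx : Lin K x) (n : ℕ) : Lin K (x ^ n) := fun c v => by
  induction n with
  | zero => rfl
  | succ n ih => rw [pow_succ', mul_ap, mul_ap, ih, lx]

theorem pow_comm {x y : Aut V} {κ : K} (ly : Lin K y) (h : ∀ v, y (x v) = κ • x (y v)) (n : ℕ) (v : V) :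
    (y ^ n) (x v) = κ ^ n • x ((y ^ n) v) := by
  induction n with
  | zero => rw [pow_zero, pow_zero, one_smul]; rfl
  | succ n ih => rw [pow_succ' y, mul_ap, ih, ly, h, mul_ap, pow_succ, mul_smul]

theorem mul_pw {x y : Aut V} {κ : K} (lx : Lin K x) (ly : Lin K y) (h : ∀ v, y (x v) = κ • x (y v)) (n : ℕ) (v : V) :
    ((x * y) ^ n) v = κ ^ n.choose 2 • (x ^ n) ((y ^ n) v) := by
  induction n generalizing v with
  | zero => rw [pow_zero, pow_zero, pow_zero, Nat.choose_zero_succ, pow_zero, one_smul]; rfl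
  | succ n ih =>
    rw [pow_succ (x * y), mul_ap, ih, mul_ap, pow_comm ly h, lin_pow lx, Nat.choose_succ_succ', Nat.choose_one_right,
      add_comm n, pow_add, mul_smul, pow_succ x, pow_succ y, mul_ap, mul_ap]

theorem kap {x y : Aut V} (h : Scal K ⁅y, x⁆) : ∃ κ : K, ∀ v, y (x v) = κ • x (y v) := by
  obtain ⟨κ, hκ⟩ := h
  refine ⟨κ, fun v => ?_⟩
  rw [← hκ, commutatorElement_def, mul_ap, mul_ap, mul_ap, inv_ap, inv_ap]

theorem kap_pow {x y : Aut V} {κ : K} (lx : Lin K x) (ly : Lin K y) (h : ∀ v, y (x v) = κ • x (y v)) {r : ℕ}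
    (hp : Scal K (y ^ r)) : κ ^ r = 1 := by
  obtain ⟨b, hb⟩ := hp
  obtain ⟨v, hv⟩ := exists_ne (0 : V)
  have e := pow_comm ly h r v
  rw [hb, hb, lx, smul_smul] at e
  have e2 := smul_left_injective K (fun e' => hv (x.injective (e'.trans (map_zero x).symm))) e
  exact mul_right_cancel₀ (scal_ne hb) (e2.symm.trans (one_mul b).symm)

theorem prod_pw {x y : Aut V} (lx : Lin K x) (ly : Lin K y) (h : Scal K ⁅y, x⁆) {r : ℕ} (pr : r.Prime)
    (hp : Scal K (y ^ r)) (hr : r ≠ 2 ∨ IsSquare (-1 : K)) : ∃ d : K, ∀ v, ((x * y) ^ r) v = d ^ r • (x ^ r) ((y ^ r) v) := by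
  obtain ⟨κ, hκ⟩ := kap h
  suffices ∃ d : K, κ ^ r.choose 2 = d ^ r by
    obtain ⟨d, hd⟩ := this
    exact ⟨d, fun v => by rw [mul_pw lx ly hκ, hd]⟩
  rcases eq_or_ne r 2 with rfl | r2
  · obtain ⟨i, hi⟩ := hr.resolve_left fun e => e rfl
    rcases sq_eq_one_iff.1 (kap_pow lx ly hκ hp) with e | e
    · exact ⟨1, by rw [e]; simp⟩
    · exact ⟨i, by rw [e, sq, ← hi]; simp⟩
  · obtain ⟨k, hk⟩ := pr.odd_of_ne_two r2
    refine ⟨κ ^ k, ?_⟩
    rw [← pow_mul, Nat.choose_two_right, mul_comm k, show r - 1 = 2 * k by omega, mul_left_comm,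
      Nat.mul_div_cancel_left _ two_pos]

theorem eig {ι : Type} (f : Module.End K V) (a : ι → K) (s : Finset ι) (v : V) (v0 : v ≠ 0)
    (h : Polynomial.aeval f (∏ i ∈ s, (Polynomial.X - Polynomial.C (a i))) v = 0) : ∃ w, w ≠ 0 ∧ ∃ c : K, f w = c • w := by
  classical
  induction s using Finset.induction_on with
  | empty => exact absurd (by simpa using h) v0
  | insert i s hi ih =>
    rw [Finset.prod_insert hi, map_mul, Module.End.mul_apply] at h
    by_cases e : Polynomial.aeval f (∏ i ∈ s, (Polynomial.X - Polynomial.C (a i))) v = 0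
    · exact ih e
    · exact ⟨_, e, a i, by simpa [sub_eq_zero] using h⟩

theorem cyc {r : ℕ} (pr : r.Prime) {a b : K} (a0 : a ≠ 0) (b0 : b ≠ 0) (h : ∀ c : K, a ≠ c ^ r) :
    ∃ (j : ℕ) (c : K), b * a ^ j = c ^ r := by
  have := Fact.mk pr
  obtain ⟨g, hg⟩ := IsCyclic.exists_monoid_generator (α := Kˣ)
  obtain ⟨m, hm⟩ := hg (Units.mk0 a a0)
  obtain ⟨n, hn⟩ := hg (Units.mk0 b b0)
  have ea : a = (g : K) ^ m := by simpa using (congrArg Units.val hm).symm
  have eb : b = (g : K) ^ n := by simpa using (congrArg Units.val hn).symm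
  have m0 : (m : ZMod r) ≠ 0 := fun e => by
    obtain ⟨k, rfl⟩ := (ZMod.natCast_eq_zero_iff m r).1 e
    exact h (g ^ k) (by rw [ea, ← pow_mul, mul_comm])
  obtain ⟨j, hj⟩ := ZMod.natCast_zmod_surjective (-(n : ZMod r) / (m : ZMod r))
  obtain ⟨k, hk⟩ := (ZMod.natCast_eq_zero_iff (n + m * j) r).1 (by
    push_cast
    rw [hj, mul_div_cancel₀ _ m0, add_neg_cancel])
  exact ⟨j, g ^ k, by rw [ea, eb, ← pow_mul, ← pow_add, hk, ← pow_mul, mul_comm]⟩

end MkS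

/-- PROOF. `x y = κ y x` with a scalar `κ`, `κ ^ r = 1` (`x ^ r` central). `(x y) ^ r = κ' ^ (r (r-1) / 2) x ^ r y ^ r`, the factor
is `1` (`r` odd) or `±1`, an `r`-th power by `hr`. So `E = {x ∈ F | ∃ c : K, ∀ v, (x ^ r) v = c ^ r • v}` is a subgroup, it is
`Γ`-normalised and contains the scalars. Take non-commuting `x, y ∈ F` (`ne`, `cen`), `ζ = κ ≠ 1` a primitive `r`-th root of
unity. If `x ∉ E`, `x ^ r = a` generates `Kˣ / (Kˣ)^r` (cyclic of order dividing `r`), so `y x ^ j ∈ E` for some `j`, and it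
does not commute with `x`. So `E` has a non-scalar, `E = F`. For `x ∈ E`, `∏ j, (x - c ζ ^ j) = x ^ r - c ^ r = 0`, so some
factor is not injective (or the vectors `∑ i, ζ^(-ij) (c⁻¹ x)^i u` sum to `r u ≠ 0`). -/
theorem Chief.spl {Γ F : Subgroup (Aut V)} (h : Chief K Γ F) (hc : ∀ x ∈ F, ∀ y ∈ F, Scal K ⁅x, y⁆) {r : ℕ} (pr : r.Prime)
    (hp : ∀ x ∈ F, Scal K (x ^ r)) (hr : r ≠ 2 ∨ IsSquare (-1 : K)) {x : Aut V} (hx : x ∈ F) :
    ∃ v, v ≠ 0 ∧ ∃ c : K, x v = c • v := by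
  open MkS in
  let E : Subgroup (Aut V) :=
    { carrier := {x | x ∈ F ∧ ∃ c : K, ∀ v, (x ^ r) v = c ^ r • v}
      one_mem' := ⟨one_mem _, 1, fun v => by rw [one_pow, one_pow, one_smul]; rfl⟩
      mul_mem' := by
        rintro x y ⟨hx, c, ec⟩ ⟨hy, c', ec'⟩
        obtain ⟨d, hd⟩ := prod_pw (h.lin x hx) (h.lin y hy) (hc y hy x hx) pr (hp y hy) hr
        exact ⟨mul_mem hx hy, d * (c * c'), fun v => by rw [hd, ec, ec', mul_pow, mul_pow, mul_smul, mul_smul]⟩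
      inv_mem' := by
        rintro x ⟨hx, c, ec⟩
        refine ⟨inv_mem hx, c⁻¹, fun v => ?_⟩
        rw [inv_pow, inv_pow, eq_inv_smul_iff₀ (scal_ne ec), ← ec, ap_inv] }
  have mE : ∀ {x}, x ∈ E ↔ x ∈ F ∧ ∃ c : K, ∀ v, (x ^ r) v = c ^ r • v := Iff.rfl
  obtain ⟨x0, hx0, n0⟩ := h.ne
  obtain ⟨y0, hy0, nc⟩ : ∃ y ∈ F, x0 * y ≠ y * x0 := by
    by_contra e
    push Not at e
    exact n0 (h.cen x0 hx0 e)
  obtain ⟨ζ, hζ⟩ := MkS.kap (hc y0 hy0 x0 hx0)
  have ζ1 : ζ ≠ 1 := fun e => nc (LinearEquiv.ext fun v => by rw [mul_ap, mul_ap, hζ, e, one_smul])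
  have ζr := MkS.kap_pow (h.lin x0 hx0) (h.lin y0 hy0) hζ (hp y0 hy0)
  have prim : IsPrimitiveRoot ζ r := by
    have := Fact.mk pr
    exact (orderOf_eq_prime ζr ζ1) ▸ IsPrimitiveRoot.orderOf ζ
  have EF : E = F := by
    refine (h.min E (fun _ hz => hz.1) (fun g hg => mem_normalizer_fintype ?_) fun z hz => ?_).resolve_right fun hs => ?_
    · rintro z ⟨hz, c, ec⟩
      obtain ⟨σ, hσ⟩ := h.semi g hg
      refine ⟨(mem_normalizer_iff.1 (h.nrm hg) z).1 hz, σ c, fun v => ?_⟩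
      rw [conj_pow, mul_ap, mul_ap, ec, hσ, ap_inv, map_pow]
    · obtain ⟨c, ec⟩ := hz
      exact ⟨h.sc z ⟨c, ec⟩, c, MkS.scal_pow ec r⟩
    · obtain ⟨a, ha⟩ := hp x0 hx0
      obtain ⟨b, hb⟩ := hp y0 hy0
      obtain ⟨j, c, ec⟩ := MkS.cyc pr (MkS.scal_ne ha) (MkS.scal_ne hb) fun c e => n0 (hs x0 ⟨hx0, c, e ▸ ha⟩)
      have hj := pow_mem hx0 j
      obtain ⟨d, hd⟩ := MkS.prod_pw (h.lin y0 hy0) (h.lin _ hj) (hc _ hj y0 hy0) pr (hp _ hj) hr
      obtain ⟨t, ht⟩ := hs (y0 * x0 ^ j) ⟨mul_mem hy0 hj, d * c, fun v => by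
        rw [hd, hb, ← pow_mul, mul_comm j, pow_mul, MkS.scal_pow ha, mul_pow, ← ec, mul_smul, mul_smul]⟩
      have : x0 * (y0 * x0 ^ j) = y0 * x0 ^ j * x0 := LinearEquiv.ext fun v => by
        rw [mul_ap, ht, mul_ap, ht, h.lin x0 hx0]
      rw [mul_assoc, ← pow_succ, pow_succ', ← mul_assoc, ← mul_assoc] at this
      exact nc (mul_right_cancel this)
  obtain ⟨-, c, ec⟩ := mE.1 (EF ▸ hx)
  let f : Module.End K V := { toFun := x, map_add' := map_add x, map_smul' := h.lin x hx }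
  have fp : ∀ n v, (f ^ n) v = (x ^ n) v := fun n v => by
    induction n with
    | zero => rfl
    | succ n ih => rw [pow_succ', pow_succ', Module.End.mul_apply, mul_ap, ih]; rfl
  obtain ⟨v, hv⟩ := exists_ne (0 : V)
  refine MkS.eig f (fun i => ζ ^ i * c) (Finset.range r) v hv ?_
  rw [← X_pow_sub_C_eq_prod prim pr.pos rfl, map_sub, Polynomial.aeval_C, Polynomial.aeval_X_pow, LinearMap.sub_apply, fp, ec,
    Module.algebraMap_end_apply, sub_self]

end CL.TC3
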