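import Cfsg.Agent.PERM.TC3.Defs

set_option autoImplicit false
set_option linter.unusedSectionVars false

namespace CL.TC3
open Subgroup

variable {K V : Type} [Field K] [Finite K] [AddCommGroup V] [Finite V] [Module K V]

namespace SemiA

theorem hua {a b : K} (ha : a ≠ 0) (hb : b ≠ 0) (hab : a * b ≠ 1) :
    a - (a⁻¹ + (b⁻¹ - a)⁻¹)⁻¹ = a ^ 2 * b := by
  have h1 : 1 - a * b ≠ 0 := sub_ne_zero.2 hab.symm
  have h2 : b⁻¹ - a = (1 - a * b) / b := by field_simp
  have h3 : a⁻¹ + ((1 - a * b) / b)⁻¹ = (a * (1 - a * b))⁻¹ := by field_simp; ring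
  rw [h2, h3, inv_inv]
  ring

theorem tr : ∃ (A : Type) (_ : AddCommGroup A) (T : K →+ A), (∀ (σ : K ≃+* K) (x : K), T (σ x) = T x) ∧
    ∀ x, (∀ y, T (x * y) = 0) → x = 0 := by
  have : Fact (ringChar K).Prime := ⟨CharP.char_is_prime K _⟩
  let _ : Algebra (ZMod (ringChar K)) K := ZMod.algebra _ _
  refine ⟨ZMod (ringChar K), inferInstance, (Algebra.trace (ZMod (ringChar K)) K).toAddMonoidHom, ?_, ?_⟩
  · intro σ x
    exact Algebra.trace_eq_of_algEquiv (AlgEquiv.ofRingEquiv (f := σ) fun r =>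
      RingHom.congr_fun (RingHom.ext_zmod (σ.toRingHom.comp (algebraMap _ K)) (algebraMap _ K)) r) x
  · intro x hx
    by_contra h0
    obtain ⟨b, hb⟩ := FiniteField.trace_to_zmod_nondegenerate K h0
    exact hb (hx b)

theorem core (h : K →+ K) (hb : Function.Bijective h) (h1 : h 1 = 1)
    (hσ : ∀ v w : K, v ≠ 0 → ∃ σ : K ≃+* K, h w = σ (w / v) * h v) (a b : K) :
    h (a * b) = h a * h b := by
  obtain ⟨A, _, T, hT, nd⟩ := tr (K := K)
  have h0 : ∀ x, x ≠ 0 → h x ≠ 0 := fun x hx e => hx (hb.1 (by rw [e, map_zero]))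
  set k : K → K := fun u => (h u⁻¹)⁻¹ with hk
  have e1 : ∀ w u, T (k u * h w) = T (u * w) := by
    intro w u
    by_cases hu : u = 0
    · simp [hk, hu]
    · obtain ⟨σ, e⟩ := hσ u⁻¹ w (inv_ne_zero hu)
      have : k u * h w = σ (u * w) := by
        rw [e, hk, div_inv_eq_mul, mul_comm w u]
        have := h0 _ (inv_ne_zero hu)
        change (h u⁻¹)⁻¹ * _ = _
        rw [mul_left_comm, inv_mul_cancel₀ this, mul_one]
      rw [this, hT]
  have e2 : ∀ u u', k (u + u') = k u + k u' := by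
    intro u u'
    rw [← sub_eq_zero]
    refine nd _ fun y => ?_
    obtain ⟨w, rfl⟩ := hb.2 y
    rw [sub_mul, add_mul, map_sub, map_add, e1, e1, e1, add_mul, map_add, sub_self]
  have e3 : ∀ x, h x⁻¹ = (k x)⁻¹ := fun x => by simp [hk]
  have e4 : ∀ x, k x⁻¹ = (h x)⁻¹ := fun x => by simp [hk]
  have e5 : ∀ a b, h (a ^ 2 * b) = h a ^ 2 * k b := by
    intro a b
    by_cases ha : a = 0
    · simp [ha]
    by_cases hb0 : b = 0
    · simp [hb0, hk]
    by_cases hab : a * b = 1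
    · have : b = a⁻¹ := eq_inv_of_mul_eq_one_right hab
      have h2 := h0 a ha
      rw [this, e4, show a ^ 2 * a⁻¹ = a by field_simp]
      field_simp
    have kb : k b ≠ 0 := inv_ne_zero (h0 _ (inv_ne_zero hb0))
    have hk1 : h a * k b ≠ 1 := fun e => hab (by
      have : h a = h b⁻¹ := by rw [e3]; exact eq_inv_of_mul_eq_one_left e
      rw [hb.1 this, inv_mul_cancel₀ hb0])
    rw [← hua ha hb0 hab, ← hua (h0 a ha) kb hk1, map_sub, e3, e2, e4, e4, map_sub, e3]
  have e6 : ∀ b, k b = h b := fun b => by simpa [h1] using (e5 1 b).symm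
  simp only [e6] at e5
  by_cases h2 : (2 : K) = 0
  · have hc : ringChar K = 2 := by
      have : CharP K 2 := CharTwo.of_one_ne_zero_of_two_eq_zero one_ne_zero h2
      exact ringChar.eq K 2
    obtain ⟨c, rfl⟩ := FiniteField.isSquare_of_char_two hc a
    have := e5 c 1
    rw [mul_one, h1, mul_one] at this
    rw [← sq, e5, this]
  · have e7 := e5 (a + 1) b
    rw [show (a + 1) ^ 2 * b = a ^ 2 * b + (a * b + a * b) + b by ring, map_add, map_add, map_add,
      map_add, e5, h1] at e7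
    apply mul_left_cancel₀ h2
    linear_combination e7

end SemiA

/-- Dimension one. PROOF. Coordinates `V = K`, `h : K →+ K` bijective with `h w / h v = σ (w / v)`; so
`Tr (h w / h v) = Tr (w / v)` (`Tr` to the prime field `ZMod p`, invariant under `σ`). Let `h*` be the adjoint of the
`ZMod p`-linear `h` for the nondegenerate trace form: `Tr (h w * u) = Tr (w * h* u)`. Then `h* (h v)⁻¹ = v⁻¹` for `v ≠ 0`;
`h*` is additive and bijective, `k = h*⁻¹` is additive with `k v⁻¹ = (h v)⁻¹`. Scale so that `h 1 = 1 = k 1`. Hua: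
`a - (a⁻¹ + (b⁻¹ - a)⁻¹)⁻¹ = a² b` for `a, b ≠ 0`, `a b ≠ 1`. Apply `h`, using `h x⁻¹ = (k x)⁻¹`, `k x⁻¹ = (h x)⁻¹`:
`h (a² b) = h a - ((h a)⁻¹ + ((k b)⁻¹ - h a)⁻¹)⁻¹ = (h a)² k b` (also for `a b = 1` or `a b = 0`; `h a k b = 1` iff
`a b = 1`). `a = 1`: `k = h`. So `h (a² b) = (h a)² h b`; `a ↦ a + 1` gives `2 h (a b) = 2 h a h b`; in characteristic two
every element is a square and `h (a²) = (h a)²`. So `h` is multiplicative: `σ = h`. -/
theorem semi1 {G : Subgroup (Aut V)} (hs : ∀ g ∈ G, Semi K g) (d : Module.finrank K V = 1) {h : Aut V} (hh : h ∈ cl G) :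
    Semi K h := by
  have : Module.Finite K V := Module.Finite.of_finite
  let e : K ≃ₗ[K] V := LinearEquiv.ofFinrankEq K V (by rw [d, Module.finrank_self])
  let h' : K ≃+ K := e.toAddEquiv.trans (h.toAddEquiv.trans e.symm.toAddEquiv)
  have eh : ∀ c, e (h' c) = h (e c) := fun c => e.apply_symm_apply _
  have u0 : h' 1 ≠ 0 := fun e0 => one_ne_zero (h'.injective (by rw [e0, map_zero]))
  let H : K →+ K := (AddMonoidHom.mulRight (h' 1)⁻¹).comp h'.toAddMonoidHom
  have eH : ∀ c, H c = h' c * (h' 1)⁻¹ := fun c => rfl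
  have hb : Function.Bijective H := Finite.injective_iff_bijective.1 fun a b e0 =>
    h'.injective (mul_right_cancel₀ (inv_ne_zero u0) e0)
  have h1 : H 1 = 1 := mul_inv_cancel₀ u0
  have hm := SemiA.core H hb h1 fun v w hv => by
    obtain ⟨g, hg, e1, e2⟩ := hh (e v) (e w)
    obtain ⟨σ, hσ⟩ := hs g hg
    refine ⟨σ, ?_⟩
    have e3 : e w = (w / v) • e v := by rw [← map_smul, smul_eq_mul, div_mul_cancel₀ _ hv]
    have e4 : h' w = σ (w / v) * h' v := e.injective (by
      rw [eh, ← smul_eq_mul, map_smul, eh, ← e1, ← e2, ← hσ, ← e3])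
    rw [eH, eH, e4, mul_assoc]
  let f : K →+* K := { H with map_one' := h1, map_mul' := hm }
  refine ⟨RingEquiv.ofBijective f hb, fun c y => ?_⟩
  obtain ⟨b, rfl⟩ := e.surjective y
  have e5 : h' (c * b) = H c * h' b := by
    have := hm c b
    rw [eH (c * b), eH b, ← mul_assoc] at this
    exact mul_right_cancel₀ (inv_ne_zero u0) this
  rw [← map_smul, ← eh, ← eh, smul_eq_mul, e5, ← smul_eq_mul, map_smul]
  rfl

end CL.TC3
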