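import Cfsg.Agent.PERM.TC3.StN1
import Cfsg.Agent.PERM.TC3.Ext
import Cfsg.Agent.CHAR.Burnside
import Cfsg.Agent.SIG.Quasisimple

set_option autoImplicit false
set_option linter.unusedSectionVars false

namespace CL.TC3
open Subgroup

variable {K V M : Type} {r : ℕ} [Fact r.Prime] [Field K] [Finite K] [AddCommGroup V] [Finite V] [Nontrivial V]
  [Module K V] [AddCommGroup M] [Finite M] [Module (ZMod r) M] (P : PR K V M r)

namespace StN
open scoped Pointwise commutatorElement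

theorem sop {G : Type*} [Group G] [Finite G] {H : Subgroup G} (h : ∀ Q ≤ H, ⁅Q, Q⁆ = Q → Q = ⊥) :
    Group.IsSolvable H := by
  obtain ⟨_, ⟨n, rfl⟩, k⟩ := WellFounded.has_min (wellFounded_lt (α := Subgroup H))
    (Set.range (derivedSeries H)) ⟨_, 0, rfl⟩
  have e := (commutator_le_left _ _).lt_or_eq.resolve_left (k _ ⟨n + 1, rfl⟩)
  exact ⟨n, (map_eq_bot_iff_of_injective _ H.subtype_injective).1
    (h _ (map_subtype_le _) (by rw [← map_commutator, e]))⟩

/-- A perfect group fixes every point whose orbit has at most four elements. -/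
theorem fix {G X : Type*} [Group G] [MulAction G X] {Q : Subgroup G} (hQ : ⁅Q, Q⁆ = Q) {x a b c d : X}
    (ho : ∀ p ∈ Q, p • x ∈ ({a, b, c, d} : Set X)) {p : G} (hp : p ∈ Q) : p • x = x := by
  have hle : MulAction.orbit Q x ⊆ {a, b, c, d} := by
    rintro _ ⟨q, rfl⟩
    exact ho q q.2
  have hf : Finite (MulAction.orbit Q x) := (Set.toFinite _).subset hle
  have h4 : Nat.card (MulAction.orbit Q x) ≤ 4 := by
    refine (Set.ncard_le_ncard hle).trans ?_
    refine (Set.ncard_insert_le _ _).trans (Nat.succ_le_succ ?_)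
    refine (Set.ncard_insert_le _ _).trans (Nat.succ_le_succ ?_)
    refine (Set.ncard_insert_le _ _).trans (Nat.succ_le_succ ?_)
    rw [Set.ncard_singleton]
  have hs : Group.IsSolvable (Equiv.Perm (MulAction.orbit Q x)) :=
    CL.Char.isSolvable_of_card_dvd_pow_mul_pow (p := 2) (q := 3) (a := 3) (b := 1) Nat.prime_two
      Nat.prime_three (by rw [Nat.card_perm]; exact Nat.factorial_dvd_factorial (n := 4) h4)
  have : Group.IsPerfect Q := isPerfect_iff.mpr hQ
  have e := CL.Comp.eq_bot_of_perfect_of_isSolvable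
    (K := (⊤ : Subgroup Q).map (MulAction.toPermHom Q (MulAction.orbit Q x)))
    (by rw [← map_commutator, ← _root_.commutator_def, Group.IsPerfect.commutator_eq_top]) inferInstance
  have e2 : MulAction.toPermHom Q (MulAction.orbit Q x) ⟨p, hp⟩ = 1 :=
    mem_bot.1 (e ▸ mem_map_of_mem _ (mem_top _))
  exact congrArg Subtype.val (DFunLike.congr_fun e2 ⟨x, MulAction.mem_orbit_self x⟩)

/-- the line through `v` -/
def ln (K : Type) {V : Type} [Field K] [AddCommGroup V] [Module K V] (v : V) : Set V :=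
  Set.range fun c : K => c • v

theorem ln_smul {c : K} (c0 : c ≠ 0) (v : V) : ln K (c • v) = ln K v := by
  ext w
  exact ⟨fun ⟨d, e⟩ => ⟨d * c, by rw [← e]; exact mul_smul _ _ _⟩,
    fun ⟨d, e⟩ => ⟨d * c⁻¹, by rw [← e]; simp only [smul_smul, inv_mul_cancel_right₀ c0]⟩⟩

theorem smul_ln {h : Aut V} (hl : Lin K h) (v : V) : h • ln K v = ln K (h v) := by
  ext w
  exact ⟨fun ⟨_, ⟨d, e⟩, e'⟩ => ⟨d, by rw [← e', ← e]; exact (hl d v).symm⟩,
    fun ⟨d, e⟩ => ⟨d • v, ⟨d, rfl⟩, by rw [← e]; exact hl d v⟩⟩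

theorem ln_ρ {y : V} (y0 : y ≠ 0) {x w : M} (h : x - w ∈ P.St y) : ln K (P.ρ x y) = ln K (P.ρ w y) := by
  obtain ⟨d, hd⟩ := h
  obtain ⟨c, c0, hc⟩ := P.mul w (x - w)
  have d0 : d ≠ 0 := by
    rintro rfl
    rw [zero_smul, LinearEquiv.map_eq_zero_iff] at hd
    exact y0 hd
  have e := hc y
  rw [add_sub_cancel, hd, P.lin] at e
  rw [← ln_smul c0, ← e, ln_smul d0]

variable (A : Submodule (ZMod r) M) (u : V)

/-- `h` maps `E t` into `E (t₀ + ε t)` -/
def Ty (h : Aut V) (ε : ℤ) (t₀ : M) : Prop := ∀ t, ∀ y ∈ P.E A u t, h y ∈ P.E A u (t₀ + ε • t)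

variable {P A u}

theorem Ty.mul {g h : Aut V} {ε δ : ℤ} {s t : M} (hg : Ty P A u g ε s) (hh : Ty P A u h δ t) :
    Ty P A u (g * h) (ε * δ) (s + ε • t) := fun x y hy => by
  have := hg _ _ (hh x y hy)
  rwa [smul_add, ← add_assoc, smul_smul] at this

theorem Ty.inv (u0 : u ≠ 0) (hA : A ≤ P.St u) {g : Aut V} {ε δ : ℤ} {s t : M} (e : ε * ε = 1)
    (hg : Ty P A u g ε s) (hh : Ty P A u g⁻¹ δ t) : Ty P A u g⁻¹ ε (-(ε • s)) := fun x y hy => by
  by_cases y0 : y = 0
  · rw [y0, map_zero]; exact zero_mem _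
  have h1 := hh x y hy
  have h2 := hg _ _ h1
  rw [ap_inv] at h2
  have h3 := P.type_eq u0 hA y0 hy h2
  rw [P.E_congr u (t' := t + δ • x) fun b hb => ?_]
  · exact h1
  · rw [map_add, map_neg, map_zsmul, map_zsmul, h3 b hb, map_add, map_zsmul, smul_add, smul_smul, e,
      one_smul, neg_add_cancel_left]

end StN

open StN
open scoped Pointwise commutatorElement

namespace PR

/-- PROOF. `B = St u`. For `0 ≠ y ∈ E t`, `h ∈ N`: `h y = c ρ x y ∈ E t ∩ E (t + x)`, so `x ⊥ B` (`type_eq`); by `aniso` and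
`B ≤ St y` (`le_St`) the line `K h y` is one of the four lines `K ρ w y`, `w ∈ {0, y₁, y₂, y₁ + y₂}`. So the `N`-orbit of the
line `K y` has at most four elements and `N` acts on it through a solvable group (`Perm` of `≤ 4` points). Hence (take
the stable term `D` of the derived series, or `solv_sep` for `N / N₁`) modulo a solvable quotient `N` fixes all these
lines; linear maps fixing all these lines commute on each `E t`, and `⨆ E t = ⊤` (`exists_proj`). -/
theorem solv_pres {u : V} (hu : P.MaxSt u) {N : Subgroup (Aut V)} (hl : ∀ h ∈ N, Lin K h)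
    (ho : ∀ h ∈ N, ∀ v, ∃ x, ∃ c : K, h v = c • P.ρ x v)
    (hp : ∀ h ∈ N, ∀ t, ∀ y ∈ P.E (P.St u) u t, h y ∈ P.E (P.St u) u t) : Group.IsSolvable N := by
  obtain ⟨y₁, y₂, -, -, ha⟩ := P.aniso hu
  refine sop fun Q hQ e => ?_
  have k : ∀ h ∈ Q, ∀ t, ∀ y ∈ P.E (P.St u) u t, ∃ c : K, h y = c • y := fun h hh t y hy => by
    by_cases y0 : y = 0
    · exact ⟨1, by rw [y0, map_zero, smul_zero]⟩
    have hB := P.le_St le_rfl hy
    have := fix (x := ln K y) (a := ln K (P.ρ 0 y)) (b := ln K (P.ρ y₁ y)) (c := ln K (P.ρ y₂ y))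
      (d := ln K (P.ρ (y₁ + y₂) y)) e (fun p hq => by
        obtain ⟨x, c, hx⟩ := ho p (hQ hq) y
        have p0 : p y ≠ 0 := fun h => y0 ((LinearEquiv.map_eq_zero_iff p).1 h)
        have c0 : c ≠ 0 := by
          rintro rfl
          exact p0 (by rw [hx, zero_smul])
        have h1 := P.type_eq hu.1 le_rfl p0 (hp p (hQ hq) t y hy)
          (hx ▸ Submodule.smul_mem _ c (P.ρ_mem_E x hy))
        rw [smul_ln (hl p (hQ hq)), hx, ln_smul c0]
        rcases ha x (fun b hb => by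
          have := h1 b hb
          rwa [map_add, left_eq_add] at this) with h | h | h | h
        · exact Or.inl (ln_ρ P y0 (by rw [sub_zero]; exact hB h))
        · exact Or.inr (Or.inl (ln_ρ P y0 (hB h)))
        · exact Or.inr (Or.inr (Or.inl (ln_ρ P y0 (hB h))))
        · exact Or.inr (Or.inr (Or.inr (ln_ρ P y0 (hB h))))) hh
    rw [smul_ln (hl h (hQ hh))] at this
    have h2 : h y ∈ ln K y := this ▸ ⟨1, one_smul _ _⟩
    obtain ⟨c, hc⟩ := h2
    exact ⟨c, hc.symm⟩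
  rw [← e, eq_bot_iff, commutator_le]
  intro a ha b hb
  rw [mem_bot, commutatorElement_eq_one_iff_mul_comm]
  ext v
  have hv : v ∈ ⨆ t, P.E (P.St u) u t := by rw [(P.exists_proj hu.1 le_rfl).1]; trivial
  induction hv using Submodule.iSup_induction' with
  | mem t y hy =>
    obtain ⟨c, hc⟩ := k a ha t y hy
    obtain ⟨d, hd⟩ := k b hb t y hy
    rw [mul_ap, mul_ap, hc, hd, hl a (hQ ha), hl b (hQ hb), hc, hd, smul_comm]
  | zero => rw [map_zero, map_zero]
  | add x y _ _ hx hy => rw [map_add, map_add, hx, hy]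

/-- PROOF. `exists_max`. By `sgn` each `h ∈ N` (also `h⁻¹`) is of type `+` or `-`; a commutator `a b a⁻¹ b⁻¹` is of type `+`
(if `a` maps `E t` into `E (t₀ ± t)` then `a⁻¹` maps `E t` into `E (± (t - t₀))`: finiteness or `type_eq`), type `+`
elements form a subgroup, and commutators of type `+` elements preserve every `E t`. So `N''` satisfies `solv_pres`. -/
theorem stepN {N : Subgroup (Aut V)} (hl : ∀ h ∈ N, Lin K h) (ho : ∀ h ∈ N, ∀ v, ∃ x, ∃ c : K, h v = c • P.ρ x v) :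
    Group.IsSolvable N := by
  obtain ⟨u₀, h0⟩ := exists_ne (0 : V)
  obtain ⟨u, hu, -⟩ := P.exists_max h0
  have ty : ∀ h ∈ N, ∃ ε : ℤ, ε * ε = 1 ∧ ∃ t, Ty P (P.St u) u h ε t := fun h hh => by
    obtain ⟨t, e | e⟩ := P.sgn hu.1 le_rfl h (ho h hh)
    · exact ⟨1, rfl, t, fun x y hy => by rw [one_smul]; exact e x y hy⟩
    · exact ⟨-1, rfl, t, fun x y hy => by rw [neg_one_smul, ← sub_eq_add_neg]; exact e x y hy⟩
  have iv : ∀ h ∈ N, ∀ {ε : ℤ} {t : M}, ε * ε = 1 → Ty P (P.St u) u h ε t →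
      Ty P (P.St u) u h⁻¹ ε (-(ε • t)) := fun h hh _ _ e H => by
    obtain ⟨δ, -, s, H'⟩ := ty _ (inv_mem hh)
    exact H.inv hu.1 le_rfl e H'
  have one : Ty P (P.St u) u 1 1 0 := fun x y hy => by rw [one_smul, zero_add]; exact hy
  let S : Subgroup (Aut V) :=
    { carrier := {h | h ∈ N ∧ ∃ t, Ty P (P.St u) u h 1 t}
      one_mem' := ⟨one_mem _, 0, one⟩
      mul_mem' := fun ⟨ha, _, Ha⟩ ⟨hb, _, Hb⟩ => ⟨mul_mem ha hb, _, Ha.mul Hb⟩
      inv_mem' := fun ⟨ha, _, Ha⟩ => ⟨inv_mem ha, _, iv _ ha rfl Ha⟩ }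
  let T : Subgroup (Aut V) :=
    { carrier := {h | h ∈ N ∧ Ty P (P.St u) u h 1 0}
      one_mem' := ⟨one_mem _, one⟩
      mul_mem' := fun ⟨ha, Ha⟩ ⟨hb, Hb⟩ => ⟨mul_mem ha hb, by simpa using Ha.mul Hb⟩
      inv_mem' := fun ⟨ha, Ha⟩ => ⟨inv_mem ha, by simpa using iv _ ha rfl Ha⟩ }
  have hT : Group.IsSolvable T := P.solv_pres hu (fun h hh => hl h hh.1) (fun h hh => ho h hh.1)
    fun h hh t y hy => by simpa using hh.2 t y hy
  have mem : ∀ a ∈ N, ∀ b ∈ N, ⁅a, b⁆ ∈ N := fun a ha b hb =>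
    mul_mem (mul_mem (mul_mem ha hb) (inv_mem ha)) (inv_mem hb)
  refine sop fun Q hQ e => CL.Comp.eq_bot_of_perfect_of_le_solvable e ?_ hT
  have hS : Q ≤ S := by
    rw [← e, commutator_le]
    intro a ha b hb
    obtain ⟨ε, e1, s, Ha⟩ := ty a (hQ ha)
    obtain ⟨δ, e2, t, Hb⟩ := ty b (hQ hb)
    have := ((Ha.mul Hb).mul (iv a (hQ ha) e1 Ha)).mul (iv b (hQ hb) e2 Hb)
    rw [show ε * δ * ε * δ = 1 by linear_combination δ * δ * e1 + e2] at this
    exact ⟨mem a (hQ ha) b (hQ hb), _, this⟩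
  rw [← e, commutator_le]
  intro a ha b hb
  obtain ⟨-, s, Ha⟩ := hS ha
  obtain ⟨-, t, Hb⟩ := hS hb
  have := ((Ha.mul Hb).mul (iv a (hQ ha) rfl Ha)).mul (iv b (hQ hb) rfl Hb)
  simp only [mul_one, one_smul] at this
  rw [show s + t + -s + -t = 0 by abel] at this
  exact ⟨mem a (hQ ha) b (hQ hb), this⟩

end PR

end CL.TC3
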