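import Cfsg.Agent.PERM.TC3.MkA
import Cfsg.Agent.PERM.TC3.MkS
import Cfsg.Agent.PERM.TC3.MkB
import Cfsg.Agent.PERM.TC3.MkC
import Cfsg.Agent.PERM.TC3.Img
import Cfsg.Agent.PERM.TC3.Ker
import Cfsg.Agent.PERM.TC3.StN
import Cfsg.Agent.PERM.TC3.SemiA

set_option autoImplicit false
set_option linter.unusedSectionVars false

namespace CL.TC3
open Subgroup

variable {K V : Type} [Field K] [Finite K] [AddCommGroup V] [Finite V] [Nontrivial V] [Module K V]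

namespace LinF

theorem nm {X : Type*} [Group X] {Γ N : Subgroup X} (h : ∀ g ∈ Γ, ∀ n ∈ N, g * n * g⁻¹ ∈ N) :
    Γ ≤ normalizer (N : Set X) := fun g hg => mem_normalizer_iff.2 fun n =>
  ⟨h g hg n, fun e => by simpa [mul_assoc] using h g⁻¹ (inv_mem hg) _ e⟩

/-- the linear elements of `cl G` with the orbits of `F` -/
def NN (K : Type) [Field K] [Module K V] (G F : Subgroup (Aut V)) : Subgroup (Aut V) where
  carrier := {n | n ∈ cl G ∧ n ∈ lin K V ∧ ∀ v, ∃ x ∈ F, n v = x v}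
  one_mem' := ⟨one_mem _, one_mem _, fun _ => ⟨1, one_mem _, rfl⟩⟩
  mul_mem' := fun {a b} ha hb => ⟨mul_mem ha.1 hb.1, mul_mem ha.2.1 hb.2.1, fun v => by
    obtain ⟨y, hy, e⟩ := hb.2.2 v
    obtain ⟨x, hx, e'⟩ := ha.2.2 (b v)
    exact ⟨x * y, mul_mem hx hy, by rw [mul_ap, mul_ap, e', e]⟩⟩
  inv_mem' := fun {a} ha => ⟨inv_mem ha.1, inv_mem ha.2.1, fun v => by
    obtain ⟨x, hx, e⟩ := ha.2.2 (a⁻¹ v)
    rw [ap_inv] at e
    exact ⟨x⁻¹, inv_mem hx, by nth_rewrite 2 [e]; rw [inv_ap]⟩⟩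

end LinF

/-- The field case.
PROOF. `H = cl G` is semilinear (`semi1`/`semi2`); `scal ≤ G` by `hm.2` (abelian, `Semi.nscal`). `solv_of_lin`: enough
`H ⊓ lin` solvable. If all linear elements of `G` are scalar: `solv_scal`. Otherwise `exists_chief` with `Γ = G`,
`N = G ⊓ lin` gives `F`, and `P` (`Chief.exp`, `Chief.spl`, `Chief.mk_PR`). `N = {n ∈ H ⊓ lin | ∀ v, ∃ x ∈ F, n v = x v}` is
a subgroup containing `F`, normalised by `H` (for `h ∈ H`, `u = h⁻¹ v`, `n u = x u`, take `g ∈ G` agreeing with `h` at `u`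
and `x u`: `h n h⁻¹ v = (g x g⁻¹) v`), solvable by `stepN`, so `N ≤ G` (`hm.2`, `le_cl`). `exists_chief` with `Γ = H`, `N`
(its `ab` from `ab`) gives `F*`, `P*`, and `Φ : H →* Aut M` (`Chief.act`). `img`: range solvable; `ker` with
`C` = the linear elements of `H` in `ker Φ`. -/
theorem linF (lih : LIH (Nat.card V)) {G : Subgroup (Aut V)} (hm : MaxS G) (hi : Irr G) (hs : ∀ g ∈ G, Semi K g)
    (ab : ∀ A ≤ G, G ≤ normalizer (A : Set (Aut V)) → (∀ a ∈ A, ∀ b ∈ A, a * b = b * a) → (∀ x, Scal K x → x ∈ A) →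
      ∀ a ∈ A, Scal K a) : Group.IsSolvable (cl G) := by
  have hsH : ∀ h ∈ cl G, Semi K h := fun h hh => by
    have := Module.finrank_pos (R := K) (M := V)
    by_cases d : Module.finrank K V = 1
    · exact semi1 hs d hh
    · exact semi2 hs (by omega) hh
  have scG : scal K V ≤ G := hm.2 _ (Group.isSolvable_of_comm fun a b =>
    Subtype.ext (Scal.comm a.2 (Scal.lin b.2))) fun g hg => (hs g hg).nscal
  refine solv_of_lin hsH ?_
  by_cases hl : ∀ g ∈ G, Lin K g → Scal K g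
  · exact solv_scal hs hl
  push Not at hl
  obtain ⟨g0, g1, g2, g3⟩ := hl
  have sG := hm.1
  obtain ⟨F, hF, ch⟩ := exists_chief (K := K) (Γ := G) (N := G ⊓ lin K V) hs
    (LinF.nm fun g hg n hn => ⟨G.mul_mem (G.mul_mem hg hn.1) (G.inv_mem hg),
      (mem_normalizer_iff.1 (hs g hg).nlin n).1 hn.2⟩) (fun x hx => hx.2) (fun x hx => ⟨scG hx, hx.lin⟩)
    ⟨g0, ⟨g1, g2⟩, g3⟩ (Group.isSolvable_of_isSolvable_injective (inclusion_injective inf_le_left))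
    fun A hA => ab A (hA.trans inf_le_left)
  obtain ⟨hc, r, pr, hp⟩ := ch.exp
  have : Fact r.Prime := ⟨pr⟩
  obtain ⟨M, _, _, _, P, -, hP⟩ := ch.mk_PR hc r hp fun hr x hx => ch.spl hc pr hp hr hx
  have FN : F ≤ LinF.NN K G F := fun x hx => ⟨le_cl G (hF hx).1, (hF hx).2, fun _ => ⟨x, hx, rfl⟩⟩
  have nH : cl G ≤ normalizer (LinF.NN K G F : Set (Aut V)) := LinF.nm fun h hh n hn =>
    ⟨mul_mem (mul_mem hh hn.1) (inv_mem hh), (mem_normalizer_iff.1 (hsH h hh).nlin n).1 hn.2.1, fun v => by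
      obtain ⟨x, hx, e⟩ := hn.2.2 (h⁻¹ v)
      obtain ⟨g, hg, e1, e2⟩ := hh (h⁻¹ v) (x (h⁻¹ v))
      rw [ap_inv] at e1
      refine ⟨g * x * g⁻¹, (mem_normalizer_iff.1 (ch.nrm hg) x).1 hx, ?_⟩
      rw [mul_ap, mul_ap, mul_ap, mul_ap, e, ← e2]
      nth_rewrite 2 [← e1]
      rw [inv_ap]⟩
  have sN : Group.IsSolvable (LinF.NN K G F) := P.stepN (fun h hh => hh.2.1) fun h hh v => by
    obtain ⟨x, hx, e⟩ := hh.2.2 v
    obtain ⟨m, c, e'⟩ := (hP x).1 hx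
    exact ⟨m, c, e.trans (e' v)⟩
  have NG := hm.2 _ sN ((le_cl G).trans nH)
  obtain ⟨F', -, ch'⟩ := exists_chief (K := K) hsH nH (fun x hx => hx.2.1) (fun x hx => FN (ch.sc x hx))
    (let ⟨x, hx, e⟩ := ch.ne; ⟨x, FN hx, e⟩) sN fun A hA hn => ab A (hA.trans NG) ((le_cl G).trans hn)
  obtain ⟨hc', r', pr', hp'⟩ := ch'.exp
  have : Fact r'.Prime := ⟨pr'⟩
  obtain ⟨M', _, _, _, P', nt, hP'⟩ := ch'.mk_PR hc' r' hp' fun hr x hx => ch'.spl hc' pr' hp' hr hx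
  obtain ⟨Φ, hΦ, irr⟩ := Chief.act P' ch' hP'
  have s1 := P'.img Φ lih sG hsH hΦ irr
  have le : Φ.ker.map (cl G).subtype ⊓ lin K V ≤ cl G ⊓ lin K V := inf_le_inf_right _ (map_subtype_le _)
  have s2 : Group.IsSolvable ↥(Φ.ker.map (cl G).subtype ⊓ lin K V) :=
    P'.ker lih sG hi hs (fun g hg => ⟨_, hΦ ⟨g, le_cl G hg⟩⟩) (le.trans inf_le_left) (fun h hh => hh.2) (by
      rintro _ ⟨⟨h, hh, rfl⟩, -⟩
      have := hΦ h
      rwa [show Φ h = 1 from hh] at this)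
  refine Group.isSolvable_of_ker_le_range (inclusion le) (Φ.rangeRestrict.comp (inclusion inf_le_left)) fun x hx => ?_
  exact ⟨⟨x.1, ⟨⟨x.1, x.2.1⟩, congrArg Subtype.val hx, rfl⟩, x.2.2⟩, rfl⟩

end CL.TC3
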