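import Cfsg.Agent.PERM.TC3.SemiB

set_option autoImplicit false
set_option linter.unusedSectionVars false

namespace CL.TC3
open Subgroup

variable {K V : Type} [Field K] [Finite K] [AddCommGroup V] [Finite V] [Nontrivial V] [Module K V]
open scoped commutatorElement

/-- PROOF. A minimal `F` among the `E ≤ N` normalised by `Γ`, containing the scalars and a non-scalar. The centre
`F ⊓ centralizer F` is normalised by `Γ`, abelian, contains the scalars (`Scal.comm`), so `ab` applies. -/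
theorem exists_chief {Γ N : Subgroup (Aut V)} (hs : ∀ g ∈ Γ, Semi K g) (hn : Γ ≤ normalizer (N : Set (Aut V)))
    (hl : ∀ x ∈ N, Lin K x) (sc : ∀ x, Scal K x → x ∈ N) (ne : ∃ x ∈ N, ¬Scal K x) (sol : Group.IsSolvable N)
    (ab : ∀ A ≤ N, Γ ≤ normalizer (A : Set (Aut V)) → (∀ a ∈ A, ∀ b ∈ A, a * b = b * a) → (∀ x, Scal K x → x ∈ A) →
      ∀ a ∈ A, Scal K a) : ∃ F ≤ N, Chief K Γ F := by
  obtain ⟨F, ⟨hF, nF, sF, eF⟩, hm⟩ := exists_minimal_of_wellFoundedLT (fun E : Subgroup (Aut V) =>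
    E ≤ N ∧ Γ ≤ normalizer (E : Set (Aut V)) ∧ (∀ x, Scal K x → x ∈ E) ∧ ∃ x ∈ E, ¬Scal K x) ⟨N, le_rfl, hn, sc, ne⟩
  refine ⟨F, hF, hs, nF, fun x hx => hl x (hF hx), sF, eF, Group.isSolvable_of_isSolvable_injective (inclusion_injective hF),
    fun z hz hc => ab (F ⊓ centralizer F) (inf_le_left.trans hF) (fun g hg => mem_normalizer_fintype fun a ha => ?_)
      (fun a ha b hb => hb.2 a ha.1) (fun x hx => ⟨sF x hx, fun y hy => (hx.comm (hl y (hF hy))).symm⟩) z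
      ⟨hz, fun y hy => (hc y hy).symm⟩, fun E hE nE sE => ?_⟩
  · refine ⟨(mem_normalizer_iff.1 (nF hg) a).1 ha.1, fun y hy => ?_⟩
    have := ha.2 _ ((mem_normalizer_iff''.1 (nF hg) y).1 hy)
    calc y * (g * a * g⁻¹) = g * (g⁻¹ * y * g * a) * g⁻¹ := by group
      _ = g * a * g⁻¹ * y := by rw [this]; group
  · by_cases h : ∃ x ∈ E, ¬Scal K x
    · exact .inl (le_antisymm hE (hm ⟨hE.trans hF, nE, sE, h⟩ hE))
    · exact .inr fun x hx => by_contra fun e => h ⟨x, hx, e⟩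

/-- PROOF. `Z = scal K V` is central in `F`. `⁅F, F⁆ ⊔ Z` is `Γ`-normalised and `≠ F` (else `F/Z ≠ 1` is perfect and solvable;
or: `F = F' Z` gives `F' = F''`, so `F' = 1`, `F = Z`), so `F' ≤ Z` by `min`. Take `x ∈ F \ Z` and a power `x'` of it with
`x' ∉ Z`, `x' ^ r ∈ Z`, `r` prime. `E = {x ∈ F | x ^ r ∈ Z}` is a subgroup (`F / Z` abelian), `Γ`-normalised; `E = F`. -/
theorem Chief.exp {Γ F : Subgroup (Aut V)} (h : Chief K Γ F) :
    (∀ x ∈ F, ∀ y ∈ F, Scal K ⁅x, y⁆) ∧ ∃ r : ℕ, r.Prime ∧ ∀ x ∈ F, Scal K (x ^ r) := by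
  have := h.sol
  let Z := (scal K V).subgroupOf F
  have : Z.Normal := normal_subgroupOf_of_le_normalizer fun x hx => Semi.nscal ⟨RingEquiv.refl K, h.lin x hx⟩
  have hz : ∀ x : F, (x : F ⧸ Z) = 1 ↔ Scal K x.1 := fun x => QuotientGroup.eq_one_iff x
  have : Nontrivial (F ⧸ Z) := by
    obtain ⟨x, hx, nx⟩ := h.ne
    exact ⟨⟨(⟨x, hx⟩ : F), 1, fun e => nx ((hz _).1 e)⟩⟩
  have h1 : ∀ x ∈ F, ∀ y ∈ F, Scal K ⁅x, y⁆ := by
    have cF : ⁅F, F⁆ ≤ F := commutator_le.2 fun a ha b hb =>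
      mul_mem (mul_mem (mul_mem ha hb) (inv_mem ha)) (inv_mem hb)
    rcases h.min (⁅F, F⁆ ⊔ scal K V) (sup_le cF h.sc) (fun g hg => normalizer_inf_normalizer_le_normalizer_sup _ _
      ⟨mem_normalizer_iff_map_conj_eq.2 (by rw [map_commutator, mem_normalizer_iff_map_conj_eq.1 (h.nrm hg)]),
        (h.semi g hg).nscal⟩) (fun x hx => mem_sup_right hx) with e | e
    · refine absurd (eq_top_iff.2 fun q _ => ?_) (Group.IsSolvable.commutator_lt_top_of_nontrivial (F ⧸ Z)).ne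
      obtain ⟨x, rfl⟩ := QuotientGroup.mk_surjective q
      have hle : ⁅F, F⁆ ⊔ scal K V ≤ ((commutator (F ⧸ Z)).comap (QuotientGroup.mk' Z)).map F.subtype :=
        sup_le (commutator_le.2 fun a ha b hb => ⟨⁅(⟨a, ha⟩ : F), ⟨b, hb⟩⁆, by
          rw [SetLike.mem_coe, mem_comap, map_commutatorElement]
          exact commutator_mem_commutator (mem_top _) (mem_top _), rfl⟩) fun a ha => ⟨⟨a, h.sc a ha⟩, by
          rw [SetLike.mem_coe, mem_comap, QuotientGroup.mk'_apply, (hz ⟨a, h.sc a ha⟩).2 ha]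
          exact one_mem _, rfl⟩
      obtain ⟨y, hy, e'⟩ := hle (e.ge x.2)
      exact (Subtype.ext e' : y = x) ▸ hy
    · exact fun x hx y hy => e _ (mem_sup_left (commutator_mem_commutator hx hy))
  have hc : ∀ a b : F, Commute (a : F ⧸ Z) b := fun a b => commutatorElement_eq_one_iff_commute.1 (by
    rw [← QuotientGroup.mk'_apply, ← QuotientGroup.mk'_apply, ← map_commutatorElement]
    exact (hz _).2 (h1 _ a.2 _ b.2))
  obtain ⟨r, hr, hd⟩ := Nat.exists_prime_and_dvd (Finite.one_lt_card (α := F ⧸ Z)).ne'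
  have := Fact.mk hr
  obtain ⟨q, hq⟩ := exists_prime_orderOf_dvd_card' r hd
  obtain ⟨x, rfl⟩ := QuotientGroup.mk_surjective q
  have hp : ∀ a : F, Scal K (a.1 ^ r) ↔ (a : F ⧸ Z) ^ r = 1 := fun a => (hz (a ^ r)).symm
  let E : Subgroup (Aut V) :=
    { carrier := {a | a ∈ F ∧ Scal K (a ^ r)}
      one_mem' := ⟨one_mem _, by rw [one_pow]; exact one_mem (scal K V)⟩
      mul_mem' := fun {a b} ha hb => ⟨mul_mem ha.1 hb.1, (hp (⟨a, ha.1⟩ * ⟨b, hb.1⟩)).2 (by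
        rw [QuotientGroup.mk_mul, (hc _ _).mul_pow, (hp ⟨a, ha.1⟩).1 ha.2, (hp ⟨b, hb.1⟩).1 hb.2, mul_one])⟩
      inv_mem' := fun {a} ha => ⟨inv_mem ha.1, by rw [inv_pow]; exact inv_mem (show _ ∈ scal K V from ha.2)⟩ }
  refine ⟨h1, r, hr, ?_⟩
  rcases h.min E (fun a ha => ha.1) (fun g hg => mem_normalizer_fintype fun a ha =>
    ⟨(mem_normalizer_iff.1 (h.nrm hg) a).1 ha.1, by
      rw [conj_pow]; exact (mem_normalizer_iff.1 (h.semi g hg).nscal _).1 ha.2⟩)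
    (fun a ha => ⟨h.sc a ha, pow_mem (show a ∈ scal K V from ha) r⟩) with e | e
  · exact fun a ha => (e.ge ha).2
  · have := (hz x).2 (e x ⟨x.2, (hp x).2 (hq ▸ pow_orderOf_eq_one _)⟩)
    rw [this, orderOf_one] at hq
    exact absurd hq.symm hr.ne_one

end CL.TC3
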