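import Cfsg.Agent.PERM.TC3.Proj
import Cfsg.Agent.PERM.TC3.Ext

set_option autoImplicit false
set_option linter.unusedSectionVars false

namespace CL.TC3
open Subgroup

variable {K V M : Type} {r : ℕ} [Fact r.Prime] [Field K] [Finite K] [AddCommGroup V] [Finite V] [Nontrivial V]
  [Module K V] [AddCommGroup M] [Finite M] [Module (ZMod r) M] (P : PR K V M r)

namespace PinA

theorem gen (K : Type) [Field K] [Finite K] : ∃ l : K, ∀ σ : K ≃+* K, σ l = l → ∀ c, σ c = c := by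
  obtain ⟨g, hg⟩ := IsCyclic.exists_monoid_generator (α := Kˣ)
  refine ⟨g, fun σ h c => ?_⟩
  by_cases hc : c = 0
  · rw [hc, map_zero]
  obtain ⟨n, hn⟩ := hg (Units.mk0 c hc)
  have : c = (g : K) ^ n := by
    have := congrArg Units.val hn
    simpa using this.symm
  rw [this, map_pow, h]

theorem proj {v : V} (v0 : v ≠ 0) {x : M} (hv : P.St v = Submodule.span (ZMod r) {x}) :
    ∃ π : M → V →ₗ[K] V,
      (∀ t t' y, y ∈ P.E (Submodule.span (ZMod r) {x}) v t' → P.β x t = P.β x t' → π t y = y) ∧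
      (∀ t t' y, y ∈ P.E (Submodule.span (ZMod r) {x}) v t' → P.β x t ≠ P.β x t' → π t y = 0) := by
  obtain ⟨-, π, -, h1, h2⟩ := P.exists_proj v0 hv.ge
  refine ⟨π, fun t t' y hy e => h1 t y ?_, fun t t' y hy e =>
    h2 t t' ⟨x, Submodule.mem_span_singleton_self x, e⟩ y hy⟩
  rwa [P.E_congr v (t := t) (t' := t') fun b hb => ?_]
  obtain ⟨a, rfl⟩ := Submodule.mem_span_singleton.1 hb
  rw [map_smul, LinearMap.smul_apply, LinearMap.smul_apply, e]

theorem two (h2 : r ≠ 2) : (2 : ZMod r) ≠ 0 := fun h =>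
  h2 ((Nat.prime_dvd_prime_iff_eq Fact.out Nat.prime_two).1 ((ZMod.natCast_eq_zero_iff 2 r).1 (by exact_mod_cast h)))

theorem three (h : (3 : ZMod r) = 0) : r = 3 :=
  (Nat.prime_dvd_prime_iff_eq Fact.out Nat.prime_three).1 ((ZMod.natCast_eq_zero_iff 3 r).1 (by exact_mod_cast h))

theorem case1 {v : V} (v0 : v ≠ 0) {x z : M} (hv : P.St v = Submodule.span (ZMod r) {x}) (hz : P.β x z = 1)
    {s : Aut V} {φ : Aut M} (ha : P.Act s φ) (sv : s v = v) (s1 : s (P.ρ z v) = P.ρ z v)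
    (s2 : s (P.ρ z (P.ρ z v)) = P.ρ z (P.ρ z v)) : φ z = z := by
  obtain ⟨c, c0, hc⟩ := ha z
  have e1 : P.ρ z v = c • P.ρ (φ z) v := by rw [← s1, hc, sv]
  have hm := P.sub_mem_St e1
  rw [hv] at hm
  obtain ⟨m, hm⟩ := Submodule.mem_span_singleton.1 hm
  have e2 : P.ρ z (P.ρ z v) = P.ψ (P.β (φ z) z) • P.ρ z (P.ρ z v) := by
    nth_rewrite 1 [← s2]
    rw [hc, s1, P.comm, smul_comm, ← P.lin, ← e1]
  have n0 : P.ρ z (P.ρ z v) ≠ 0 := fun e => v0 ((P.ρ z).map_eq_zero_iff.1 ((P.ρ z).map_eq_zero_iff.1 e))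
  have e3 : P.ψ (P.β (φ z) z) = 1 := (smul_left_injective K n0 (by simpa using e2)).symm
  have e4 := P.inj _ e3
  have e5 : φ z = z - m • x := by rw [hm]; abel
  rw [e5, map_sub, map_smul, LinearMap.sub_apply, LinearMap.smul_apply, P.alt, hz, smul_eq_mul, mul_one, zero_sub,
    neg_eq_zero] at e4
  rw [e5, e4, zero_smul, sub_zero]

theorem case2 (h2 : r ≠ 2) {v : V} (v0 : v ≠ 0) {x z : M} (hv : P.St v = Submodule.span (ZMod r) {x})
    (hz : P.β x z = 1) {s : Aut V} {φ : Aut M} (sl : Lin K s) (ha : P.Act s φ) (sv : s v = v) {e : K} (e0 : e ≠ 0)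
    (he : ∀ y, e ^ 3 • (P.ρ z ^ 3) y = y) (s1 : s (e • P.ρ z v) = e • P.ρ z (e • P.ρ z v))
    (s2 : s (e • P.ρ z (e • P.ρ z v)) = e • P.ρ z v) : φ z = z + z := by
  obtain ⟨c, c0, hc⟩ := ha z
  obtain ⟨d, d0, hd⟩ := P.mul z z
  have e1 : c • P.ρ (φ z) v = e • P.ρ z (P.ρ z v) := by
    rw [sl, hc, sv, P.lin] at s1
    exact smul_right_injective V e0 s1
  have e1' : P.ρ (φ z) v = (c⁻¹ * (e * d)) • P.ρ (z + z) v := by
    rw [mul_smul, eq_inv_smul_iff₀ c0, e1, hd, mul_smul]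
  have hm := P.sub_mem_St e1'
  rw [hv] at hm
  obtain ⟨m, hm⟩ := Submodule.mem_span_singleton.1 hm
  have h3 : e ^ 3 • P.ρ z (P.ρ z (P.ρ z (P.ρ z v))) = P.ρ z v := by
    have := he (P.ρ z v)
    rwa [pow_three (P.ρ z), mul_ap, mul_ap] at this
  have e2 : e • P.ρ z v = (P.ψ (P.β (φ z) z) * P.ψ (P.β (φ z) z)) • e • P.ρ z v := by
    nth_rewrite 1 [← s2]
    rw [sl, hc, s1, P.lin, P.lin, P.lin, P.comm (φ z) z, P.comm (φ z) z, P.lin]
    nth_rewrite 1 [← h3]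
    have : P.ρ (φ z) v = c⁻¹ • e • P.ρ z (P.ρ z v) := by rw [eq_inv_smul_iff₀ c0, e1]
    rw [this, P.lin, P.lin, P.lin, P.lin]
    simp only [smul_smul]
    congr 1
    field_simp
  have n0 : e • P.ρ z v ≠ 0 := smul_ne_zero e0 fun h => v0 ((P.ρ z).map_eq_zero_iff.1 h)
  have e3 : P.ψ (P.β (φ z) z + P.β (φ z) z) = 1 := by
    rw [AddChar.map_add_eq_mul]
    exact (smul_left_injective K n0 (by simpa using e2)).symm
  have e4 := P.inj _ e3
  rw [← two_mul, mul_eq_zero, or_iff_right (two h2)] at e4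
  have e5 : φ z = z + z + m • x := by rw [hm]; abel
  rw [e5, map_add, map_add, map_smul, LinearMap.add_apply, LinearMap.add_apply, LinearMap.smul_apply, P.alt, hz,
    smul_eq_mul, mul_one, zero_add, zero_add] at e4
  rw [e5, e4, zero_smul, add_zero]

end PinA

namespace PR

/-- PROOF. `A = span {x}`; `T = e ρ z` with `T ^ r = 1` (`spl`, `norm_r`), `R = c⁻¹ ρ x` fixing `v`; `R T = ψ 1 T R`. `l` a
generator of `Kˣ`, `w = l v + T v + T² v`, types `0, z, 2 z` (`β x · = 0, 1, 2`, distinct as `r` is odd). Let `s` fix `v, w`,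
induce `φ`. `φ A = A` (`Act.mem_St`), `φ x = i x`; `s (l v) = σ l v`, `s T v ∈ E (φ z)`, `s T² v ∈ E (2 φ z)` (`Act.mem_E`),
`j = β x (φ z) ≠ 0`. `π 0` gives `σ l = l`, so `s` is linear and `i j = 1` (`β_lin`). `π (φ z) w = s T v ≠ 0` so `j ∈ {1, 2}`,
likewise `2 j ∈ {1, 2}`. If `j = 1`: `s T v = T v`, `s T² v = T² v`; `φ z = z + n x` (`sub_mem_St`), `s T s⁻¹ = c T R ^ n`, at
`v`: `c = 1`; `T² v = s T² v = T R^n T v = ψ n T² v`, `n = 0`. If `j = 2` then `4 = 1`, `r = 3`, `i = -1`, `s T v = T² v`,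
`s T² v = T v`, `φ z = 2 z + n x`, `s T s⁻¹ = T² R ^ n`, `T v = T² R^n T² v = ψ (2 n) T⁴ v = ψ (2 n) T v`, `n = 0`, `φ z = -z`. -/
theorem pinA (h2 : r ≠ 2) {v : V} (v0 : v ≠ 0) {x z : M} (hv : P.St v = Submodule.span (ZMod r) {x}) (hz : P.β x z = 1) :
    P.Pin x z := by
  obtain ⟨l, hl⟩ := PinA.gen K
  obtain ⟨π, π1, π0⟩ := PinA.proj P v0 hv
  obtain ⟨e, e0, he⟩ := P.norm_r (z := z) (P.spl (Or.inl h2) z)
  have two := PinA.two h2
  have m0 := P.self_mem_E (Submodule.span (ZMod r) {x}) v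
  have m1 : e • P.ρ z v ∈ P.E (Submodule.span (ZMod r) {x}) v z := by
    have := P.ρ_mem_E z m0
    rw [zero_add] at this
    exact Submodule.smul_mem _ _ this
  have m2 : e • P.ρ z (e • P.ρ z v) ∈ P.E (Submodule.span (ZMod r) {x}) v (z + z) :=
    Submodule.smul_mem _ _ (P.ρ_mem_E z m1)
  have n1 : e • P.ρ z v ≠ 0 := smul_ne_zero e0 fun h => v0 ((P.ρ z).map_eq_zero_iff.1 h)
  have n2 : e • P.ρ z (e • P.ρ z v) ≠ 0 := smul_ne_zero e0 fun h => n1 ((P.ρ z).map_eq_zero_iff.1 h)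
  refine ⟨v, l • v + e • P.ρ z v + e • P.ρ z (e • P.ρ z v), fun φ ⟨s, ⟨σ, hσ⟩, ha, sv, sw⟩ => ?_⟩
  have hφx : φ x ∈ Submodule.span (ZMod r) {x} := by
    have := (ha.mem_St ⟨σ, hσ⟩ v x).2 (by rw [hv]; exact Submodule.mem_span_singleton_self x)
    rwa [sv, hv] at this
  obtain ⟨i, hi⟩ := Submodule.mem_span_singleton.1 hφx
  have hA : ∀ a ∈ Submodule.span (ZMod r) {x}, φ a ∈ Submodule.span (ZMod r) {x} := fun a h => by
    obtain ⟨b, rfl⟩ := Submodule.mem_span_singleton.1 h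
    rw [aut_smul]
    exact Submodule.smul_mem _ _ hφx
  have k1 := ha.mem_E ⟨σ, hσ⟩ v0 hv.ge (c := 1) (by rw [sv, one_smul]) hA m1
  have k2 := ha.mem_E ⟨σ, hσ⟩ v0 hv.ge (c := 1) (by rw [sv, one_smul]) hA m2
  obtain ⟨j, hj⟩ : ∃ j, P.β x (φ z) = j := ⟨_, rfl⟩
  have ij : P.β (φ x) (φ z) = i * j := by rw [← hi, map_smul, LinearMap.smul_apply, hj, smul_eq_mul]
  have j0 : j ≠ 0 := fun h => by
    have := (ha.β_zero ⟨σ, hσ⟩ x z).1 (by rw [ij, h, mul_zero])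
    rw [hz] at this
    exact one_ne_zero this
  have b0 : P.β x 0 = 0 := map_zero _
  have b2 : P.β x (z + z) = 2 := by rw [map_add, hz]; norm_num
  have b2' : P.β x (φ (z + z)) = 2 * j := by rw [map_add, map_add, hj, two_mul]
  have o2 : (1 : ZMod r) ≠ 2 := fun h => one_ne_zero (α := ZMod r) (by linear_combination -h)
  rw [map_add, map_add, hσ, sv] at sw
  have f : ∀ t, σ l • π t v + π t (s (e • P.ρ z v)) + π t (s (e • P.ρ z (e • P.ρ z v))) =
      l • π t v + π t (e • P.ρ z v) + π t (e • P.ρ z (e • P.ρ z v)) := fun t => by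
    have := congrArg (π t) sw
    rwa [map_add, map_add, map_add, map_add, map_smul (π t) (σ l), map_smul (π t) l] at this
  have f0 := f 0
  rw [π1 0 0 v m0 rfl, π0 0 _ _ k1 (by rw [b0, hj]; exact j0.symm),
    π0 0 _ _ k2 (by rw [b0, b2']; exact (mul_ne_zero two j0).symm),
    π0 0 _ _ m1 (by rw [b0, hz]; exact zero_ne_one), π0 0 _ _ m2 (by rw [b0, b2]; exact two.symm),
    add_zero, add_zero, add_zero, add_zero] at f0
  have sl : Lin K s := fun c y => by rw [hσ, hl σ (smul_left_injective K v0 f0)]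
  have ij1 : i * j = 1 := by rw [← ij, ha.β_lin sl, hz]
  have f1 := f z
  have f2 := f (z + z)
  rw [π0 z 0 v m0 (by rw [b0, hz]; exact one_ne_zero), π1 z z _ m1 rfl, π0 z _ _ m2 (by rw [hz, b2]; exact o2),
    smul_zero, smul_zero, zero_add, zero_add, add_zero] at f1
  rw [π0 (z + z) 0 v m0 (by rw [b0, b2]; exact two), π1 (z + z) (z + z) _ m2 rfl,
    π0 (z + z) _ _ m1 (by rw [hz, b2]; exact o2.symm), smul_zero, smul_zero, zero_add, zero_add, zero_add] at f2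
  by_cases j1 : j = 1
  · rw [π1 z _ _ k1 (by rw [hz, hj, j1]), π0 z _ _ k2 (by rw [hz, b2', j1, mul_one]; exact o2), add_zero] at f1
    rw [π1 _ _ _ k2 (by rw [b2, b2', j1, mul_one]), π0 _ _ _ k1 (by rw [b2, hj, j1]; exact o2.symm), zero_add] at f2
    rw [j1, mul_one] at ij1
    refine Or.inl ⟨by rw [← hi, ij1, one_smul], PinA.case1 P v0 hv hz ha sv ?_ ?_⟩
    · rw [sl] at f1
      exact smul_right_injective V e0 f1
    · rw [P.lin, sl, sl] at f2
      exact smul_right_injective V e0 (smul_right_injective V e0 f2)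
  · rw [π0 z _ _ k1 (by rw [hz, hj]; exact Ne.symm j1), zero_add] at f1
    rw [π0 _ _ _ k2 (by
      rw [b2, b2']
      intro h
      exact j1 (mul_left_cancel₀ two (by rw [← h, mul_one]))), add_zero] at f2
    have q1 : 2 * j = 1 := by
      by_contra h
      rw [π0 z _ _ k2 (by rw [hz, b2']; exact Ne.symm h)] at f1
      exact n1 f1.symm
    have q2 : j = 2 := by
      by_contra h
      rw [π0 _ _ _ k1 (by rw [b2, hj]; exact Ne.symm h)] at f2
      exact n2 f2.symm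
    rw [π1 z _ _ k2 (by rw [hz, b2', q1])] at f1
    rw [π1 _ _ _ k1 (by rw [b2, hj, q2])] at f2
    have t3 : (3 : ZMod r) = 0 := by rw [q2] at q1; linear_combination q1
    have he3 : ∀ n, n = r → ∀ y, e ^ n • (P.ρ z ^ n) y = y := fun n hn => hn ▸ he
    have i1 : i = -1 := by rw [q2] at ij1; linear_combination -ij1 + i * t3
    refine Or.inr ⟨by rw [← hi, i1, neg_smul, one_smul], ?_⟩
    rw [PinA.case2 P h2 v0 hv hz sl ha sv e0 (he3 3 (PinA.three t3).symm) f2 f1, eq_neg_iff_add_eq_zero]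
    have : (3 : ZMod r) • z = z + z + z := by
      rw [show (3 : ZMod r) = 1 + 1 + 1 by norm_num, add_smul, add_smul, one_smul]
    rw [← this, t3, zero_smul]

end PR

end CL.TC3
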