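import Cfsg.Agent.PERM.TC3.Bas

set_option autoImplicit false
set_option linter.unusedSectionVars false

namespace CL.TC3
open Subgroup

variable {K V M : Type} {r : ℕ} [Fact r.Prime] [Field K] [Finite K] [AddCommGroup V] [Finite V] [Nontrivial V]
  [Module K V] [AddCommGroup M] [Finite M] [Module (ZMod r) M] (P : PR K V M r)

namespace Proj

theorem sum0 {N : Type} [AddCommGroup N] [Fintype N] (f : N →+ ZMod r) (h : ∃ x, f x ≠ 0) : ∑ x, P.ψ (f x) = 0 :=
  let ⟨x, hx⟩ := h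
  AddChar.sum_eq_zero_of_ne_one (ψ := P.ψ.compAddMonoidHom f) (AddChar.ne_one_iff.2 ⟨x, fun e => hx (P.inj _ e)⟩)

include P in
theorem r_ne' : (r : K) ≠ 0 := fun h => by
  have : CharP K r := (CharP.charP_iff_prime_eq_zero Fact.out).2 h
  have e : (P.ψ 1 - 1) ^ r = 0 := by
    rw [sub_pow_char, one_pow, ← AddChar.map_nsmul_eq_pow, nsmul_eq_mul, ZMod.natCast_self, zero_mul,
      AddChar.map_zero_eq_one, sub_self]
  exact one_ne_zero (P.inj 1 (sub_eq_zero.1 (pow_eq_zero_iff (Fact.out : r.Prime).ne_zero |>.1 e)))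

include P in
theorem cardK (N : Type) [AddCommGroup N] [Module (ZMod r) N] [Fintype N] : (Fintype.card N : K) ≠ 0 := by
  rw [Module.card_eq_pow_finrank (K := ZMod r), ZMod.card, Nat.cast_pow]
  exact pow_ne_zero _ (r_ne' P)

/-- `ρ x` as a `K`-linear map -/
def L (x : M) : V →ₗ[K] V := ⟨⟨P.ρ x, map_add _⟩, P.lin x⟩

theorem L_ap (x : M) (v : V) : L P x v = P.ρ x v := rfl

theorem orth [Fintype M] [DecidableEq M] (x : M) : ∑ y, P.ψ (P.β x y) = if x = 0 then (Fintype.card M : K) else 0 := by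
  split_ifs with h
  · simp [h]
  · exact sum0 P (P.β x).toAddMonoidHom (not_forall.1 fun e => h (P.nd x e))

theorem sq_lt (n : ℕ) : n * n < 3 ^ n := by
  induction n with
  | zero => simp
  | succ n ih =>
    have := Nat.lt_pow_self (n := n) (show 1 < 3 by norm_num)
    rw [pow_succ]
    nlinarith

end Proj

namespace PR

open Proj

/-- Projections on the joint eigenspaces. PROOF. For `b ∈ A` let `χ b ≠ 0` with `ρ b u = χ b • u`, `R b = (χ b)⁻¹ ρ b`;
`R b R b' = R (b + b')` (they differ by a scalar and fix `u`). `π t = |A|⁻¹ ∑_{b ∈ A} ψ (-β b t) R b` (`|A|` is a power of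
`r`, nonzero in `K`, `r_ne`). Orthogonality `AddChar.sum_eq_zero_of_ne_one` on `A`. Finally
`∑_{t : M} π t y = |A|⁻¹ |M| y` (`∑_t ψ (-β b t) = 0` for `b ≠ 0` by `nd`). -/
theorem exists_proj {u : V} (u0 : u ≠ 0) {A : Submodule (ZMod r) M} (hA : A ≤ P.St u) :
    ⨆ t, P.E A u t = ⊤ ∧ ∃ π : M → V →ₗ[K] V, (∀ t y, π t y ∈ P.E A u t) ∧ (∀ t, ∀ y ∈ P.E A u t, π t y = y) ∧
      ∀ t t', (∃ b ∈ A, P.β b t ≠ P.β b t') → ∀ y ∈ P.E A u t', π t y = 0 := by
  classical
  have := Fintype.ofFinite A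
  have := Fintype.ofFinite M
  have inj : ∀ {c d : K}, c • u = d • u → c = d := fun e => smul_left_injective K u0 e
  choose χ hχ using fun b : A => P.mem_St.1 (hA b.2)
  have χ0 : ∀ b, χ b ≠ 0 := fun b e => u0 ((P.ρ b).injective (by rw [hχ, e, zero_smul, map_zero]))
  have Rm : ∀ (b b' : A) (y : V), P.ρ b ((χ b')⁻¹ • P.ρ b' y) = χ b • (χ (b + b'))⁻¹ • P.ρ (b + b' : A) y := by
    intro b b' y
    obtain ⟨c, -, hc⟩ := P.mul b b'
    have e := hc u
    rw [hχ, P.lin, hχ, ← Submodule.coe_add, hχ, smul_smul, smul_smul] at e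
    rw [P.lin, hc, smul_smul, smul_smul, Submodule.coe_add]
    congr 1
    have := χ0 b'
    have := χ0 (b + b')
    field_simp
    rw [← inj e, mul_comm]
  obtain ⟨π, hπ⟩ : ∃ π : M → V →ₗ[K] V, ∀ t y,
      π t y = (Fintype.card A : K)⁻¹ • ∑ b : A, P.ψ (-P.β b t) • (χ b)⁻¹ • P.ρ b y :=
    ⟨fun t => (Fintype.card A : K)⁻¹ • ∑ b : A, P.ψ (-P.β b t) • (χ b)⁻¹ • L P b, fun t y => by
      simp only [LinearMap.smul_apply, LinearMap.sum_apply, L_ap]⟩
  have h1 : ∀ t y, π t y ∈ P.E A u t := fun t y b hb c hc => by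
    obtain rfl : c = χ ⟨b, hb⟩ := inj (hc.symm.trans (hχ ⟨b, hb⟩))
    rw [hπ, P.lin, smul_comm, map_sum, Finset.smul_sum (r := χ ⟨b, hb⟩ * _)]
    congr 1
    refine Fintype.sum_equiv (Equiv.addLeft (⟨b, hb⟩ : A)) _ _ fun b' => ?_
    rw [P.lin, Rm ⟨b, hb⟩, Equiv.coe_addLeft, smul_smul (P.ψ _) (χ _), smul_smul (_ * _) (P.ψ _), mul_assoc,
      ← P.ψ.map_add_eq_mul, mul_comm]
    simp
  have h2 : ∀ t t', ∀ y ∈ P.E A u t', π t y = ((Fintype.card A : K)⁻¹ * ∑ b : A, P.ψ (P.β b t' - P.β b t)) • y :=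
    fun t t' y hy => by
    rw [hπ, mul_smul, Finset.sum_smul]
    congr 1
    refine Finset.sum_congr rfl fun b _ => ?_
    rw [hy b b.2 _ (hχ b), smul_smul, smul_smul, sub_eq_neg_add, P.ψ.map_add_eq_mul, mul_assoc,
      inv_mul_cancel_left₀ (χ0 b)]
  refine ⟨eq_top_iff.2 fun y _ => ?_, π, h1, fun t y hy => ?_, fun t t' ⟨b, hb, e⟩ y hy => ?_⟩
  · have e : ∑ t, π t y = ((Fintype.card A : K)⁻¹ * Fintype.card M) • y := by
      simp only [hπ]
      rw [← Finset.smul_sum, Finset.sum_comm, mul_smul]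
      congr 1
      rw [Finset.sum_eq_single (0 : A) (fun b _ hb => ?_) (by simp)]
      · have : χ 0 = 1 := inj (by rw [← hχ, one_smul, Submodule.coe_zero, P.zero, one_ap])
        simp [this, P.zero, Nat.cast_smul_eq_nsmul]
      · rw [← Finset.sum_smul]
        have := orth P (-b)
        rw [if_neg (by simpa using hb)] at this
        simp only [map_neg, LinearMap.neg_apply] at this
        rw [this, zero_smul]
    rw [← Submodule.smul_mem_iff _ (mul_ne_zero (inv_ne_zero (cardK P A)) (cardK P M)), ← e]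
    exact Submodule.sum_mem _ fun t _ => Submodule.mem_iSup_of_mem t (h1 t y)
  · rw [h2 t t y hy]
    simp [inv_mul_cancel₀ (cardK P A)]
  · have := sum0 P ((P.β.flip (t' - t)).toAddMonoidHom.comp A.subtype.toAddMonoidHom)
      ⟨⟨b, hb⟩, by simpa [sub_eq_zero] using e.symm⟩
    rw [h2 t t' y hy, show ∑ b : A, P.ψ (P.β b t' - P.β b t) = 0 by simpa using this, mul_zero, zero_smul]

include P in
/-- PROOF. The `ρ x`, as `K`-linear endomorphisms, are linearly independent: conjugating `∑ c x ρ x = 0` by `ρ y` and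
summing with weights `ψ (-β y x₀)` gives `|M| c x₀ ρ x₀ = 0`. So `|M| ≤ n²`, `n = finrank`, and `n² < 3ⁿ ≤ |K|ⁿ = |V|`
(`|K| ≥ 3`: `0, ψ 0, ψ 1` are distinct). -/
theorem card_lt : Nat.card M < Nat.card V := by
  classical
  have := Fintype.ofFinite M
  have := Fintype.ofFinite K
  have li : LinearIndependent K (L P) := Fintype.linearIndependent_iff.2 fun g hg x₀ => by
    obtain ⟨v, v0⟩ := exists_ne (0 : V)
    have k : ∀ y, ∑ x, (g x * P.ψ (P.β x y)) • P.ρ x v = 0 := fun y => (P.ρ y).injective (by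
      have := LinearMap.congr_fun hg (P.ρ y v)
      simp only [LinearMap.sum_apply, LinearMap.smul_apply, L_ap, LinearMap.zero_apply] at this
      rw [map_zero, map_sum, ← this]
      exact Finset.sum_congr rfl fun x _ => by rw [P.lin, P.comm x y, mul_smul])
    have e : ∑ y, P.ψ (-P.β x₀ y) • ∑ x, (g x * P.ψ (P.β x y)) • P.ρ x v = (g x₀ * Fintype.card M) • P.ρ x₀ v := by
      simp only [Finset.smul_sum, smul_smul]
      rw [Finset.sum_comm]
      have o : ∀ x, ∑ y, (P.ψ (-P.β x₀ y) * (g x * P.ψ (P.β x y))) • P.ρ x v =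
          (g x * if x - x₀ = 0 then (Fintype.card M : K) else 0) • P.ρ x v := fun x => by
        rw [← orth P, Finset.mul_sum, Finset.sum_smul]
        exact Finset.sum_congr rfl fun y _ => by
          rw [mul_left_comm, ← P.ψ.map_add_eq_mul, map_sub, LinearMap.sub_apply, sub_eq_neg_add]
      rw [Finset.sum_congr rfl fun x _ => o x, Finset.sum_eq_single x₀ (fun x _ h => by simp [sub_eq_zero, h]) (by simp)]
      simp
    simp only [k, smul_zero, Finset.sum_const_zero] at e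
    exact ((mul_eq_zero.1 ((smul_eq_zero.1 e.symm).resolve_right (by simpa using v0))).resolve_right (cardK P M))
  have h1 := li.fintype_card_le_finrank
  have h3 : 2 < Fintype.card K := Fintype.two_lt_card_iff.2 ⟨0, P.ψ 0, P.ψ 1, (P.ψ_ne _).symm, (P.ψ_ne _).symm,
    fun e => zero_ne_one (P.ψ_inj e)⟩
  rw [Module.finrank_linearMap] at h1
  rw [Module.natCard_eq_pow_finrank (K := K) (V := V), Nat.card_eq_fintype_card, Nat.card_eq_fintype_card]
  exact (h1.trans_lt (sq_lt _)).trans_le (Nat.pow_le_pow_left h3 _)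

end PR

end CL.TC3
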