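import Cfsg.Agent.PERM.TC3.Defs

set_option autoImplicit false
set_option linter.unusedSectionVars false

namespace CL.TC3
open Subgroup

variable {K V : Type} [Field K] [Finite K] [AddCommGroup V] [Finite V] [Module K V]

namespace SemiB

theorem ind_or {v v0 w0 : V} (hv : v ≠ 0) (h0 : ∀ a b : K, a • v0 + b • w0 = 0 → a = 0 ∧ b = 0) :
    (∀ a b : K, a • v + b • v0 = 0 → a = 0 ∧ b = 0) ∨ (∀ a b : K, a • v + b • w0 = 0 → a = 0 ∧ b = 0) := by
  by_contra hc
  rw [not_or] at hc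
  obtain ⟨h1, h2⟩ := hc
  simp only [not_forall] at h1 h2
  obtain ⟨a, b, e1, n1⟩ := h1
  obtain ⟨a', b', e2, n2⟩ := h2
  have ha : a ≠ 0 := by
    rintro rfl
    rw [zero_smul, zero_add] at e1
    exact n1 ⟨rfl, (h0 b 0 (by rw [zero_smul, add_zero, e1])).1⟩
  have ha' : a' ≠ 0 := by
    rintro rfl
    rw [zero_smul, zero_add] at e2
    exact n2 ⟨rfl, (h0 0 b' (by rw [zero_smul, zero_add, e2])).2⟩
  have e3 : (a' * b) • v0 + (-(a * b')) • w0 = 0 := by
    have : (a' * b) • v0 + (-(a * b')) • w0 = a' • (a • v + b • v0) - a • (a' • v + b' • w0) := by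
      simp only [smul_add, smul_smul, neg_smul, mul_comm a a']; abel
    rw [this, e1, e2, smul_zero, smul_zero, sub_zero]
  have hb : b = 0 := (mul_eq_zero.1 (h0 _ _ e3).1).resolve_left ha'
  rw [hb, zero_smul, add_zero] at e1
  exact hv ((smul_eq_zero.1 e1).resolve_left ha)

theorem aut_fix {σ : K ≃+* K} {l : Kˣ} (hl : ∀ x : Kˣ, x ∈ Submonoid.powers l) (e : σ l = l) (c : K) : σ c = c := by
  by_cases hc : c = 0
  · rw [hc, map_zero]
  · obtain ⟨n, hn⟩ := hl (Units.mk0 c hc)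
    have : c = (l : K) ^ n := by
      have := congrArg Units.val hn
      simpa using this.symm
    rw [this, map_pow, e]

theorem aut_comm (σ τ : K ≃+* K) (c : K) : σ (τ c) = τ (σ c) := by
  obtain ⟨l, hl⟩ := IsCyclic.exists_monoid_generator (α := Kˣ)
  have pw : ∀ c : K, c ≠ 0 → ∃ n : ℕ, c = (l : K) ^ n := fun c hc => by
    obtain ⟨n, hn⟩ := hl (Units.mk0 c hc)
    refine ⟨n, ?_⟩
    have := congrArg Units.val hn
    simpa using this.symm
  by_cases hc : c = 0
  · simp only [hc, map_zero]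
  obtain ⟨n, rfl⟩ := pw c hc
  obtain ⟨a, ha⟩ := pw (σ l) ((map_ne_zero σ).2 l.ne_zero)
  obtain ⟨b, hb⟩ := pw (τ l) ((map_ne_zero τ).2 l.ne_zero)
  have : σ (τ l) = τ (σ l) := by
    rw [hb, map_pow, ha, map_pow, hb, ← pow_mul, ← pow_mul, mul_comm]
  rw [map_pow, map_pow, map_pow, map_pow, this]

theorem smul_mul {σ τ : K ≃+* K} {g h : Aut V} (hg : SemiS K σ g) (hh : SemiS K τ h) : SemiS K (τ.trans σ) (g * h) :=
  fun c v => by rw [mul_ap, mul_ap, hh, hg]; rfl

theorem smul_inv {σ : K ≃+* K} {g : Aut V} (hg : SemiS K σ g) : SemiS K σ.symm g⁻¹ := fun c v =>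
  g.injective (by rw [ap_inv, hg, ap_inv, σ.apply_symm_apply])

end SemiB

/-- Dimension at least two. PROOF. `g` agreeing with `h` at `v, c • v` gives `h (c • v) = τ v c • h v`; `g` agreeing at
independent `v, w` shows `h v, h w` independent. Then `h (c (v + w))` gives `τ v c = τ (v + w) c = τ w c`; for dependent
nonzero `v, w` go through a third vector. So `τ` is independent of `v ≠ 0`, additive, multiplicative, injective,
hence a ring automorphism (finite). -/
theorem semi2 {G : Subgroup (Aut V)} (hs : ∀ g ∈ G, Semi K g) (d : 2 ≤ Module.finrank K V) {h : Aut V} (hh : h ∈ cl G) :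
    Semi K h := by
  have t0 : ∀ (v : V) (c : K), ∃ t : K, h (c • v) = t • h v := fun v c => by
    obtain ⟨g, hg, e1, e2⟩ := hh v (c • v)
    obtain ⟨σ, hσ⟩ := hs g hg
    exact ⟨σ c, by rw [← e1, ← e2, hσ]⟩
  choose τ hτ using t0
  have ind : ∀ v w : V, (∀ a b : K, a • v + b • w = 0 → a = 0 ∧ b = 0) →
      ∀ a b : K, a • h v + b • h w = 0 → a = 0 ∧ b = 0 := fun v w hi a b e => by
    obtain ⟨g, hg, e1, e2⟩ := hh v w
    obtain ⟨σ, hσ⟩ := hs g hg
    have : g (σ.symm a • v + σ.symm b • w) = 0 := by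
      rw [map_add, hσ, hσ, σ.apply_symm_apply, σ.apply_symm_apply, e1, e2, e]
    obtain ⟨h1, h2⟩ := hi _ _ ((map_eq_zero_iff g g.injective).1 this)
    exact ⟨(map_eq_zero_iff σ.symm σ.symm.injective).1 h1, (map_eq_zero_iff σ.symm σ.symm.injective).1 h2⟩
  have eqτ : ∀ v w : V, (∀ a b : K, a • v + b • w = 0 → a = 0 ∧ b = 0) → ∀ c, τ v c = τ w c := fun v w hi c => by
    have e := hτ (v + w) c
    rw [smul_add, map_add, map_add, hτ, hτ, smul_add] at e
    obtain ⟨h1, h2⟩ := ind v w hi (τ v c - τ (v + w) c) (τ w c - τ (v + w) c) (by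
      rw [sub_smul, sub_smul, sub_add_sub_comm, e, sub_self])
    rw [sub_eq_zero.1 h1, sub_eq_zero.1 h2]
  have : Nontrivial V := Module.nontrivial_of_finrank_pos (R := K) (by omega)
  obtain ⟨v0, hv0⟩ := exists_ne (0 : V)
  obtain ⟨w0, hw0⟩ := exists_linearIndependent_pair_of_one_lt_finrank (R := K) (by omega) hv0
  rw [LinearIndependent.pair_iff] at hw0
  have key : ∀ (c : K) (v : V), h (c • v) = τ v0 c • h v := fun c v => by
    by_cases hv : v = 0
    · rw [hv, smul_zero, map_zero, smul_zero]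
    rcases SemiB.ind_or hv hw0 with h1 | h1
    · rw [hτ, eqτ _ _ h1]
    · rw [hτ, eqτ _ _ h1, eqτ _ _ hw0]
  have n0 : h v0 ≠ 0 := (map_ne_zero_iff h h.injective).2 hv0
  have canc : ∀ a b : K, a • h v0 = b • h v0 → a = b := fun a b e => smul_left_injective K n0 e
  let f : K →+* K :=
    { toFun := τ v0
      map_one' := canc _ _ (by rw [← key, one_smul, one_smul])
      map_mul' := fun a b => canc _ _ (by rw [← key, mul_smul, key, key, mul_smul])
      map_zero' := canc _ _ (by rw [← key, zero_smul, zero_smul, map_zero])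
      map_add' := fun a b => canc _ _ (by rw [← key, add_smul, map_add, key, key, add_smul]) }
  exact ⟨RingEquiv.ofBijective f (Finite.injective_iff_bijective.1 f.injective), key⟩

/-- The scalars. -/
def scal (K V : Type) [Field K] [AddCommGroup V] [Module K V] : Subgroup (Aut V) where
  carrier := {g | Scal K g}
  one_mem' := ⟨1, fun v => by rw [one_smul]; rfl⟩
  mul_mem' := fun {g h} ⟨a, ha⟩ ⟨b, hb⟩ => ⟨a * b, fun v => by rw [mul_ap, ha, hb, mul_smul]⟩
  inv_mem' := fun {g} ⟨a, ha⟩ => by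
    by_cases h0 : a = 0
    · refine ⟨0, fun v => ?_⟩
      have : v = 0 := by rw [← ap_inv g v, ha, h0, zero_smul]
      rw [this, map_zero, smul_zero]
    · exact ⟨a⁻¹, fun v => g.injective (by rw [ap_inv, ha, smul_smul, mul_inv_cancel₀ h0, one_smul])⟩

/-- The linear maps. -/
def lin (K V : Type) [Field K] [AddCommGroup V] [Module K V] : Subgroup (Aut V) where
  carrier := {g | Lin K g}
  one_mem' := fun _ _ => rfl
  mul_mem' := fun {g h} hg hh c v => by rw [mul_ap, mul_ap, hh, hg]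
  inv_mem' := fun {g} hg c v => g.injective (by rw [ap_inv, hg, ap_inv])

theorem Semi.mul {g h : Aut V} (hg : Semi K g) (hh : Semi K h) : Semi K (g * h) :=
  let ⟨_, hσ⟩ := hg; let ⟨_, hτ⟩ := hh; ⟨_, SemiB.smul_mul hσ hτ⟩
theorem Semi.inv {g : Aut V} (hg : Semi K g) : Semi K g⁻¹ :=
  let ⟨_, hσ⟩ := hg; ⟨_, SemiB.smul_inv hσ⟩
theorem Semi.nscal {g : Aut V} (hg : Semi K g) : g ∈ normalizer (scal K V : Set (Aut V)) := by
  have fw : ∀ g : Aut V, Semi K g → ∀ x ∈ scal K V, g * x * g⁻¹ ∈ scal K V := fun g ⟨σ, hσ⟩ x ⟨c, hc⟩ =>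
    ⟨σ c, fun v => by rw [mul_ap, mul_ap, hc, hσ, ap_inv]⟩
  refine mem_normalizer_iff.2 fun x => ⟨fw g hg x, fun hx => ?_⟩
  have := fw _ hg.inv _ hx
  rwa [show g⁻¹ * (g * x * g⁻¹) * g⁻¹⁻¹ = x by group] at this
theorem Semi.nlin {g : Aut V} (hg : Semi K g) : g ∈ normalizer (lin K V : Set (Aut V)) := by
  have fw : ∀ g : Aut V, Semi K g → ∀ x ∈ lin K V, g * x * g⁻¹ ∈ lin K V := fun g ⟨σ, hσ⟩ x hx c v => by
    rw [mul_ap, mul_ap, mul_ap, mul_ap, SemiB.smul_inv hσ, hx, hσ, σ.apply_symm_apply]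
  refine mem_normalizer_iff.2 fun x => ⟨fw g hg x, fun hx => ?_⟩
  have := fw _ hg.inv _ hx
  rwa [show g⁻¹ * (g * x * g⁻¹) * g⁻¹⁻¹ = x by group] at this
theorem Scal.lin {g : Aut V} (hg : Scal K g) : Lin K g := fun c v => by
  obtain ⟨a, ha⟩ := hg
  rw [ha, ha, smul_comm]
theorem Scal.comm {g h : Aut V} (hg : Scal K g) (hh : Lin K h) : g * h = h * g := by
  obtain ⟨a, ha⟩ := hg
  ext v
  rw [mul_ap, mul_ap, ha, ha, hh]
theorem exists_scal {c : K} (hc : c ≠ 0) : ∃ g : Aut V, ∀ v, g v = c • v :=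
  ⟨(DistribMulAction.toAddEquiv V (Units.mk0 c hc)).toIntLinearEquiv, fun _ => rfl⟩

/-- PROOF. `g ↦ σ_g` (unique as `V` is nontrivial) is a hom to the commutative group `K ≃+* K` (finite field; or: a
commutator of semilinear maps is linear as automorphisms of a finite field commute), with kernel `H ⊓ lin`. -/
theorem solv_of_lin [Nontrivial V] {H : Subgroup (Aut V)} (hs : ∀ h ∈ H, Semi K h)
    (hl : Group.IsSolvable ↥(H ⊓ lin K V)) : Group.IsSolvable H := by
  refine Group.isSolvable_of_ker_le_range (Subgroup.inclusion (inf_le_left : H ⊓ lin K V ≤ H))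
    (Abelianization.of (G := H)) ?_
  rw [Abelianization.ker_of, commutator_def, commutator_le]
  intro a _ b _
  obtain ⟨σ, hσ⟩ := hs a a.2
  obtain ⟨τ, hτ⟩ := hs b b.2
  have hm : ((a * b * a⁻¹ * b⁻¹ : H) : Aut V) ∈ lin K V := fun c v => by
    have := SemiB.smul_mul (SemiB.smul_mul (SemiB.smul_mul hσ hτ) (SemiB.smul_inv hσ)) (SemiB.smul_inv hτ) c v
    refine this.trans ?_
    have e : σ (τ (σ.symm (τ.symm c))) = c := by
      rw [SemiB.aut_comm σ τ, σ.apply_symm_apply, τ.apply_symm_apply]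
    exact congrArg (· • _) e
  exact ⟨⟨_, (a * b * a⁻¹ * b⁻¹ : H).2, hm⟩, rfl⟩

/-- PROOF. `l` a generator of `Kˣ`; `g ∈ G` agreeing with the linear `h` at `v ≠ 0` and `l • v` has `σ l = l`, so `σ = 1`,
`g` is linear hence scalar; so `h v ∈ K v` for all `v`, and two such linear maps commute. -/
theorem solv_scal {G : Subgroup (Aut V)} (hs : ∀ g ∈ G, Semi K g) (hl : ∀ g ∈ G, Lin K g → Scal K g) :
    Group.IsSolvable ↥(cl G ⊓ lin K V) := by
  obtain ⟨l, hl'⟩ := IsCyclic.exists_monoid_generator (α := Kˣ)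
  have ev : ∀ h ∈ cl G ⊓ lin K V, ∀ v, ∃ c : K, h v = c • v := fun h hh v => by
    by_cases hv : v = 0
    · exact ⟨0, by rw [hv, map_zero, smul_zero]⟩
    obtain ⟨g, hg, e1, e2⟩ := hh.1 v ((l : K) • v)
    obtain ⟨σ, hσ⟩ := hs g hg
    have n0 : h v ≠ 0 := (map_ne_zero_iff h h.injective).2 hv
    have e : σ l = l := smul_left_injective K n0 (by
      show σ l • h v = (l : K) • h v
      rw [← hh.2 l v, ← e2, hσ, e1])
    obtain ⟨c, hc⟩ := hl g hg fun c w => by rw [hσ, SemiB.aut_fix hl' e]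
    exact ⟨c, by rw [← e1, hc]⟩
  refine Group.isSolvable_of_comm fun a b => Subtype.ext (LinearEquiv.ext fun v => ?_)
  obtain ⟨x, hx⟩ := ev a a.2 v
  obtain ⟨y, hy⟩ := ev b b.2 v
  show a.1 (b.1 v) = b.1 (a.1 v)
  rw [hx, hy, a.2.2, b.2.2, hx, hy, smul_comm]

end CL.TC3
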