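import Cfsg.Agent.PERM.TC3.Proj

set_option autoImplicit false
set_option linter.unusedSectionVars false

namespace CL.TC3
open Subgroup

variable {K V M : Type} {r : ℕ} [Fact r.Prime] [Field K] [Finite K] [AddCommGroup V] [Finite V] [Nontrivial V]
  [Module K V] [AddCommGroup M] [Finite M] [Module (ZMod r) M] (P : PR K V M r)

theorem StN1.sg {D : Type} [AddCommGroup D] (f g : M → D) (f0 : f 0 = 0)
    (h : ∀ t t', g t - g t' = f t - f t' ∨ g t - g t' = -(f t - f t')) :
    (∀ t, g t = g 0 + f t) ∨ ∀ t, g t = g 0 - f t := by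
  by_contra c
  push Not at c
  obtain ⟨⟨b, hb⟩, a, ha⟩ := c
  have e1 : g b = g 0 - f b := by
    rcases h b 0 with e | e <;> rw [f0, sub_zero] at e
    · exact absurd (by rw [← e]; abel) hb
    · rw [sub_eq_add_neg, ← e]; abel
  have e2 : g a = g 0 + f a := by
    rcases h a 0 with e | e <;> rw [f0, sub_zero] at e
    · rw [← e]; abel
    · exact absurd (by rw [sub_eq_add_neg, ← e]; abel) ha
  rcases h a b with e | e
  · refine hb ?_
    have : g b = g a - (f a - f b) := by rw [← e]; abel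
    rw [this, e2]; abel
  · refine ha ?_
    have : g a = g b - (f a - f b) := by rw [sub_eq_add_neg, ← e]; abel
    rw [this, e1]; abel

namespace PR

/-- PROOF. Write `s ~ s'` if `β b s = β b s'` on `A` (`E_congr`, `type_eq`). `E t ∋ ρ t u ≠ 0`. For `0 ≠ y ∈ E t`,
`h y = c ρ x y ∈ E (t + x)`. All nonzero `y, y' ∈ E t` give the same class `p t` (if `h y ∈ E s`, `h y' ∈ E s'`, `s ≁ s'`,
then `y + y' ≠ 0`, `h (y + y') ∈ E s''`, and `π s`, `π s'` of it are nonzero, so `s ~ s'' ~ s'`). For `t ≁ t'`,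
`h (y + y') = c ρ x y + c ρ x y'` has the two components `t + x ≁ t' + x`, so `{p t, p t'} = {t + x, t' + x}` and
`p t - p t' ~ ± (t - t')` (also trivially if `t ~ t'`). Put `q t = p t - p 0 ~ ± t`. If `q a ~ a ≁ -a` and `q b ~ -b ≁ b`,
then `a + b ~ ± (a - b)` gives `2 b ~ 0` or `2 a ~ 0`, absurd. So `q t ~ t` for all `t` or `q t ~ -t` for all `t`. -/
theorem sgn {u : V} (u0 : u ≠ 0) {A : Submodule (ZMod r) M} (hA : A ≤ P.St u) (h : Aut V)
    (ho : ∀ v, ∃ x, ∃ c : K, h v = c • P.ρ x v) :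
    ∃ t₀ : M, (∀ t, ∀ y ∈ P.E A u t, h y ∈ P.E A u (t₀ + t)) ∨ ∀ t, ∀ y ∈ P.E A u t, h y ∈ P.E A u (t₀ - t) := by
  obtain ⟨-, π, -, p1, p2⟩ := P.exists_proj u0 hA
  obtain ⟨L, hL⟩ : ∃ L : M →+ A → ZMod r, ∀ t b, L t b = P.β b t :=
    ⟨⟨⟨fun t b => P.β b t, by ext b; simp⟩, fun s t => by ext b; simp⟩, fun _ _ => rfl⟩
  have hE : ∀ {s s'}, L s = L s' → P.E A u s = P.E A u s' := fun e =>
    P.E_congr u fun b hb => by rw [← hL _ ⟨b, hb⟩, e, hL]
  have ty : ∀ {s s' y}, y ≠ 0 → y ∈ P.E A u s → y ∈ P.E A u s' → L s = L s' := fun y0 a b =>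
    funext fun x => by rw [hL, hL, P.type_eq u0 hA y0 a b x x.2]
  have kill : ∀ {s s' y}, L s ≠ L s' → y ∈ P.E A u s' → π s y = 0 := fun {s s' y} e hy => by
    obtain ⟨b, hb⟩ := Function.ne_iff.1 e
    exact p2 s s' ⟨b, b.2, by rwa [hL, hL] at hb⟩ y hy
  have cmp : ∀ {s s' s₁ s₂ y y' z z'}, y ≠ 0 → y ∈ P.E A u s → y' ∈ P.E A u s' → L s ≠ L s' → z ∈ P.E A u s₁ →
      z' ∈ P.E A u s₂ → y + y' = z + z' → L s = L s₁ ∨ L s = L s₂ := fun {s s' s₁ s₂ y y' z z'} y0 a b n c d e => by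
    by_contra k
    push Not at k
    have := congrArg (π s) e
    rw [map_add, map_add, p1 s y a, kill n b, kill k.1 c, kill k.2 d, add_zero, add_zero] at this
    exact y0 this
  have mem : ∀ t, P.ρ t u ∈ P.E A u t := fun t => by
    have := P.ρ_mem_E t (P.self_mem_E A u)
    rwa [zero_add] at this
  have nz : ∀ (g : Aut V) {y}, y ≠ 0 → g y ≠ 0 := fun g y y0 => (map_ne_zero_iff g g.injective).2 y0
  have ex : ∀ {t y}, y ∈ P.E A u t → ∃ s, h y ∈ P.E A u s := fun {t y} hy => by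
    obtain ⟨x, c, e⟩ := ho y
    exact ⟨t + x, e ▸ Submodule.smul_mem _ c (P.ρ_mem_E x hy)⟩
  choose p hp using fun t => ex (mem t)
  have all : ∀ t, ∀ y ∈ P.E A u t, h y ∈ P.E A u (p t) := fun t y hy => by
    by_cases y0 : y = 0
    · rw [y0, map_zero]; exact zero_mem _
    obtain ⟨s, hs⟩ := ex hy
    by_cases e : L s = L (p t)
    · exact hE e ▸ hs
    obtain ⟨s', hs'⟩ := ex (add_mem hy (mem t))
    have a := cmp (nz h y0) hs (hp t) e hs' (zero_mem (P.E A u s')) (by rw [map_add, add_zero])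
    have b := cmp (nz h (nz _ u0)) (hp t) hs (Ne.symm e) hs' (zero_mem (P.E A u s'))
      (by rw [map_add, add_zero, add_comm])
    rw [or_self] at a b
    exact absurd (a.trans b.symm) e
  have key : ∀ t t', L (p t) - L (p t') = L t - L t' ∨ L (p t) - L (p t') = -(L t - L t') := fun t t' => by
    by_cases e : L t = L t'
    · left
      rw [e, ty (nz h (nz _ u0)) (hp t) (all t' _ (hE e ▸ mem t)), sub_self, sub_self]
    obtain ⟨x, c, k⟩ := ho (P.ρ t u + P.ρ t' u)
    have c0 : c ≠ 0 := fun c0 => by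
      rw [c0, zero_smul, map_eq_zero_iff h h.injective, add_eq_zero_iff_eq_neg] at k
      exact e (ty (nz _ u0) (mem t) (k ▸ neg_mem (mem t')))
    rw [map_add, map_add, smul_add] at k
    have m := fun t => Submodule.smul_mem _ c (P.ρ_mem_E x (mem t))
    have n : ∀ t, c • P.ρ x (P.ρ t u) ≠ 0 := fun t => smul_ne_zero c0 (nz _ (nz _ u0))
    have e' : L (t + x) ≠ L (t' + x) := by rwa [map_add, map_add, Ne, add_left_inj]
    have a := cmp (n t) (m t) (m t') e' (hp t) (hp t') k.symm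
    have b := cmp (n t') (m t') (m t) e'.symm (hp t) (hp t') (by rw [k, add_comm])
    rcases a with a | a <;> rcases b with b | b
    · exact absurd (a.trans b.symm) e'
    · left; rw [← a, ← b, map_add, map_add]; abel
    · right; rw [← a, ← b, map_add, map_add]; abel
    · exact absurd (a.trans b.symm) e'
  refine ⟨p 0, (StN1.sg L (fun t => L (p t)) (map_zero L) key).imp (fun e t y hy => ?_) fun e t y hy => ?_⟩
  · exact hE ((e t).trans (map_add L _ _).symm) ▸ all t y hy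
  · exact hE ((e t).trans (map_sub L _ _).symm) ▸ all t y hy

end PR

end CL.TC3
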